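import Cfsg.Agent.Lib.C1.Gam
import Cfsg.Agent.Lib.F4.EssA
import Cfsg.Agent.Lib.U5.Ext

/-!
Row E3: invariants of `E₃` and the comparison of its automizers.
-/

set_option autoImplicit false
set_option linter.style.haveILetI false
set_option linter.unusedSimpArgs false
set_option linter.unnecessarySeqFocus false

namespace Cfsg.Agent.C1

open Cfsg.Agent.Fus Cfsg.Agent.Fus2 Cfsg.Agent.Ess Subgroup
open Cfsg.Agent.F4 (Iv Ch chain)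
open Cfsg.Agent.F4.EA (icj_map iv_cen)

/-- Two lifts which differ by an element of a `p`-group `N` normalised by a `p'`-group `H`. -/
theorem cmp2 {X : Type*} [Group X] [Finite X] {p : ℕ} [hp : Fact p.Prime] {Γ H N : Subgroup X}
    (hN : IsPGroup p N) (hcop : ¬ p ∣ Nat.card H) (hH : H ≤ Γ)
    (hHN : ∀ h ∈ H, ∀ n ∈ N, h * n * h⁻¹ ∈ N)
    (hfix : ∀ n ∈ N, (∀ h ∈ H, h * n = n * h) → n ∈ Γ) {w w' : X} (hw' : w' ∈ Γ)
    (hn : w'⁻¹ * w ∈ N) (hw : ∀ h ∈ H, w * h * w⁻¹ ∈ Γ) : w ∈ Γ := by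
  have hI : IsPGroup p (N ⊓ Γ : Subgroup X) := hN.to_inf_left
  haveI := hI.isNilpotent
  obtain ⟨k, hk⟩ := IsPGroup.iff_card.1 hI
  obtain ⟨i, hi, hc⟩ := Solv.exists_mul_mem_centralizer (A := H) (N := N ⊓ Γ)
    (fun h hh => mem_normalizer_of_conj_mem fun n hn =>
      ⟨hHN h hh n hn.1, Γ.mul_mem (Γ.mul_mem (hH hh) hn.2) (Γ.inv_mem (hH hh))⟩)
    (hk ▸ (((Nat.Prime.coprime_iff_not_dvd hp.out).2 hcop).symm.pow_right k))
    (.inr inferInstance) (w'⁻¹ * w) fun h hh => ⟨N.mul_mem (hHN h hh _ hn) (N.inv_mem hn), by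
      have := mul_mem (hH hh) (mul_mem (mul_mem (inv_mem hw') (hw _ (inv_mem hh))) hw')
      rwa [show h * (w'⁻¹ * (w * h⁻¹ * w⁻¹) * w') = h * (w'⁻¹ * w) * h⁻¹ * (w'⁻¹ * w)⁻¹ by group]
        at this⟩
  have := hfix _ (mul_mem hi.1 hn) fun h hh => hc h hh
  rw [show w = w' * i⁻¹ * (i * (w'⁻¹ * w)) by group]
  exact mul_mem (mul_mem hw' (inv_mem hi.2)) this

namespace T3

theorem iv_up {Ω : Type*} [Group Ω] {E A B C : Subgroup Ω} {H : Subgroup (MulAut E)} (hA : A ≤ E)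
    (iA : Iv H A) (iB : Iv H B) (h₁ : ∀ g ∈ C, ∀ a ∈ A, a⁻¹ * (g * a * g⁻¹) ∈ B)
    (h₂ : ∀ g ∈ E, (∀ a ∈ A, a⁻¹ * (g * a * g⁻¹) ∈ B) → g ∈ C) : Iv H C :=
  fun _ hβ x hx hx' => h₂ _ (afn_mem _ hx) (icj_map hA iA iB hβ hx (h₁ x hx'))

def G5 : Subgroup P := grp fun s => s.x = 0 ∧ s.y = 0 ∧ s.v.f = 0 ∧ s.v.e = 0
def YG : Subgroup P := grp fun s => s.x = 0 ∧ s.y = 0 ∧ s.v.f = 0
def B0 : Subgroup P := grp fun s => s.x = 0 ∧ s.v.f = 0 ∧ s.v.c = 0 ∧ s.v.e = 0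

variable {s : P}

theorem mG5 : s ∈ G5 ↔ s.x = 0 ∧ s.y = 0 ∧ s.v.f = 0 ∧ s.v.e = 0 := Iff.rfl
theorem mYG : s ∈ YG ↔ s.x = 0 ∧ s.y = 0 ∧ s.v.f = 0 := Iff.rfl
theorem mB0 : s ∈ B0 ↔ s.x = 0 ∧ s.v.f = 0 ∧ s.v.c = 0 ∧ s.v.e = 0 := Iff.rfl
theorem mY5 : s ∈ jS vY5 ↔ s.x = 0 ∧ s.y = 0 ∧ s.z = 0 ∧ s.v.f = 0 := Iff.rfl
theorem mY4 : s ∈ jS vY4 ↔ s.x = 0 ∧ s.y = 0 ∧ s.z = 0 ∧ s.v.f = 0 ∧ s.v.e = 0 := Iff.rfl
theorem mW : s ∈ jS vW ↔ s.x = 0 ∧ s.y = 0 ∧ s.z = 0 ∧ s.v.f = 0 ∧ s.v.e = 0 ∧ s.v.c = 0 := Iff.rfl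
theorem mY2 : s ∈ jS vY2 ↔
    s.x = 0 ∧ s.y = 0 ∧ s.z = 0 ∧ s.v.f = 0 ∧ s.v.e = 0 ∧ s.v.c = 0 ∧ s.v.d = 0 := Iff.rfl
theorem mZ : s ∈ jS vZ ↔ s.x = 0 ∧ s.y = 0 ∧ s.z = 0 ∧ s.v.f = 0 ∧ s.v.e = 0 ∧ s.v.c = 0 ∧
    s.v.d = 0 ∧ s.v.b = 0 := Iff.rfl

theorem two_ne : (2 : K) ≠ 0 := by decide

instance : E3.Normal := ⟨fun s hs g => by simp [mem_E3, act, mem_E3.1 hs]⟩

theorem O_le : O ≤ E3 := fun _ h => h.2
theorem Y5_le : jS vY5 ≤ O := fun _ h => ⟨h.1, h.2.2.2⟩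
theorem W_le : jS vW ≤ B0 := fun _ h => ⟨h.1, h.2.2.2.1, h.2.2.2.2.2, h.2.2.2.2.1⟩
theorem B0_le : B0 ≤ O := fun _ h => ⟨h.1, h.2.1⟩
theorem W_le5 : jS vW ≤ jS vY5 := fun _ h => ⟨h.1, h.2.1, h.2.2.1, h.2.2.2.1⟩

section Inv

variable (H : Subgroup (MulAut E3))

theorem iE : Iv H E3 := fun β _ _ hx _ => afn_mem β hx

theorem iZ : Iv H (jS vZ) := by
  refine iv_cen le_rfl (iE H) (fun a _ g hg => ?_) fun g hg h => ?_
  · obtain ⟨a1, a2, a3, a4, a5, a6, a7, a8⟩ := mZ.1 hg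
    ext <;> simp [act, *, add_comm]
  have h₁ := congrArg (·.v.c) (h (jv ee) rfl)
  have h₂ := congrArg (·.v.b) (h (jv ec) rfl)
  have h₃ := congrArg (·.v.a) (h (jv ec) rfl)
  have h₄ := h ⟨1, 0, 0, 0⟩ rfl
  have h₅ := congrArg (·.v.b) (h ⟨0, 1, 0, 0⟩ rfl)
  simp [act, ee, ec, two_ne] at h₁ h₂ h₃
  have h₆ := congrArg (·.v.c) h₄
  have h₇ := congrArg (·.v.b) h₄
  have h₈ := congrArg (·.v.a) h₄
  simp [act, mem_E3.1 hg] at h₅ h₆ h₇ h₈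
  simp [h₇, two_ne] at h₈
  exact ⟨h₁, h₂, h₃, hg, h₆, h₅, h₇, h₈⟩

theorem iY2 : Iv H (jS vY2) := by
  refine iv_up le_rfl (iE H) (iZ H) (fun g hg a _ => ?_) fun g hg h => ?_
  · obtain ⟨a1, a2, a3, a4, a5, a6, a7⟩ := mY2.1 hg
    simp [mZ, act, *]
    exact ⟨by ring, by ring, by ring⟩
  have h₁ := mZ.1 (h (jv ee) rfl)
  have h₂ := mZ.1 (h (jv ec) rfl)
  have h₄ := mZ.1 (h ⟨1, 0, 0, 0⟩ rfl)
  have h₅ := mZ.1 (h ⟨0, 1, 0, 0⟩ rfl)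
  rw [icj_jv] at h₁ h₂
  simp [act, ee, ec, rho_apply, two_ne] at h₁ h₂
  obtain ⟨a1, a2, a3⟩ := h₁
  simp [a1] at a3
  simp [act, mem_E3.1 hg, a1, a2, a3, two_ne] at h₄ h₅
  exact ⟨a1, a2, a3, hg, h₄.1, h₅.2, h₄.2⟩

theorem iG5 : Iv H G5 := by
  refine iv_up le_rfl (iE H) (iY2 H) (fun g hg a ha => ?_) fun g hg h => ?_
  · obtain ⟨a1, a2, a3, a4⟩ := mG5.1 hg
    simp [mY2, act, mem_E3.1 ha, *]
  have h₁ := mY2.1 (h (jv ee) rfl)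
  have h₄ := mY2.1 (h ⟨1, 0, 0, 0⟩ rfl)
  rw [icj_jv] at h₁
  simp [act, ee, rho_apply, two_ne] at h₁
  simp [act, mem_E3.1 hg, h₁.1, h₁.2] at h₄
  exact ⟨h₁.1, h₁.2, hg, h₄⟩

theorem iW : Iv H (jS vW) := by
  have hC : Iv H (centralizer (G5 : Set P)) :=
    iv_cen (A := G5) (fun _ h => h.2.2.1) (iG5 H) (fun a ha g hg => hg a ha) fun g _ h a ha => (h a ha).symm
  refine F4.EA.Iv.inf' (iG5 H) hC fun g => ⟨fun hg => ?_, fun ⟨hg, h⟩ => ?_⟩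
  · obtain ⟨a1, a2, a3, a4, a5, a6⟩ := mW.1 hg
    refine ⟨⟨a1, a2, a4, a5⟩, fun a ⟨b1, b2, b3, b4⟩ => ?_⟩
    ext <;> simp [act, *, add_comm]
  obtain ⟨a1, a2, a3, a4⟩ := hg
  have h₁ := congrArg (·.v.a) (h (jv ec) ⟨rfl, rfl, rfl, rfl⟩)
  have h₂ := congrArg (·.v.a) (h ⟨0, 0, 1, 0⟩ ⟨rfl, rfl, rfl, rfl⟩)
  simp [act, ec, two_ne, a1, a3] at h₁ h₂
  exact ⟨a1, a2, h₁, a3, a4, h₂⟩

theorem comm_W {w : P} (hs : s ∈ O) (hw : w ∈ jS vW) : w * s = s * w := by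
  obtain ⟨a1, a2, a3, a4, a5, a6⟩ := mW.1 hw
  ext <;> simp [act, hs.1, *, add_comm]

theorem iO : Iv H O := by
  refine iv_cen (A := jS vW) (fun _ h => h.2.2.2.1) (iW H) (fun a ha g hg => comm_W hg ha) fun g hg h => ?_
  have h₁ := congrArg (·.v.b) (h (jv ed) ⟨rfl, rfl, rfl, rfl, rfl, rfl⟩)
  simp [act, ed] at h₁
  exact ⟨h₁, hg⟩

variable {H} (i5 : Iv H (jS vY5))
include i5

theorem iYG : Iv H YG := by
  refine iv_up (Y5_le.trans O_le) i5 (iY2 H) (fun g hg a ha => ?_) fun g hg h => ?_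
  · obtain ⟨a1, a2, a3⟩ := mYG.1 hg
    obtain ⟨b1, b2, b3, b4⟩ := mY5.1 ha
    simp [mY2, act, *]
  have h₁ := mY2.1 (h (jv ee) ⟨rfl, rfl, rfl, rfl⟩)
  rw [icj_jv] at h₁
  simp [act, ee, rho_apply, two_ne] at h₁
  exact ⟨h₁.1, h₁.2, hg⟩

theorem iY4 : Iv H (jS vY4) :=
  F4.EA.Iv.inf' i5 (iG5 H) fun g => by simp only [mY4, mY5, mG5]; tauto

end Inv

theorem afn_O (β : MulAut E3) (hs : s ∈ O) : afn β s ∈ O := iO ⊤ β trivial s (O_le hs) hs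

theorem afn_W (β : MulAut E3) (hs : s ∈ jS vW) : afn β s ∈ jS vW :=
  iW ⊤ β trivial s hs.2.2.2.1 hs

theorem c₁ (g x : P) (hx : x ∈ E3) : x⁻¹ * (g * x * g⁻¹) ∈ O := by
  simp [mem_O, act, mem_E3.1 hx]

theorem c₂ (g x : P) (hx : x ∈ O) : x⁻¹ * (g * x * g⁻¹) ∈ YG := by
  simp [mYG, act, hx.1, hx.2]

theorem c₃ (g x : P) (hx : x ∈ YG) : x⁻¹ * (g * x * g⁻¹) ∈ jS vY5 := by
  simp [mY5, act, hx.1, hx.2.1, hx.2.2]; ring

theorem c₄ (g x : P) (hx : x ∈ jS vY5) : x⁻¹ * (g * x * g⁻¹) ∈ jS vY4 := by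
  obtain ⟨v, hv, rfl⟩ := exists_jv hx
  simp [icj_jv, mY4, rho_apply, act, mem_vY5.1 hv]

theorem c₅ (g x : P) (hx : x ∈ jS vY4) : x⁻¹ * (g * x * g⁻¹) ∈ jS vW := by
  obtain ⟨v, hv, rfl⟩ := exists_jv hx
  simp [icj_jv, mW, rho_apply, act, hv.1, hv.2]

theorem c₆ (g x : P) (hx : x ∈ jS vW) : x⁻¹ * (g * x * g⁻¹) ∈ jS vY2 := by
  obtain ⟨v, hv, rfl⟩ := exists_jv hx
  simp [icj_jv, mY2, rho_apply, act, hv.1, hv.2.1, hv.2.2]

theorem c₇ (g x : P) (hx : x ∈ jS vY2) : x⁻¹ * (g * x * g⁻¹) ∈ jS vZ := by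
  obtain ⟨v, hv, rfl⟩ := exists_jv hx
  simp [icj_jv, mZ, rho_apply, act, hv.1, hv.2.1, hv.2.2.1, hv.2.2.2]

theorem c₈ (g x : P) (hx : x ∈ jS vZ) : g * x = x * g := by
  obtain ⟨a1, a2, a3, a4, a5, a6, a7, a8⟩ := mZ.1 hx
  ext <;> simp [act, *, add_comm]

variable {F F' : FusionSystem (⊤ : Subgroup P)}

theorem mv (hF : F.IsSaturated 3) (hE : F.IsEssential 3 E3) : Mv3 F := by
  by_contra h
  have i5 : Iv (F.autGroup E3) (jS vY5) := fun β hβ x _ hx => by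
    by_contra hc
    exact h ⟨_, au_afn hβ, x, hx, hc⟩
  have := chain pg_top hF hE (Q := ⊤) le_rfl le_normalizer_of_normal
    [O, YG, jS vY5, jS vY4, jS vW, jS vY2, jS vZ] (by
      simp only [List.forall_mem_cons]
      exact ⟨iO _, iYG i5, i5, iY4 i5, iW _, iY2 _, iZ _, by simp⟩)
    ⟨fun g _ x hx _ => c₁ g x hx, fun g _ x _ => c₂ g x, fun g _ x _ => c₃ g x,
      fun g _ x _ => c₄ g x, fun g _ x _ => c₅ g x, fun g _ x _ => c₆ g x, fun g _ x _ => c₇ g x,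
      fun g _ x _ => c₈ g x⟩
  exact one_ne_zero (mem_E3.1 (this (mem_top (jv ef))))

/-- The chain of the extension lemma. -/
def cn : ℕ → Subgroup P
  | 0 => ⊥
  | 1 => jS vZ
  | 2 => jS vY2
  | 3 => jS vW
  | 4 => jS vY4
  | 5 => jS vY5
  | 6 => YG
  | 7 => O
  | _ + 8 => E3

theorem ext5 (hF : F.IsSaturated 3) {β : MulAut E3} (hβ : β ∈ F.autGroup E3)
    (h : ∀ s ∈ jS vY5, afn β s ∈ jS vY5) : ∃ g, M F ⊤ g ∧ ∀ x ∈ E3, g x = afn β x := by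
  have i5 : Iv (stabSub ((jS vY5).subgroupOf E3)) (jS vY5) := fun γ hγ x hx hx' => by
    rw [afn_apply _ hx]; exact hγ ⟨x, hx⟩ hx'
  have hm : β ∈ stabSub ((jS vY5).subgroupOf E3) := fun x hx => by
    have := h x hx
    rwa [afn_coe] at this
  refine U5.ext_of_chain (E := E3) pg_top hF le_top le_normalizer_of_normal cn 8 (fun i hi => ?_) le_rfl rfl
    (fun g _ i hi x hx => ?_) (M_afn le_top hβ) (fun _ => afn_mem β) fun i hi => ?_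
  · interval_cases i
    exacts [bot_le, jS_mono fun v h => ⟨h.1, h.2.1, h.2.2.1, h.2.2.2.1⟩,
      jS_mono fun v h => ⟨h.1, h.2.1, h.2.2.1⟩, jS_mono fun v h => ⟨h.1, h.2.1⟩,
      jS_mono fun v h => h.1, fun _ h => ⟨h.1, h.2.1, h.2.2.2⟩, fun _ h => ⟨h.1, h.2.2⟩, O_le]
  · interval_cases i
    exacts [fun h => mem_bot.2 (by rw [c₈ g x h]; group), c₇ g x, c₆ g x, c₅ g x, c₄ g x, c₃ g x,
      c₂ g x, c₁ g x]
  · interval_cases i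
    exacts [fun x _ h => by rw [mem_bot.1 h, (homOn_afn β).map_one]; exact one_mem _,
      iZ _ β hm, iY2 _ β hm, iW _ β hm, iY4 i5 β hm, i5 β hm, iYG i5 β hm, iO _ β hm, iE _ β hm]

theorem key (hF : F.IsSaturated 3) (hM : ∀ f, M F ⊤ f → M F' ⊤ f) {β : MulAut E3}
    (hβ : β ∈ F.autGroup E3) (h : ∀ s ∈ jS vY5, afn β s ∈ jS vY5) : β ∈ F'.autGroup E3 := by
  obtain ⟨g, hg, e⟩ := ext5 hF hβ h
  exact ((hM g hg).mono le_top).mem_autGroup fun x hx => (e x hx).symm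

/-- The coordinates on `O / W`. -/
def ka (s : P) : K × K × K × K := (s.y, s.z, s.v.c, s.v.e)

theorem ka_mul {t : P} (hs : s ∈ O) (ht : t ∈ O) : ka (s * t) = ka s + ka t := by
  simp [ka, act, hs.1, ht.2]

theorem ka_inv (hs : s ∈ O) : ka s⁻¹ = -ka s := by simp [ka, act, hs.1, hs.2]

theorem mem_W_iff (hs : s ∈ O) : s ∈ jS vW ↔ ka s = 0 := by
  simp only [ka, mW, hs.1, show s.v.f = 0 from hs.2, Prod.mk_eq_zero]; tauto

theorem ka_eq {t : P} (hs : s ∈ O) (ht : t ∈ O) : s⁻¹ * t ∈ jS vW ↔ ka t = ka s := by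
  rw [mem_W_iff (mul_mem (inv_mem hs) ht), ka_mul (inv_mem hs) ht, ka_inv hs, neg_add_eq_zero,
    eq_comm]

/-- The standard elements of `Y₅`. -/
def el (q : K × K) : P := jv ⟨0, 0, q.1, 0, q.2, 0⟩

theorem el_mem (q : K × K) : el q ∈ jS vY5 := ⟨rfl, rfl, rfl, rfl⟩

/-- The map induced on `Y₅ / W`. -/
noncomputable def ph (β : MulAut E3) : K × K →+ K × K × K × K :=
  AddMonoidHom.mk' (fun q => ka (afn β (el q))) fun q q' => by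
    rw [← ka_mul (afn_O β (Y5_le (el_mem q))) (afn_O β (Y5_le (el_mem q'))),
      ← (homOn_afn β).map_mul (O_le (Y5_le (el_mem q))) (O_le (Y5_le (el_mem q'))), el, el, el,
      ← jv_add]
    rfl

theorem ka_afn (β : MulAut E3) {t : P} (hs : s ∈ O) (ht : t ∈ O) :
    ka (afn β t) = ka (afn β s) ↔ ka t = ka s := by
  rw [← ka_eq hs ht, ← ka_eq (afn_O β hs) (afn_O β ht), ← (homOn_afn β).map_inv (O_le hs),
    ← (homOn_afn β).map_mul (inv_mem (O_le hs)) (O_le ht)]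
  exact ⟨fun h => by simpa only [afn_inv_afn] using afn_W β⁻¹ h, afn_W β⟩

theorem ka_Y5 (β : MulAut E3) (hs : s ∈ jS vY5) : ka (afn β s) = ph β (s.v.c, s.v.e) :=
  (ka_afn β (Y5_le (el_mem _)) (Y5_le hs)).2 (by simp [ka, el, hs.2.1, hs.2.2.1])

theorem ph_inj (β : MulAut E3) : Function.Injective (ph β) := fun q q' h => by
  have := (ka_afn β (Y5_le (el_mem q')) (Y5_le (el_mem q))).1 h
  simp only [ka, el, jv_v, Prod.mk.injEq] at this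
  exact Prod.ext this.2.2.1 this.2.2.2

theorem ph_lin (β : MulAut E3) (i j : K) : ph β (i, j) = i • ph β (1, 0) + j • ph β (0, 1) := by
  have e : ∀ (k : K) q, ph β (k • q) = k • ph β q := ((ph β).toZModLinearMap 3).map_smul
  rw [← e, ← e, ← map_add]; simp

set_option synthInstance.maxSize 1024 in
theorem fin_iso : ∀ y₁ z₁ c₁ e₁ y₂ z₂ c₂ e₂ : K, z₁ * c₂ = z₂ * c₁ →
    y₁ * c₂ + z₁ * e₂ = y₂ * c₁ + z₂ * e₁ → y₁ * e₂ = y₂ * e₁ →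
    (∀ i j : K, i * y₁ + j * y₂ = 0 → i * z₁ + j * z₂ = 0 → i * c₁ + j * c₂ = 0 →
      i * e₁ + j * e₂ = 0 → i = 0 ∧ j = 0) →
    (y₁ = 0 ∧ z₁ = 0 ∧ y₂ = 0 ∧ z₂ = 0) ∨
      ∃ l : K, c₁ = l * z₁ ∧ e₁ = l * y₁ ∧ c₂ = l * z₂ ∧ e₂ = l * y₂ := by decide +kernel

/-- The image of `Y₅` is one of four subgroups. -/
theorem four (β : MulAut E3) : (∀ s ∈ jS vY5, afn β s ∈ jS vY5) ∨
    ∃ l, ∀ s ∈ jS vY5, (afn β s).v.c = l * (afn β s).z ∧ (afn β s).v.e = l * (afn β s).y := by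
  have h₁ := afn_O β (Y5_le (el_mem (1, 0)))
  have h₂ := afn_O β (Y5_le (el_mem (0, 1)))
  have hc := U5.E3.afn_comm β (O_le (Y5_le (el_mem (1, 0)))) (O_le (Y5_le (el_mem (0, 1))))
    (comm_J (jv_mem _) (jv_mem _))
  have e : ∀ s ∈ jS vY5, ka (afn β s) =
      s.v.c • ka (afn β (el (1, 0))) + s.v.e • ka (afn β (el (0, 1))) := fun s hs => by
    rw [ka_Y5 β hs, ph_lin]; rfl
  have hi : ∀ i j : K, i • ka (afn β (el (1, 0))) + j • ka (afn β (el (0, 1))) = 0 →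
      i = 0 ∧ j = 0 := fun i j h =>
    Prod.mk_eq_zero.1 (ph_inj β (((ph_lin β i j).trans h).trans (map_zero _).symm))
  generalize afn β (el (1, 0)) = o₁ at *
  generalize afn β (el (0, 1)) = o₂ at *
  have ca := congrArg (·.v.a) hc
  have cb := congrArg (·.v.b) hc
  have cd := congrArg (·.v.d) hc
  simp [act, h₁.1, h₂.1, show o₁.v.f = 0 from h₁.2, show o₂.v.f = 0 from h₂.2] at ca cb cd
  rcases fin_iso o₁.y o₁.z o₁.v.c o₁.v.e o₂.y o₂.z o₂.v.c o₂.v.e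
    (mul_left_cancel₀ two_ne (by linear_combination ca)) (by linear_combination cb)
    (mul_left_cancel₀ two_ne (by linear_combination cd))
    (fun i j a b c d => hi i j (by simp [ka, a, b, c, d])) with h | ⟨l, h⟩
  · refine .inl fun s hs => ?_
    have := e s hs
    simp [ka, h] at this
    exact ⟨(afn_O β (Y5_le hs)).1, this.1, this.2.1, (afn_O β (Y5_le hs)).2⟩
  refine .inr ⟨l, fun s hs => ?_⟩
  have := e s hs
  simp [ka, h] at this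
  rw [this.1, this.2.1, this.2.2.1, this.2.2.2]
  exact ⟨by ring, by ring⟩

/-- Conjugation by `k e₃²`. -/
noncomputable def tk (k : K) : MulAut E3 :=
  conjAut E3 (jv (k • ef)) (le_normalizer_of_normal (mem_top _))

theorem tk_mem (F : FusionSystem (⊤ : Subgroup P)) (k : K) : tk k ∈ F.autGroup E3 :=
  (M_conj F le_top (mem_top _)).mem_autGroup fun _ hx => afn_conjAut _ hx

theorem afn_tk (k : K) (hs : s ∈ E3) : afn (tk k) s = jv (k • ef) * s * (jv (k • ef))⁻¹ :=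
  afn_conjAut _ hs

theorem ka_tk (k : K) (hs : s ∈ O) :
    ka (afn (tk k) s) = (s.y, s.z, s.v.c - k * s.z, s.v.e - k * s.y) := by
  rw [afn_tk k (O_le hs)]
  simp [ka, act, ef, hs.1, sub_eq_add_neg, mul_comm]

theorem exists_B0 {β : MulAut E3} (h : ¬ ∀ s ∈ jS vY5, afn β s ∈ jS vY5) :
    ∃ l, ∀ s ∈ jS vY5, afn (tk l * β) s ∈ B0 := by
  obtain ⟨l, h⟩ := (four β).resolve_left h
  refine ⟨l, fun s hs => ?_⟩
  have h₁ := afn_O (tk l * β) (Y5_le hs)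
  have h₂ := ka_tk l (afn_O β (Y5_le hs))
  rw [← afn_mul] at h₂
  simp only [ka, Prod.mk.injEq, (h s hs).1, (h s hs).2, sub_self] at h₂
  exact ⟨h₁.1, h₁.2, h₂.2.2.1, h₂.2.2.2⟩

theorem back {γ : MulAut E3} (h : ∀ s ∈ jS vY5, afn γ s ∈ B0) {b : P} (hb : b ∈ B0) :
    afn γ⁻¹ b ∈ jS vY5 := by
  have e : ∀ q, ph γ q = ((ph γ q).1, (ph γ q).2.1, 0, 0) := fun q =>
    Prod.ext rfl (Prod.ext rfl (Prod.ext (h _ (el_mem q)).2.2.1 (h _ (el_mem q)).2.2.2))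
  obtain ⟨q, hq⟩ := Finite.surjective_of_injective (f := fun q => ((ph γ q).1, (ph γ q).2.1))
    (fun q q' h => ph_inj γ (by
      simp only [Prod.mk.injEq] at h
      rw [e q, e q', h.1, h.2])) (b.y, b.z)
  have h₁ := afn_O γ⁻¹ (B0_le hb)
  have h₂ := (ka_afn γ (Y5_le (el_mem q)) h₁).1 (by
    simp only [Prod.mk.injEq] at hq
    rw [afn_afn_inv]
    refine Eq.trans ?_ (e q).symm
    rw [hq.1, hq.2, ka, hb.2.2.1, hb.2.2.2])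
  simp only [ka, el, Prod.mk.injEq] at h₂
  exact ⟨h₁.1, h₂.1, h₂.2.1, h₁.2⟩

/-- The normal form of a root element opposite to `tk`. -/
def Wy (m : K) (β : MulAut E3) : Prop :=
  (∀ s ∈ E3, s⁻¹ * afn β s ∈ O) ∧ (∀ s ∈ jS vW, afn β s = s) ∧
    ∀ s ∈ O, ka (afn β s) = (s.y + m * s.v.e, s.z + m * s.v.c, s.v.c, s.v.e)

theorem Wy.mul {m m' : K} {β β' : MulAut E3} (h : Wy m β) (h' : Wy m' β') :
    Wy (m + m') (β * β') := by
  refine ⟨fun s hs => ?_, fun s hs => by rw [afn_mul, h'.2.1 s hs, h.2.1 s hs], fun s hs => ?_⟩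
  · simpa [afn_mul, mul_assoc] using mul_mem (h'.1 s hs) (h.1 _ (afn_mem β' hs))
  have e := h'.2.2 s hs
  rw [afn_mul, h.2.2 _ (afn_O β' hs)]
  simp only [ka, Prod.mk.injEq] at e ⊢
  rw [e.1, e.2.1, e.2.2.1, e.2.2.2]
  exact ⟨by ring, by ring, rfl, rfl⟩

theorem exists_wy {β : MulAut E3} (hβ : β ∈ F.autGroup E3)
    (h : ¬ ∀ s ∈ jS vY5, afn β s ∈ jS vY5) : ∃ w ∈ F.autGroup E3, Wy 1 w := by
  obtain ⟨l, h⟩ := exists_B0 h
  have hγ := mul_mem (tk_mem F l) hβ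
  generalize tk l * β = γ at h hγ
  have hx := mul_mem (mul_mem hγ (tk_mem F 1)) (inv_mem hγ)
  have e₁ : ∀ s ∈ E3, s⁻¹ * afn (γ * tk 1 * γ⁻¹) s =
      afn γ (jv (rho (afn γ⁻¹ s)⁻¹ ((1 : K) • ef) - (1 : K) • ef)) := fun s hs => by
    have hs' := afn_mem γ⁻¹ hs
    rw [← icj_jv', ← afn_tk 1 hs', (homOn_afn γ).map_mul (inv_mem hs') (afn_mem _ hs'),
      (homOn_afn γ).map_inv hs', afn_afn_inv, afn_mul, afn_mul]
  have e₂ : ∀ s ∈ E3, s⁻¹ * afn (γ * tk 1 * γ⁻¹) s ∈ B0 := fun s hs =>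
    e₁ s hs ▸ h _ (by rw [rho_apply]; simp [mY5, act])
  have e₃ : ∀ b ∈ B0, afn (γ * tk 1 * γ⁻¹) b = b := fun b hb => by
    have := back h hb
    rw [afn_mul, afn_mul, afn_tk 1 (O_le (Y5_le this)), comm_J (jv_mem _) (jS_le _ this),
      mul_inv_cancel_right, afn_afn_inv]
  have e₄ : ∀ m, Wy m (γ * tk 1 * γ⁻¹) → m ≠ 0 := fun m hm h0 => by
    have hz : (⟨0, 0, 1, 0⟩ : P) ∈ O := ⟨rfl, rfl⟩
    have := (ka_eq (afn_O γ hz) (afn_O _ (afn_O γ hz))).2 (by rw [hm.2.2 _ (afn_O γ hz), h0]; simp [ka])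
    rw [e₁ _ (afn_mem γ (O_le hz)), afn_inv_afn] at this
    have := afn_W γ⁻¹ this
    rw [afn_inv_afn] at this
    exact absurd this.2.2.2.2.2 (by decide)
  generalize γ * tk 1 * γ⁻¹ = x at *
  have e₅ : ∀ s ∈ O, (afn x s).v.c = s.v.c ∧ (afn x s).v.e = s.v.e := fun s hs => by
    have h₁ := e₂ s (O_le hs)
    have h₂ := ka_mul hs (B0_le h₁)
    rw [mul_inv_cancel_left] at h₂
    simp only [ka, Prod.mk_add_mk, Prod.mk.injEq, h₁.2.2.1, h₁.2.2.2, add_zero] at h₂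
    exact h₂.2.2
  obtain ⟨m, hm⟩ : ∃ m, ∀ s ∈ jS vY5, (afn x s).y = m * s.v.e ∧ (afn x s).z = m * s.v.c := by
    rcases four x with h | ⟨m, h⟩
    · exact ⟨0, fun s hs => by simpa using ⟨(h s hs).2.1, (h s hs).2.2.1⟩⟩
    have hm : m ≠ 0 := fun h0 => by
      have := (h _ (el_mem (1, 0))).1
      rw [(e₅ _ (Y5_le (el_mem _))).1, h0, zero_mul] at this
      exact one_ne_zero this
    refine ⟨m, fun s hs => ?_⟩
    rw [← (e₅ s (Y5_le hs)).1, ← (e₅ s (Y5_le hs)).2, (h s hs).1, (h s hs).2, ← mul_assoc,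
      ← mul_assoc, K_sq hm, one_mul, one_mul]
    exact ⟨rfl, rfl⟩
  have hw : Wy m x := ⟨fun s hs => B0_le (e₂ s hs), fun s hs => e₃ s (W_le hs), fun s hs => by
    have hb : (⟨0, s.y, s.z, 0⟩ : P) ∈ B0 := ⟨rfl, rfl, rfl, rfl⟩
    have ht : (⟨0, s.y, s.z, 0⟩ : P)⁻¹ * s ∈ jS vY5 := by simp [mY5, act, hs.1, hs.2]
    have h₁ := (homOn_afn x).map_mul (O_le (B0_le hb)) (O_le (Y5_le ht))
    rw [mul_inv_cancel_left, e₃ _ hb] at h₁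
    have h₂ := hm _ ht
    have h₃ := e₅ s hs
    rw [ka, h₃.1, h₃.2, h₁, P.mul_y, P.mul_z, h₂.1, h₂.2]
    simp [act, show s.v.f = 0 from hs.2]⟩
  rcases K_cases m with rfl | rfl | rfl
  · exact absurd rfl (e₄ _ hw)
  · exact ⟨x, hx, hw⟩
  · exact ⟨_, mul_mem hx hx, hw.mul hw⟩

/-- The automorphisms which are trivial on `E₃ / O`, `O / W` and `W`. -/
def NN : Subgroup (MulAut E3) where
  carrier := {β | TrivOn β ⊤ (O.subgroupOf E3) ∧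
    TrivOn β (O.subgroupOf E3) ((jS vW).subgroupOf E3) ∧ TrivOn β ((jS vW).subgroupOf E3) ⊥}
  one_mem' := ⟨TrivOn.one _ _, TrivOn.one _ _, TrivOn.one _ _⟩
  mul_mem' ha hb := ⟨ha.1.mul le_top hb.1,
    ha.2.1.mul (subgroupOf_mono _ (W_le.trans B0_le)) hb.2.1, ha.2.2.mul bot_le hb.2.2⟩
  inv_mem' ha := ⟨ha.1.inv le_top, ha.2.1.inv (subgroupOf_mono _ (W_le.trans B0_le)),
    ha.2.2.inv bot_le⟩

theorem mem_NN {β : MulAut E3} : β ∈ NN ↔ Wy 0 β := by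
  refine and_congr ⟨fun h s hs => ?_, fun h s _ => ?_⟩ (and_comm.trans (and_congr
    ⟨fun h s hs => ?_, fun h => trivOn_bot_iff.2 fun s hs => Subtype.ext ?_⟩
    ⟨fun h s hs => ?_, fun h s hs => ?_⟩))
  · rw [afn_apply _ hs]; exact h ⟨s, hs⟩ trivial
  · have := h s s.2
    rwa [afn_coe] at this
  · rw [afn_apply _ (O_le (B0_le (W_le hs))), trivOn_bot_iff.1 h ⟨s, O_le (B0_le (W_le hs))⟩ hs]
  · rw [← afn_coe, h s hs]
  · rw [(ka_eq hs (afn_O β hs)).1 (by rw [afn_apply _ (O_le hs)]; exact h ⟨s, O_le hs⟩ hs)]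
    simp [ka]
  · have := (ka_eq (s := s) hs (afn_O β (s := s) hs)).2 (by rw [h s hs]; simp [ka])
    rwa [afn_coe] at this

theorem NN_pg : IsPGroup 3 NN := fun β => by
  have hG := pg.to_subgroup E3
  obtain ⟨k, hk⟩ := β.2.1.exists_pow_fix hG le_top (β.2.2.1.exists_pow_fix hG
    (subgroupOf_mono _ (W_le.trans B0_le)) ⟨0, by simpa using trivOn_bot_iff.1 β.2.2.2⟩)
  exact ⟨k, Subtype.ext (MulEquiv.ext fun x => hk x trivial)⟩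

theorem NN_conj (h : MulAut E3) {n : MulAut E3} (hn : n ∈ NN) : h * n * h⁻¹ ∈ NN := by
  have a : ∀ (g : MulAut E3), ∀ x ∈ O.subgroupOf E3, g x ∈ O.subgroupOf E3 := fun g x hx => by
    have := afn_O g (s := x) hx
    rwa [afn_coe] at this
  have b : ∀ (g : MulAut E3), ∀ x ∈ (jS vW).subgroupOf E3, g x ∈ (jS vW).subgroupOf E3 :=
    fun g x hx => by
      have := afn_W g (s := x) hx
      rwa [afn_coe] at this
  exact ⟨hn.1.conj (fun _ _ => trivial) (a h), hn.2.1.conj (a _) (b h),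
    hn.2.2.conj (b _) fun x hx => by rw [mem_bot.1 hx, map_one]; exact one_mem _⟩

theorem fix {α n : MulAut E3} (hα : ∀ s ∈ E3, afn α s = dg 1 (-1) 1 s) (hn : Wy 0 n)
    (hc : α * n = n * α) : n ∈ Inn E3 := by
  have hW : ∀ s ∈ jS vW, dg 1 (-1) 1 s = s := fun s hs => by
    obtain ⟨a1, a2, a3, a4, a5, a6⟩ := mW.1 hs
    ext <;> simp [dg, dF, *]
  have hc' : ∀ s ∈ E3, dg 1 (-1) 1 (afn n s) = afn n (dg 1 (-1) 1 s) := fun s hs => by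
    rw [← hα _ (afn_mem n hs), ← hα s hs, ← afn_mul, hc, afn_mul]
  have hO : ∀ s ∈ O, afn n s = s := fun s hs => by
    have h₁ := (ka_eq hs (afn_O n hs)).2 (by rw [hn.2.2 s hs]; simp [ka])
    have h₂ : s * dg 1 (-1) 1 s ∈ jS vW := by
      simp [mW, dg, dF, act, hs.1, show s.v.f = 0 from hs.2]
    have h₃ := hn.2.1 _ h₂
    rw [(homOn_afn n).map_mul (O_le hs) (hα s (O_le hs) ▸ afn_mem α (O_le hs)), ← hc' s (O_le hs),
      ← mul_inv_cancel_left s (afn n s), map_mul, hW _ h₁, mul_assoc, mul_right_inj,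
      ← comm_W (hα s (O_le hs) ▸ afn_O α hs) h₁, ← mul_assoc, mul_eq_right] at h₃
    obtain ⟨v, -, e⟩ := exists_jv h₁
    rw [e, ← jv_add] at h₃
    have h₄ := three_smul v
    rw [jv_inj (h₃.trans jv_zero.symm), zero_add] at h₄
    rw [h₄, jv_zero, inv_mul_eq_one] at e
    exact e.symm
  have hx : (⟨1, 0, 0, 0⟩ : P) ∈ E3 := rfl
  have h₁ := hn.1 _ hx
  have h₂ := hc' _ hx
  have h₃ : afn n ⟨1, 0, 0, 0⟩ ^ 3 = 1 := by
    rw [← (homOn_afn n).map_pow hx, show (⟨1, 0, 0, 0⟩ : P) ^ 3 = 1 by decide, (homOn_afn n).map_one]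
  rw [show dg 1 (-1) 1 (⟨1, 0, 0, 0⟩ : P) = ⟨1, 0, 0, 0⟩ by decide] at h₂
  obtain ⟨w, hw, e⟩ : ∃ w ∈ O, afn n ⟨1, 0, 0, 0⟩ = w * ⟨1, 0, 0, 0⟩ * w⁻¹ ∧
      ∀ s ∈ O, w * s = s * w := by
    generalize afn n ⟨1, 0, 0, 0⟩ = q at *
    obtain ⟨x, y, z, a, b, c, d, e, f⟩ := q
    have k : ∀ k : K, -k = k → k = 0 := by decide
    simp [mem_O, act, neg_add_eq_zero] at h₁
    simp [dg, dF] at h₂
    obtain ⟨rfl, rfl⟩ := h₁
    obtain rfl := k _ h₂.1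
    obtain rfl := k _ h₂.2.1
    obtain rfl := k _ h₂.2.2.1
    obtain rfl := k _ h₂.2.2.2
    refine ⟨jv ⟨0, a - b, 0, -b, 0, 0⟩, ⟨rfl, rfl⟩, ?_, fun s hs =>
      comm_W hs ⟨rfl, rfl, rfl, rfl, rfl, rfl⟩⟩
    revert a b d
    decide +kernel
  refine Fus2.mem_Inn_iff.2 ⟨w, O_le hw, fun s hs => ?_⟩
  have hs' : s * (⟨s.x, 0, 0, 0⟩ : P)⁻¹ ∈ O := by simp [mem_O, act, mem_E3.1 hs]
  have hx' : afn n ⟨s.x, 0, 0, 0⟩ = w * ⟨s.x, 0, 0, 0⟩ * w⁻¹ := by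
    rcases K_cases s.x with h | h | h <;> rw [h]
    · exact (homOn_afn n).map_one.trans (by rw [show (⟨0, 0, 0, 0⟩ : P) = 1 from rfl]; group)
    · exact e.1
    · rw [show (⟨-1, 0, 0, 0⟩ : P) = (⟨1, 0, 0, 0⟩ : P)⁻¹ by decide, (homOn_afn n).map_inv hx, e.1]
      group
  have := (homOn_afn n).map_mul (O_le hs') (show (⟨s.x, 0, 0, 0⟩ : P) ∈ E3 from rfl)
  rw [inv_mul_cancel_right, hO _ hs', hx', ← mul_assoc, ← mul_assoc, ← e.2 _ hs'] at this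
  rw [this]
  group

theorem cmp (hF : F.IsSaturated 3) (hM : ∀ f, M F ⊤ f ↔ M F' ⊤ f) (h1 : M F ⊤ (dg 1 (-1) 1))
    (hv : Mv3 F') {f : P → P} (hf : Au F E3 f) : M F' E3 f := by
  obtain ⟨β, hβ, e⟩ := hf.1.exists_aut' hf.2
  refine (M_afn le_top (?_ : β ∈ F'.autGroup E3)).congr e
  have hk := @key F F' hF fun f => (hM f).1
  by_cases h : ∀ s ∈ jS vY5, afn β s ∈ jS vY5
  · exact hk hβ h
  obtain ⟨f', hf', s', hs', hs''⟩ := hv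
  obtain ⟨β', hβ', e'⟩ := hf'.1.exists_aut' hf'.2
  obtain ⟨w, hw, wy⟩ := exists_wy hβ h
  obtain ⟨w', hw', wy'⟩ := exists_wy hβ' fun h => hs'' (e' _ (O_le (Y5_le hs')) ▸ h s' hs')
  obtain ⟨α, hα, eα⟩ := (h1.mono (le_top (a := E3))).exists_aut' fun s hs => by
    simpa [mem_E3, dg, dF] using hs
  have hα' : α ∈ F'.autGroup E3 := (((hM _).1 h1).mono le_top).mem_autGroup eα
  have hαα : α ^ 2 = 1 := MulEquiv.ext fun s => Subtype.ext (by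
    rw [← afn_coe, sq, afn_mul, eα _ (afn_mem α s.2), eα _ s.2]
    exact (dg 1 (-1) 1).left_inv s)
  have hwF : w ∈ F'.autGroup E3 := by
    refine cmp2 NN_pg (H := zpowers α) (fun h => ?_) (zpowers_le.2 hα') (fun h _ n => NN_conj h)
      (fun n hn hc => Inn_le_autGroup le_top (fix eα (mem_NN.1 hn) (hc α (mem_zpowers α)))) hw'
      (mem_NN.2 ⟨fun s hs => ?_, fun s hs => ?_, fun s hs => ?_⟩) ?_
    · rw [Nat.card_zpowers] at h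
      exact absurd (h.trans (orderOf_dvd_of_pow_eq_one hαα)) (by decide)
    · have := wy'.1 _ (afn_mem (w'⁻¹ * w) hs)
      rw [afn_mul, afn_afn_inv] at this
      simpa [afn_mul] using mul_mem (wy.1 s hs) (inv_mem this)
    · rw [afn_mul, wy.2.1 s hs]
      conv_lhs => rw [← wy'.2.1 s hs, afn_inv_afn]
    · have := wy'.2.2 _ (afn_O (w'⁻¹ * w) hs)
      rw [afn_mul, afn_afn_inv, wy.2.2 s hs, ← afn_mul] at this
      simp only [ka, Prod.mk.injEq] at this ⊢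
      obtain ⟨a, b, c, d⟩ := this
      exact ⟨by linear_combination d - a, by linear_combination c - b, c.symm, d.symm⟩
    rintro _ ⟨k, rfl⟩
    refine conj_zpow (a := w) ▸ zpow_mem (hk (mul_mem (mul_mem hw hα) (inv_mem hw)) fun s hs => ?_) k
    have ho := afn_O w⁻¹ (Y5_le hs)
    have h₁ := wy.2.2 _ ho
    have h₂ := wy.2.2 _ (afn_O α ho)
    have h₃ := afn_O (w * α * w⁻¹) (Y5_le hs)
    rw [afn_afn_inv] at h₁
    rw [← afn_mul, ← afn_mul, eα _ (O_le ho)] at h₂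
    simp [ka, dg, dF, hs.2.1, hs.2.2.1] at h₁ h₂
    exact ⟨h₃.1, by linear_combination h₂.1 + h₁.1, by linear_combination h₂.2.1 + h₁.2.1, h₃.2⟩
  obtain ⟨l, hl⟩ := exists_B0 h
  have := hk (mul_mem (inv_mem (mul_mem (tk_mem F 1) hw)) (mul_mem (tk_mem F l) hβ)) fun s hs => by
    have ho := afn_O ((tk 1 * w)⁻¹ * (tk l * β)) (Y5_le hs)
    have h₁ := wy.2.2 _ ho
    have h₂ := ka_tk 1 (afn_O w ho)
    have h₃ := hl s hs
    rw [← afn_mul, ← afn_mul, mul_inv_cancel_left] at h₂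
    simp only [ka, Prod.mk.injEq, h₃.2.2.1, h₃.2.2.2] at h₁ h₂
    obtain ⟨a, b, c, d⟩ := h₁
    exact ⟨ho.1, by linear_combination h₂.2.2.2 + d - a, by linear_combination h₂.2.2.1 + c - b,
      ho.2⟩
  simpa only [mul_inv_cancel_left, inv_mul_cancel_left] using mul_mem (inv_mem (tk_mem F' l))
    (mul_mem (mul_mem (tk_mem F' 1) hwF) this)

end T3

theorem e3 : E3Stmt := by
  refine ⟨fun {F f} hf => ?_, T3.mv, fun hF _ hM h1 hv _ => T3.cmp hF hM h1 hv⟩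
  obtain ⟨β, -, e⟩ := hf.1.exists_aut' hf.2
  exact ⟨fun s hs => e s hs.2.2.2.1 ▸ T3.iZ ⊤ β trivial s hs.2.2.2.1 hs,
    fun s hs => e s hs.2.2.2.1 ▸ T3.afn_W β hs⟩

end Cfsg.Agent.C1
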