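import Cfsg.Agent.Lib.C1.Fin0

/-!
Row ESSA: the essential subgroups containing `J`.
-/

set_option autoImplicit false
set_option linter.unusedSimpArgs false
set_option linter.style.haveILetI false

namespace Cfsg.Agent.C1

open Cfsg.Agent.Fus Cfsg.Agent.Fus2 Subgroup

namespace Ea

open Fn

theorem conj_mem_ut3 {A B : Submodule K V} (h : B ≤ A) {γ g : GV} (h₁ : St γ A) (h₂ : St γ B)
    (hg : g ∈ ut3 h) : γ * g * γ⁻¹ ∈ ut3 h := conj_mem_ut (fun i => by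
  rcases i with _ | _ | _ | i
  exacts [fun v hv => by simp_all [c3], h₂, h₁, fun _ _ => trivial]) hg

theorem conj_mem_R {Γ : Subgroup GV} (h : IsSylowIn 3 R Γ) {A B : Submodule K V} (hBA : B ≤ A)
    (hA : ∀ s, St (rho s) A) (hB : ∀ s, St (rho s) B) {γ : GV} (hγ : γ ∈ Γ) (h₁ : St γ A)
    (h₂ : St γ B) {s : P} (hs : rho s ∈ ut3 hBA) : ∃ s', γ * rho s = rho s' * γ := by
  have hn : R ≤ normalizer ((Γ ⊓ ut3 hBA : Subgroup GV) : Set GV) := by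
    rintro _ ⟨t, rfl⟩
    refine mem_normalizer_fintype fun g hg => ⟨?_, conj_mem_ut3 hBA (hA t) (hB t) hg.2⟩
    exact Γ.mul_mem (Γ.mul_mem (h.le ⟨t, rfl⟩) hg.1) (Γ.inv_mem (h.le ⟨t, rfl⟩))
  obtain ⟨s', e⟩ := (h.eq_of_le (B := R ⊔ (Γ ⊓ ut3 hBA))
    (h.isPGroup.to_sup_of_normal_right' ((ut3_pg hBA).to_le inf_le_right) hn) le_sup_left
    (sup_le h.le inf_le_left)).le (mem_sup_right (show γ * rho s * γ⁻¹ ∈ Γ ⊓ ut3 hBA from
      ⟨Γ.mul_mem (Γ.mul_mem hγ (h.le ⟨s, rfl⟩)) (Γ.inv_mem hγ), conj_mem_ut3 hBA h₁ h₂ hs⟩))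
  exact ⟨s', by simp [e]⟩

theorem mem_W_iff {y z : K} (h : ¬ (y = 0 ∧ z = 0)) {v : V} : v ∈ vW ↔ u 0 y z v = v := by
  simp [mem_vW, u_apply, act, V.ext_iff]
  rcases K_cases y with rfl | rfl | rfl <;> rcases K_cases z with rfl | rfl | rfl <;> grind

theorem mem_Y5_iff {y z : K} (h : ¬ (y = 0 ∧ z = 0)) {v : V} :
    v ∈ vY5 ↔ u 0 y z (u 0 y z v - v) = u 0 y z v - v := by
  simp [mem_vY5, u_apply, act, V.ext_iff]
  rcases K_cases y with rfl | rfl | rfl <;> rcases K_cases z with rfl | rfl | rfl <;> grind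

theorem exists_U {x z : K} (h : ¬ (x = 0 ∧ z = 0)) {v : V} (hv : v ∈ vU) :
    ∃ w, v = u x 0 z w - w := by
  obtain ⟨h₁, h₂, h₃⟩ := hv
  by_cases hx : x = 0
  · refine ⟨⟨0, 0, z * (z * v.c - v.a), 0, z * v.b, z * v.c⟩, ?_⟩
    have := K_sq (k := z) (by tauto)
    simp [u_apply, act, V.ext_iff, hx]
    grind
  · refine ⟨⟨0, x * (x * v.b + z * v.c - v.a), 0, x * v.b - z * v.c, x * v.c, 0⟩, ?_⟩
    have := K_sq hx
    simp [u_apply, act, V.ext_iff]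
    grind

theorem exists_Z {x z : K} (h : ¬ (x = 0 ∧ z = 0)) {v : V} (hv : v ∈ vZ) :
    ∃ w ∈ vU, v = u x 0 z w - w := by
  obtain ⟨h₁, h₂, h₃, h₄, h₅⟩ := hv
  by_cases hx : x = 0
  · refine ⟨⟨0, 0, -(z * v.a), 0, 0, 0⟩, ⟨rfl, rfl, rfl⟩, ?_⟩
    have := K_sq (k := z) (by tauto)
    simp [u_apply, act, V.ext_iff, hx]
    grind
  · refine ⟨⟨0, -(x * v.a), 0, 0, 0, 0⟩, ⟨rfl, rfl, rfl⟩, ?_⟩
    have := K_sq hx
    simp [u_apply, act, V.ext_iff]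
    grind

theorem sq_z (v : V) : u 0 0 1 (u 0 0 1 v - v) - (u 0 0 1 v - v) = (-v.f) • ea := by
  simp [u_apply, act, V.ext_iff, ea]
  grind

theorem indep : ∀ x y z c d : K, x ≠ 0 → y ≠ 0 →
    c • (act x y z (act x y z ec - ec) - (act x y z ec - ec)) =
      d • (act x y z (act x y z ef - ef) - (act x y z ef - ef)) → c = 0 ∧ d = 0 := by
  decide +kernel

theorem not_conj_z {γ : GV} {x y z : K} (hx : x ≠ 0) (hy : y ≠ 0) :
    γ * u 0 0 1 ≠ u x y z * γ := fun e => by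
  have H : ∀ v, act x y z (act x y z v - v) - (act x y z v - v) = (-(γ⁻¹ v).f) • γ ea := fun v => by
    have e' : ∀ w, γ (u 0 0 1 w) = act x y z (γ w) := fun w => LinearEquiv.congr_fun e w
    rw [← map_smul, ← sq_z]
    simp only [map_sub, e', GV.apply_inv_apply, ← u_apply]
  have h₁ := (indep x y z (-(γ⁻¹ ef).f) (-(γ⁻¹ ec).f) hx hy (by rw [H, H, smul_comm])).1
  have h₂ := (indep x y z 0 1 hx hy (by rw [H ef, h₁]; simp)).2
  exact one_ne_zero h₂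

/-- Powers. -/
def pw (s : P) (k : K) : P := if k = 0 then 1 else if k = 1 then s else s⁻¹

theorem pw_mem {D : Subgroup P} {s : P} (hs : s ∈ D) (k : K) : pw s k ∈ D := by
  unfold pw
  split_ifs
  exacts [one_mem D, hs, inv_mem hs]

theorem pw_xyz (s : P) (k : K) : (pw s k).x = k * s.x ∧ (pw s k).y = k * s.y ∧
    (pw s k).z = k * s.z - s.x * s.y * (k * k - k) := by
  have h₁ : (-1 : K) ≠ 0 := by decide
  have h₂ : (-1 : K) ≠ 1 := by decide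
  rcases K_cases k with rfl | rfl | rfl <;> simp [pw, h₁, h₂]
  grind

theorem mem_of_xyz {D : Subgroup P} (hJ : J ≤ D) {s t : P} (hs : s ∈ D) (h₁ : t.x = s.x)
    (h₂ : t.y = s.y) (h₃ : t.z = s.z) : t ∈ D := by
  simpa using mul_mem (hJ (show t * s⁻¹ ∈ J by simp [mem_J, h₁, h₂, h₃])) hs

theorem mem_of_xy {D : Subgroup P} (hJ : J ≤ D) {c : P} (hc : c ∈ D) (c₁ : c.x = 0) (c₂ : c.y = 0)
    (c₃ : c.z ≠ 0) {s t : P} (hs : s ∈ D) (h₁ : t.x = s.x) (h₂ : t.y = s.y) : t ∈ D := by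
  obtain ⟨p₁, p₂, p₃⟩ := pw_xyz c (c.z * (t.z - s.z))
  have := K_sq c₃
  refine mem_of_xyz hJ (mul_mem (pw_mem hc (c.z * (t.z - s.z))) hs) ?_ ?_ ?_ <;>
    simp only [P.mul_x, P.mul_y, P.mul_z, p₁, p₂, p₃, c₁, c₂] <;> grind

end Ea

open Fn Ea in
theorem essA : EssAStmt := by
  intro F hF E hE hJ
  by_cases h₀ : E ≤ J
  · exact .inl (le_antisymm h₀ hJ)
  obtain ⟨a, ha, haJ⟩ := SetLike.not_le_iff_exists.1 h₀
  have ne : ∀ {γ : GV} {s' : P}, γ * rho a = rho s' * γ → s' ∉ J := fun e h =>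
    haJ (rho_eq_one.1 (by simpa [rho_eq_one.2 h] using e))
  by_cases h₁ : E ≤ E1
  · haveI : E1.Normal := ⟨fun s hs g => by simpa [mem_E1] using hs⟩
    refine .inr (.inl (le_antisymm h₁ (le_of_ess hF hE hJ le_normalizer_of_normal
      fun γ hγ hn s hs => ?_)))
    obtain ⟨b, hb, e⟩ := hn a ha
    have n₁ : ¬ (a.y = 0 ∧ a.z = 0) := fun h => haJ (mem_J.2 ⟨h₁ ha, h⟩)
    have n₂ : ¬ (b.y = 0 ∧ b.z = 0) := fun h => ne e (mem_J.2 ⟨h₁ hb, h⟩)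
    rw [rho_eq, rho_eq, show a.x = 0 from h₁ ha, show b.x = 0 from h₁ hb] at e
    have e' : ∀ w, u 0 b.y b.z (γ w) = γ (u 0 a.y a.z w) := fun w =>
      (LinearEquiv.congr_fun e w).symm
    refine conj_mem_R (A := vY5) (B := vW) (syl_Gam hF) (fun v hv => hv.1)
      (fun s v hv => by simp_all [mem_vY5, rho_apply, act])
      (fun s v hv => by simp_all [mem_vW, rho_apply, act]) hγ
      (fun v hv => (mem_Y5_iff n₂).2 (by rw [e', ← map_sub, e', (mem_Y5_iff n₁).1 hv]))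
      (fun v hv => (mem_W_iff n₂).2 (by rw [e', (mem_W_iff n₁).1 hv])) (mem_ut3.2 ⟨?_, ?_, ?_⟩) <;>
      simp +contextual [mem_vY5, mem_vW, rho_apply, act, show s.x = 0 from hs, V.ext_iff]
  by_cases h₂ : E ≤ E2
  · haveI : E2.Normal := ⟨fun s hs g => by simpa [mem_E2] using hs⟩
    refine .inr (.inr (.inl (le_antisymm h₂ (le_of_ess hF hE hJ le_normalizer_of_normal
      fun γ hγ hn s hs => ?_))))
    obtain ⟨b, hb, e⟩ := hn a ha
    have n₁ : ¬ (a.x = 0 ∧ a.z = 0) := fun h => haJ (mem_J.2 ⟨h.1, h₂ ha, h.2⟩)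
    rw [rho_eq, rho_eq, show a.y = 0 from h₂ ha, show b.y = 0 from h₂ hb] at e
    have e' : ∀ w, γ (u a.x 0 a.z w) = u b.x 0 b.z (γ w) := fun w => LinearEquiv.congr_fun e w
    have hU : St γ vU := fun v hv => by
      obtain ⟨w, rfl⟩ := exists_U n₁ hv
      rw [map_sub, e']
      simp [mem_vU, u_apply, act]
    refine conj_mem_R (A := vU) (B := vZ) (syl_Gam hF) (fun v hv => ⟨hv.1, hv.2.1, hv.2.2.2.1⟩)
      (fun s v hv => by simp_all [mem_vU, rho_apply, act])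
      (fun s v hv => by simp_all [mem_vZ, rho_apply, act]) hγ hU (fun v hv => ?_)
      (mem_ut3.2 ⟨?_, ?_, ?_⟩)
    · obtain ⟨w, hw, rfl⟩ := exists_Z n₁ hv
      obtain ⟨k₁, k₂, k₃⟩ := hU w hw
      rw [map_sub, e']
      simp [mem_vZ, u_apply, act, k₁, k₂, k₃]
    all_goals simp +contextual [mem_vU, mem_vZ, rho_apply, act, show s.y = 0 from hs, V.ext_iff]
  obtain ⟨r, hr, rx, ry⟩ : ∃ r ∈ E, r.x = 1 ∧ r.y ≠ 0 := by
    obtain ⟨s, hs, sx⟩ := SetLike.not_le_iff_exists.1 h₁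
    obtain ⟨t, ht, ty⟩ := SetLike.not_le_iff_exists.1 h₂
    suffices ∃ r ∈ E, r.x ≠ 0 ∧ r.y ≠ 0 by
      obtain ⟨r, hr, rx, ry⟩ := this
      exact ⟨_, pw_mem hr r.x, (pw_xyz r _).1.trans (K_sq rx), (pw_xyz r _).2.1 ▸ mul_ne_zero rx ry⟩
    by_cases sy : s.y = 0
    · by_cases tx : t.x = 0
      · exact ⟨_, mul_mem hs ht, by simpa [tx, mem_E1] using sx,
          by simpa [sy, mem_E2] using ty⟩
      · exact ⟨t, ht, tx, ty⟩
    · exact ⟨s, hs, sx, sy⟩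
  by_cases h₄ : E ≤ E4 r.y r.z
  · refine .inr (.inr (.inr ⟨r.y, r.z, ry, le_antisymm h₄ fun s hs => ?_⟩))
    obtain ⟨p₁, p₂, p₃⟩ := pw_xyz r s.x
    exact mem_of_xyz hJ (pw_mem hr s.x) (by simp [p₁, rx]) (by rw [p₂, hs.1, mul_comm])
      (by rw [p₃, hs.2, rx]; ring)
  exfalso
  obtain ⟨c, hc, c₁, c₂, c₃⟩ : ∃ c ∈ E, c.x = 0 ∧ c.y = 0 ∧ c.z ≠ 0 := by
    obtain ⟨s, hs, hs'⟩ := SetLike.not_le_iff_exists.1 h₄
    obtain ⟨p₁, p₂, p₃⟩ := pw_xyz r s.x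
    rw [mem_E4] at hs'
    by_cases h : s.y = r.y * s.x
    · refine ⟨_, mul_mem hs (inv_mem (pw_mem hr s.x)), ?_, ?_, ?_⟩ <;>
        simp only [P.mul_x, P.mul_y, P.mul_z, P.inv_x, P.inv_y, P.inv_z, p₁, p₂, p₃, rx] <;> grind
    · refine ⟨_, mul_mem (mul_mem (mul_mem hr hs) (inv_mem hr)) (inv_mem hs), ?_, ?_, ?_⟩ <;>
        simp only [P.mul_x, P.mul_y, P.mul_z, P.inv_x, P.inv_y, P.inv_z, rx] <;> grind
  refine (lt_of_isEssential pg_top hF hE).not_ge (le_of_ess hF hE hJ le_normalizer_of_normal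
    fun γ hγ hn s _ => ?_)
  obtain ⟨b, hb, e⟩ := hn ⟨0, 0, 1, 0⟩ (mem_of_xy hJ hc c₁ c₂ c₃ (one_mem E) rfl rfl)
  have hb' : b.y = r.y * b.x := by_contra fun h => (lt_of_isEssential pg_top hF hE).not_ge
    fun t _ => by
      have := K_sq (sub_ne_zero.2 h)
      obtain ⟨p₁, p₂, -⟩ := pw_xyz b ((t.y - r.y * t.x) * (b.y - r.y * b.x))
      obtain ⟨q₁, q₂, -⟩ := pw_xyz r (t.x - (t.y - r.y * t.x) * (b.y - r.y * b.x) * b.x)
      refine mem_of_xy hJ hc c₁ c₂ c₃ (mul_mem (pw_mem hr _) (pw_mem hb _)) (by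
        rw [P.mul_x, p₁, q₁, rx]; ring) (by rw [P.mul_y, p₂, q₂]; grind)
  by_cases bx : b.x = 0
  · rw [rho_eq b, hb', bx, mul_zero] at e
    exact nr_of_z (syl_Gam hF) hγ e s
  · exact absurd e (not_conj_z bx (hb' ▸ mul_ne_zero ry bx))

end Cfsg.Agent.C1
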