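import Cfsg.Agent.Lib.C1.EssB1
import Cfsg.Agent.Lib.Ess.Conj

/-!
Row ESSB: the essential subgroups not containing `J`.
-/

set_option autoImplicit false
set_option linter.unusedSimpArgs false
set_option linter.unnecessarySeqFocus false

namespace Cfsg.Agent.C1

open Cfsg.Agent.Fus Cfsg.Agent.Fus2 Cfsg.Agent.Ess Subgroup Module
open Cfsg.Agent.U5 (SEd sed_of_ess fm)

namespace EB

section
variable {F : FusionSystem (⊤ : Subgroup P)} {E : Subgroup P} {Mx : Subgroup (MulAut E)}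
  (hc : F.IsCentric E) (h : SEd 3 (F.autGroup E) (autInducedBy ⊤ E) (Inn E) Mx)
include hc h

theorem conj_out {t : P} (hN : t ∈ normalizer (E : Set P)) (ht : t ∉ E) {g : MulAut E}
    (hg : g ∈ F.autGroup E) (hM : g ∉ Mx) :
    g⁻¹ * conjAut E t hN * g ∈ F.autGroup E ∧ g⁻¹ * conjAut E t hN * g ∉ Mx :=
  have ha := conjAut_mem_autInducedBy (mem_top t) hN
  ⟨mul_mem (mul_mem (inv_mem hg) (h.syl.le ha)) hg, h.conj_notMem (inv_mem hg)
    (mt inv_mem_iff.1 hM) ha (mt (mem_iff_conjAut_mem_Inn hc trivial hN).1 ht)⟩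

theorem no_stab {t : P} (htJ : t ∈ J) (hN : t ∈ normalizer (E : Set P)) (ht : t ∉ E)
    {g : MulAut E} (hg : g ∈ F.autGroup E) (hM : g ∉ Mx) (hD : ∀ x ∈ E, x ∈ J → afn g x ∈ J) :
    False := by
  have ha := conjAut_mem_autInducedBy (mem_top t) hN
  have t₀ : TrivOn (conjAut E t hN) ⊤ (J.subgroupOf E) := trivOn_conjAut_top_iff.2 fun x _ => by
    simpa [mul_assoc] using mul_mem (Normal.conj_mem inferInstance t htJ x⁻¹) (inv_mem htJ)
  have t₁ : TrivOn (conjAut E t hN) (J.subgroupOf E) ⊥ := trivOn_bot_iff.2 fun x hx =>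
    Subtype.ext (mul_inv_eq_iff_eq_mul.2 (comm_J htJ hx))
  have h₁ : g ∈ stabSub (J.subgroupOf E) := fun x hx => by
    simpa [mem_subgroupOf, afn_apply _ x.2] using hD x x.2 hx
  have := conj_out hc h hN ht hg hM
  refine this.2 (h.le_of_isPGroup (X := closure {conjAut E t hN, g⁻¹ * conjAut E t hN * g⁻¹⁻¹})
    ((closure_le _).2 (by rintro _ (rfl | rfl); exacts [h.syl.le ha, this.1]))
    (Ctl.trans_bot (pg.to_subgroup E)
      (ctl_pair le_top t₀ (t₀.conj (fun _ _ => trivial) (inv_mem h₁)))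
      (ctl_pair bot_le t₁ (t₁.conj h₁ (inv_bot ⊤ _ trivial)))).isPGroup
    (subset_closure (.inl rfl)) ha (mt (mem_iff_conjAut_mem_Inn hc trivial hN).1 ht)
    (subset_closure (.inr rfl)))

theorem cases (hJ : ¬ J ≤ E) : E = E3 ∨ ∃ l, E = Dl l := by
  obtain ⟨t, htJ, hN, ht⟩ := exists_mem_normalizer_of_not_le pg_top le_top le_top
    le_normalizer_of_normal hJ
  obtain ⟨X, hX, -, -, γ, hγ, hγM, hgen⟩ := h.pair
    (A₀ := autInducedBy (J ⊓ normalizer (E : Set P)) E) (fun α hα => by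
      obtain ⟨g, -, e⟩ := Fus.mem_autInducedBy_iff.1 hα
      exact Fus.mem_autInducedBy_iff.2 ⟨g, trivial, e⟩) fun hle =>
    ht ((mem_iff_conjAut_mem_Inn hc trivial hN).1
      (hle (conjAut_mem_autInducedBy (mem_inf.2 ⟨htJ, hN⟩) hN)))
  obtain ⟨A, hA, hcard⟩ : ∃ A : Subgroup P, (∀ s, s ∈ A ↔ s ∈ E ∧ afn γ⁻¹ s ∈ J) ∧
      Nat.card A = Nat.card (J ⊓ E : Subgroup P) := by
    refine ⟨((J.subgroupOf E).map γ.toMonoidHom).map E.subtype, fun s => ⟨?_, fun ⟨h₁, h₂⟩ =>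
      ⟨⟨s, h₁⟩, ⟨γ⁻¹ ⟨s, h₁⟩, by rwa [afn_apply _ h₁] at h₂, by simp⟩, rfl⟩⟩, ?_⟩
    · rintro ⟨_, ⟨x, hx, rfl⟩, rfl⟩
      exact ⟨SetLike.coe_mem _, by simpa [afn_apply, mem_subgroupOf] using hx⟩
    · rw [card_map_of_injective E.subtype_injective, card_map_of_injective γ.injective,
        ← subgroupOf_map_subtype, card_map_of_injective E.subtype_injective]
  have hγ' : γ ∈ F.autGroup E := hX hγ
  have hAE : A ≤ E := fun s hs => ((hA s).1 hs).1
  have hom := homOn_afn γ⁻¹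
  have hn : ∀ e ∈ E, ∀ a ∈ A, e * a * e⁻¹ ∈ A := fun e he a ha =>
    (hA _).2 ⟨mul_mem (mul_mem he (hAE ha)) (inv_mem he), by
      rw [hom.map_conj he (hAE ha)]
      exact Normal.conj_mem inferInstance _ ((hA a).1 ha).2 _⟩
  have img : ∀ x ∈ E, x ∈ J → afn γ x ∈ A := fun x hx hx' =>
    (hA _).2 ⟨afn_mem _ hx, by rwa [afn_inv_afn]⟩
  have h4 : ∀ x ∈ J, x ∈ normalizer (E : Set P) → x ∉ E → ∀ a ∈ A, a ∉ J →
      a⁻¹ * (x * a * x⁻¹) ∉ A := fun x hx hxN hxE a ha haJ hxa => by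
    have : ((J ⊓ A).subgroupOf E).Normal := ⟨fun v hv g =>
      ⟨Normal.conj_mem inferInstance _ hv.1 _, hn _ g.2 _ hv.2⟩⟩
    have fix : ∀ b ∈ autInducedBy (J ⊓ normalizer (E : Set P)) E, ∀ v : E, v.1 ∈ A →
        (γ * b * γ⁻¹) v = v := fun b hb v hv => by
      obtain ⟨g, hg, e⟩ := Fus.mem_autInducedBy_iff.1 hb
      have : b (γ⁻¹ v) = γ⁻¹ v := Subtype.ext ((e _).trans (mul_inv_eq_iff_eq_mul.2
        (comm_J hg.1 (by simpa [afn_apply _ v.2] using ((hA _).1 hv).2))))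
      rw [MulAut.mul_apply, MulAut.mul_apply, this, MulAut.apply_inv_self]
    have := trivOn_of_mem_closure (B := (J ⊓ A).subgroupOf E) (C := fm ((J ⊓ A).subgroupOf E) _)
      (by
        rintro v hv _ (rfl | ⟨b, hb, rfl⟩)
        · rw [show conjAut E x hxN v = v from Subtype.ext (mul_inv_eq_iff_eq_mul.2 (comm_J hx hv.1))]
          simp
        · simp [fix b hb v hv.2]) (fun β hβ v hv => hv β hβ)
      (hgen _ (conjAut_mem_autInducedBy (mem_inf.2 ⟨hx, hxN⟩) hxN)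
        (mt (mem_iff_conjAut_mem_Inn hc trivial hxN).1 hxE) (inv_mem hγ)) ⟨a, hAE ha⟩ (by
        rintro _ (rfl | ⟨b, hb, rfl⟩)
        · refine ⟨?_, hxa⟩
          simpa [mul_assoc] using mul_mem (Normal.conj_mem inferInstance x hx a⁻¹) (inv_mem hx)
        · simp [fix b hb ⟨a, hAE ha⟩ ha])
    have h₂ := ((hA a).1 ha).2
    rw [afn_apply _ (hAE ha)] at h₂
    exact haJ (inv_mem_iff.1 ((J.mul_mem_cancel_right h₂).1 this.1))
  rcases anal hAE hn (fun a ha b hb => afn_injective γ⁻¹ (by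
      rw [hom.map_mul (hAE ha) (hAE hb), hom.map_mul (hAE hb) (hAE ha)]
      exact comm_J ((hA a).1 ha).2 ((hA b).1 hb).2)) h4 hcard
    (fun hle => no_stab hc h htJ hN ht hγ' hγM fun x hx hx' => hle (img x hx hx')) with
    h₁ | ⟨l, ⟨rfl, rfl⟩ | h₁⟩
  · exact .inl h₁
  · have hN' : (⟨1, 0, 0, 0⟩ : P) ∈ normalizer (O : Set P) :=
      mem_normalizer_of_conj_mem fun s hs => by simp [mem_O, hs.1, hs.2, act]
    have := conj_out hc h hN' (by simp [mem_O]) hγ' hγM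
    refine (no_stab hc h htJ hN ht this.1 this.2 fun x hx hx' => ?_).elim
    rw [afn_mul, afn_mul, afn_conjAut _ (afn_mem _ hx)]
    obtain ⟨h₁, h₂, h₃, h₄⟩ := img x hx hx'
    exact ((hA _).1 (by simp [mem_Dl, act, h₁, h₂, h₃, h₄, mul_add])).2
  · exact .inr ⟨l, h₁⟩

end

abbrev K3 := K × K × K

theorem dep4 (p q r s : K3) : ∃ k l m n : K, ¬ (k = 0 ∧ l = 0 ∧ m = 0 ∧ n = 0) ∧
    k • p + l • q + m • r + n • s = 0 := by
  obtain ⟨⟨k, l, m, n⟩, ⟨k', l', m', n'⟩, h₁, h₂⟩ := Fintype.exists_ne_map_eq_of_card_lt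
    (fun c : K × K × K × K => c.1 • p + c.2.1 • q + c.2.2.1 • r + c.2.2.2 • s) (by simp)
  refine ⟨k - k', l - l', m - m', n - n', fun h => h₁ (by simpa [sub_eq_zero] using h), ?_⟩
  rw [← sub_eq_zero.2 h₂]
  module

def wv (p : K3) : P := jv ⟨p.1, p.2.1, 0, p.2.2, 0, 0⟩
def co (s : P) : K3 := (s.v.a, s.v.b, s.v.d)
def yz (s : P) : K × K := (s.z, s.y)
def pr (w q : K × K) : K3 := (2 * w.1 * q.1, w.2 * q.1 + w.1 * q.2, 2 * w.2 * q.2)
def el (x : K) (q : K × K) : P := ⟨x, 0, 0, ⟨0, 0, q.1, 0, q.2, 0⟩⟩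

theorem wv_mem (p : K3) : wv p ∈ Dl 0 := by simp [mem_Dl, wv, jv]

theorem wv_add (p q : K3) : wv (p + q) = wv p * wv q := by
  rw [wv, wv, wv, ← jv_add]; rfl

theorem ext_Dl {s t : P} (hs : s ∈ Dl 0) (ht : t ∈ Dl 0) (h₁ : co s = co t) (h₂ : yz s = yz t) :
    s = t := by
  simp only [co, yz, Prod.mk.injEq, mem_Dl] at *
  ext <;> simp [*]

theorem co_mul {s t : P} (hs : s ∈ Dl 0) (ht : t ∈ Dl 0) :
    co (s * t) = co s + co t ∧ yz (s * t) = yz s + yz t := by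
  simp only [mem_Dl] at *
  simp [co, yz, act, *]

theorem el_mem (x : K) (q : K × K) : el x q ∈ normalizer (Dl 0 : Set P) :=
  mem_normalizer_of_conj_mem fun s hs => by
    simp only [mem_Dl] at *
    simp [el, act, *]

variable (β : MulAut (Dl 0))

noncomputable def Ph : K3 →ₗ[K] K × K := (AddMonoidHom.mk' (fun p => yz (afn β (wv p))) fun p q => by
  rw [wv_add, (homOn_afn β).map_mul (wv_mem p) (wv_mem q),
    (co_mul (afn_mem _ (wv_mem p)) (afn_mem _ (wv_mem q))).2]).toZModLinearMap 3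

noncomputable def Nn : K3 →ₗ[K] K3 := (AddMonoidHom.mk' (fun p => co (afn β (wv p))) fun p q => by
  rw [wv_add, (homOn_afn β).map_mul (wv_mem p) (wv_mem q),
    (co_mul (afn_mem _ (wv_mem p)) (afn_mem _ (wv_mem q))).1]).toZModLinearMap 3

variable {β}

theorem eq_zero {p : K3} (h₁ : Ph β p = 0) (h₂ : Nn β p = 0) : p = 0 :=
  congrArg co (afn_injective β (ext_Dl (afn_mem _ (wv_mem p)) (afn_mem _ (wv_mem 0))
    (h₂.trans (map_zero (Nn β)).symm) (h₁.trans (map_zero (Ph β)).symm)))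

theorem shift {p p' : K3} {q : K × K} (h₁ : Ph β p' = 0) (h₂ : Nn β p' + pr (Ph β p) q = 0) :
    Ph (β⁻¹ * conjAut _ _ (el_mem 0 q) * β) p = 0 := by
  have hs := afn_mem β (wv_mem p)
  have : el 0 q * afn β (wv p) * (el 0 q)⁻¹ = afn β (wv (p + p')) := by
    refine ext_Dl ((el_mem 0 q _).1 hs) (afn_mem _ (wv_mem _)) (Eq.trans ?_ (map_add (Nn β) p p').symm)
      (Eq.trans ?_ (map_add (Ph β) p p').symm)
    · rw [eq_neg_of_add_eq_zero_left h₂]
      show _ = co (afn β (wv p)) + -pr (yz (afn β (wv p))) q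
      simp only [mem_Dl] at hs
      simp only [co, yz, pr, el]
      ext <;> simp [act, hs] <;> ring
    · rw [h₁, add_zero]
      show _ = yz (afn β (wv p))
      simp [yz, el]
  show yz (afn _ _) = 0
  rw [afn_mul, afn_mul, afn_conjAut _ hs, this, afn_inv_afn]
  rfl

theorem shift₀ {p : K3} {q : K × K} (h₁ : Ph β p = 0) :
    Ph (β⁻¹ * conjAut _ _ (el_mem 0 q) * β) p = 0 :=
  shift (map_zero _) (by simp [h₁, pr])

variable {F : FusionSystem (⊤ : Subgroup P)} {Mx : Subgroup (MulAut (Dl 0))}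
  (hc : F.IsCentric (Dl 0)) (h : SEd 3 (F.autGroup _) (autInducedBy ⊤ _) (Inn _) Mx)
  (hβ : β ∈ F.autGroup _) (hM : β ∉ Mx)
include hc h hβ hM

theorem not_zero (h₀ : ∀ p, Ph β p = 0) : False :=
  no_stab hc h (t := el 0 (1, 0)) (by simp [mem_J, el]) (el_mem _ _) (by simp [mem_Dl, el]) hβ hM
    fun x hx hx' => by
      have := h₀ (co x)
      rw [ext_Dl hx (wv_mem (co x)) rfl (Prod.ext hx'.2.2.1 hx'.2.1)]
      exact mem_J.2 ⟨(afn_mem β (wv_mem _)).1, congrArg Prod.snd this, congrArg Prod.fst this⟩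

theorem out {q : K × K} (hq : q ≠ 0) : β⁻¹ * conjAut _ _ (el_mem 0 q) * β ∈ F.autGroup _ ∧
    β⁻¹ * conjAut _ _ (el_mem 0 q) * β ∉ Mx :=
  conj_out hc h _ (by simpa [mem_Dl, el, Prod.ext_iff] using hq) hβ hM

theorem not_two {p₁ p₂ : K3} (h₁ : Ph β p₁ = 0) (h₂ : Ph β p₂ = 0)
    (hi : ∀ k l : K, k • p₁ + l • p₂ = 0 → k = 0 ∧ l = 0) : False := by
  obtain ⟨p₃, h₃⟩ := not_forall.1 (not_zero hc h hβ hM)
  obtain ⟨k, l, c, e, h₄, h₅⟩ := dep4 (Nn β p₁) (Nn β p₂) (pr (Ph β p₃) (1, 0)) (pr (Ph β p₃) (0, 1))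
  have h₆ : Ph β (k • p₁ + l • p₂) = 0 := by simp [h₁, h₂]
  have h₇ : Nn β (k • p₁ + l • p₂) + pr (Ph β p₃) (c, e) = 0 := by
    rw [← h₅, map_add, map_smul, map_smul, add_assoc _ (c • _)]
    simp [pr, mul_comm]
  have hq : (c, e) ≠ 0 := fun h₀ => by
    rw [h₀] at h₇
    have := hi k l (eq_zero h₆ (by simpa [pr, Prod.ext_iff] using h₇))
    exact h₄ ⟨this.1, this.2, congrArg Prod.fst h₀, congrArg Prod.snd h₀⟩
  refine not_zero hc h (out hc h hβ hM hq).1 (out hc h hβ hM hq).2 fun p => ?_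
  obtain ⟨k₀, k₁, k₂, k₃, h₈, h₉⟩ := dep4 p p₁ p₂ p₃
  have := congrArg (Ph (β⁻¹ * conjAut _ _ (el_mem 0 (c, e)) * β)) h₉
  simp only [map_add, map_smul, shift h₆ h₇, shift₀ h₁, shift₀ h₂, smul_zero, add_zero, map_zero,
    smul_eq_zero] at this
  refine this.resolve_left fun h₀ => ?_
  obtain rfl : k₃ = 0 := by simpa [h₀, h₁, h₂, h₃] using congrArg (Ph β) h₉
  have := hi k₁ k₂ (by simpa [h₀] using h₉)
  exact h₈ ⟨h₀, this.1, this.2, rfl⟩

theorem not_pr {p : K3} {w q : K × K} (hw : w ≠ 0) (hq : q ≠ 0) (h₁ : Ph β p = 0)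
    (h₂ : Nn β p = pr w q) : False := by
  have hp : p ≠ 0 := by
    rintro rfl
    exact (by decide : ∀ w q : K × K, w ≠ 0 → q ≠ 0 → 0 ≠ pr w q) w q hw hq
      ((map_zero _).symm.trans h₂)
  have h₃ : finrank K (LinearMap.ker (Ph β)) ≤ 1 := finrank_le_one ⟨p, h₁⟩ fun p' => by
    by_contra! hcon
    exact not_two hc h hβ hM h₁ p'.2 (LinearIndependent.pair_iff.1
      ((LinearIndependent.pair_iff' hp).2 fun k e => hcon k (Subtype.ext e)))
  have h₄ := (Ph β).finrank_range_add_finrank_ker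
  obtain ⟨r, hr⟩ := (Submodule.eq_top_of_finrank_eq (S := LinearMap.range (Ph β))
    (le_antisymm (Submodule.finrank_le _) (by simp at h₄ ⊢; omega))).ge (Submodule.mem_top (x := w))
  refine not_two hc h (out hc h hβ hM hq).1 (out hc h hβ hM hq).2
    (shift₀ h₁) (shift (p := r) (p' := -p) (by simp [h₁]) (by simp [h₂, hr])) fun k l e => ?_
  obtain rfl : l = 0 := by simpa [h₁, hr, hw] using congrArg (Ph β) e
  simpa [hp] using e

theorem not_Dl : False := by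
  have := Fintype.card_le_of_injective
    (fun c : (K × K × K) × {p : K3 // ∃ w ≠ 0, ∃ q ≠ 0, p = pr w q} =>
      (co (el c.1.1 c.1.2 * afn β (wv c.2) * (el c.1.1 c.1.2)⁻¹),
        yz (el c.1.1 c.1.2 * afn β (wv c.2) * (el c.1.1 c.1.2)⁻¹)))
    fun ⟨⟨x, q⟩, p, hp⟩ ⟨⟨x', q'⟩, p', w, hw, r, hr, hp'⟩ e => by
      have hs := afn_mem β (wv_mem p)
      have e := ext_Dl ((el_mem x q _).1 hs) ((el_mem x' q' _).1 (afn_mem β (wv_mem p')))
        (congrArg Prod.fst e) (congrArg Prod.snd e)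
      have hN := mul_mem (inv_mem (el_mem x' q')) (el_mem x q)
      by_cases ht : (el x' q')⁻¹ * el x q ∈ Dl 0
      · obtain ⟨rfl, rfl⟩ : x = x' ∧ q = q' := by
          simp [mem_Dl, el, act] at ht
          rw [Prod.ext_iff]
          grind
        obtain rfl : p = p' := congrArg co
          (afn_injective β (show afn β (wv p) = afn β (wv p') by simpa using e))
        rfl
      have h₁ := conj_out hc h hN ht hβ hM
      have h₂ : afn (β⁻¹ * conjAut _ _ hN * β) (wv p) = wv p' := by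
        rw [afn_mul, afn_mul, afn_conjAut _ hs, ← afn_inv_afn β (wv p')]
        congr 1
        calc _ = (el x' q')⁻¹ * (el x q * afn β (wv p) * (el x q)⁻¹) * el x' q' := by group
          _ = _ := by rw [e]; group
      exact (not_pr hc h h₁.1 h₁.2 hw hr (congrArg yz h₂) ((congrArg co h₂).trans hp')).elim
  rw [Fintype.card_prod, show Fintype.card {p : K3 // ∃ w ≠ 0, ∃ q ≠ 0, p = pr w q} = 20 by
    decide +kernel] at this
  simp at this

end EB

theorem essB : EssBStmt := by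
  intro F hF E hE hJ
  obtain ⟨Mx, h⟩ := sed_of_ess pg_top hF hE
  refine (EB.cases hE.1 h hJ).resolve_right ?_
  rintro ⟨l, rfl⟩
  have hE' := isEssential_img hE (M_conj F le_rfl (mem_top (jv (l • ef))))
  have e : img (EB.Dl l) (fun x => jv (l • ef) * x * (jv (l • ef))⁻¹) = EB.Dl 0 := by
    ext x
    rw [(homOn_conj _ _).mem_img]
    refine ⟨?_, fun h => ⟨(jv (l • ef))⁻¹ * x * jv (l • ef), ?_, by group⟩⟩
    · rintro ⟨y, hy, rfl⟩
      simp only [EB.mem_Dl] at hy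
      simp [EB.mem_Dl, jv, ef, act, hy, mul_comm]
    · simp only [EB.mem_Dl] at h
      simp [EB.mem_Dl, jv, ef, act, h, mul_comm]
  rw [e] at hE'
  obtain ⟨Mx, h⟩ := sed_of_ess pg_top hF hE'
  obtain ⟨β, hβ, hM⟩ := h.exists_notMem
  exact EB.not_Dl hE'.1 h hβ hM

end Cfsg.Agent.C1
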