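import Cfsg.Agent.Lib.C1.Gam

/-!
Row ESSB, first part: an abelian normal subgroup of `E` competing with `E ∩ J`.
-/

set_option autoImplicit false
set_option linter.unusedSimpArgs false
set_option linter.unnecessarySeqFocus false

namespace Cfsg.Agent.C1.EB

open Cfsg.Agent.Fus Cfsg.Agent.Fus2 Subgroup Module

instance finV : Module.Finite K V := Module.Finite.of_finite

theorem fr_comap (θ : V →ₗ[K] V) (W : Submodule K V) : finrank K (W.comap θ) =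
    finrank K (LinearMap.range θ ⊓ W : Submodule K V) + finrank K (LinearMap.ker θ) := by
  rw [← (θ.domRestrict (W.comap θ)).finrank_range_add_finrank_ker, LinearMap.range_domRestrict,
    Submodule.map_comap_eq, LinearMap.ker_domRestrict,
    (Submodule.comapSubtypeEquivOfLe (LinearMap.ker_le_comap θ)).finrank_eq]

theorem fr_ge {θ : V →ₗ[K] V} {W : Submodule K V} (hW : W ≤ LinearMap.ker θ) :
    finrank K W + finrank K (LinearMap.range θ ⊓ LinearMap.ker θ : Submodule K V) ≤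
      finrank K (W.comap θ) := by
  rw [fr_comap, ← Submodule.finrank_sup_add_finrank_inf_eq, add_comm]
  exact add_le_add (Submodule.finrank_mono (le_inf (inf_le_right.trans inf_le_left) inf_le_left))
    (Submodule.finrank_mono (sup_le hW inf_le_right))

/-- The subspace `H ∩ J`. -/
def vs (H : Subgroup P) : Submodule K V where
  carrier := {v | jv v ∈ H}
  zero_mem' := H.one_mem
  add_mem' h h' := by simpa [jv_add] using mul_mem h h'
  smul_mem' k v h := by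
    rcases K_cases k with rfl | rfl | rfl
    exacts [by simp [jv_zero], by simpa using h,
      by simpa [jv_neg] using H.inv_mem h]

theorem mem_vs {H : Subgroup P} {v : V} : v ∈ vs H ↔ jv v ∈ H := Iff.rfl

theorem card_vs (H : Subgroup P) : Nat.card (J ⊓ H : Subgroup P) = 3 ^ finrank K (vs H) := by
  refine (Nat.card_congr ⟨fun s => ⟨s.1.v, by rw [mem_vs, jv_of_mem s.2.1]; exact s.2.2⟩,
    fun v => ⟨jv v, jv_mem _, v.2⟩, fun s => Subtype.ext (jv_of_mem s.2.1), fun _ => rfl⟩ :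
      _ = Nat.card (vs H)).trans ?_
  rw [Module.natCard_eq_pow_finrank (K := K), Nat.card_zmod]

/-- `ρ(a) - 1`. -/
def th (a : P) : V →ₗ[K] V := (rho a : V →ₗ[K] V) - LinearMap.id

theorem th_apply (a : P) (v : V) : th a v = act a.x a.y a.z v - v := rfl

theorem th_z {z : P} (z₁ : z.x = 0) (z₂ : z.y = 0) (z₃ : z.z = 1) {v : V} :
    th z v = 0 ↔ v ∈ vW := by
  simp [th_apply, z₁, z₂, z₃, act, V.ext_iff, mem_vW]
  generalize v.a = a, v.c = c, v.e = e, v.f = f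
  revert a c e f
  decide

theorem fin_two : ∀ x y z : K, ¬ (x = 0 ∧ y = 0 ∧ z = 0) → ∃ p ∈ [eb, ec], ∃ i j : K,
    act x y z (act x y z p - p) = act x y z p - p ∧
    act x y z (act x y z ⟨0, 0, i, j, 1, 0⟩ - ⟨0, 0, i, j, 1, 0⟩) =
      act x y z ⟨0, 0, i, j, 1, 0⟩ - ⟨0, 0, i, j, 1, 0⟩ ∧ act x y z p - p ≠ 0 ∧
    ∀ k : K, k • (act x y z p - p) ≠ act x y z ⟨0, 0, i, j, 1, 0⟩ - ⟨0, 0, i, j, 1, 0⟩ := by
  decide +kernel

theorem two_le {a : P} (ha : a ∉ J) :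
    2 ≤ finrank K (LinearMap.range (th a) ⊓ LinearMap.ker (th a) : Submodule K V) := by
  obtain ⟨p, -, i, j, h₁, h₂, h₃, h₄⟩ := fin_two a.x a.y a.z (mt mem_J.2 ha)
  refine (finrank_span_singleton (K := K) h₃).symm.le.trans_lt
    (Submodule.finrank_lt_finrank_of_lt (lt_of_le_of_ne ?_ fun h => ?_))
  · exact (Submodule.span_singleton_le_iff_mem _ _).2 ⟨⟨p, rfl⟩, sub_eq_zero.2 h₁⟩
  · obtain ⟨k, hk⟩ := Submodule.mem_span_singleton.1 (h.ge ⟨⟨_, rfl⟩, sub_eq_zero.2 h₂⟩)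
    exact h₄ k hk

theorem three_le : 3 ≤ finrank K vW := by
  have h₁ := Submodule.finrank_lt_finrank_of_lt (lt_of_le_of_ne (bot_le : ⊥ ≤ vZ) fun h => by
    simpa [ea, V.ext_iff] using h.ge (show ea ∈ vZ by simp [mem_vZ, ea]))
  have h₂ := Submodule.finrank_lt_finrank_of_lt (lt_of_le_of_ne
    (show vZ ≤ vY2 from fun v h => ⟨h.1, h.2.1, h.2.2.1, h.2.2.2.1⟩) fun h => by
      simpa [eb, mem_vZ] using h.ge (show eb ∈ vY2 by simp [mem_vY2, eb]))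
  have h₃ := Submodule.finrank_lt_finrank_of_lt (lt_of_le_of_ne
    (show vY2 ≤ vW from fun v h => ⟨h.1, h.2.1, h.2.2.1⟩) fun h => by
      simpa [ed, mem_vY2] using h.ge (show ed ∈ vW by simp [mem_vW, ed]))
  omega

theorem exists_not_zpowers {H : Subgroup GV} (h : 9 ≤ Nat.card H) (x y z : K) :
    ∃ g ∈ H, g ≠ 1 ∧ g ≠ u x y z ∧ g ≠ (u x y z)⁻¹ := by
  by_contra! hc
  have := Set.ncard_le_ncard (show (H : Set GV) ⊆ {1, u x y z, (u x y z)⁻¹} from fun g hg => by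
    by_cases h₁ : g = 1
    · exact .inl h₁
    by_cases h₂ : g = u x y z
    exacts [.inr (.inl h₂), .inr (.inr (hc g hg h₁ h₂))])
  have h₃ := Set.ncard_insert_le (1 : GV) {u x y z, (u x y z)⁻¹}
  have h₄ := Set.ncard_insert_le (u x y z) {(u x y z)⁻¹}
  rw [Set.ncard_singleton] at h₄
  rw [← SetLike.coe_sort_coe, Nat.card_coe_set_eq] at h
  omega

set_option synthInstance.maxSize 1000 in
theorem fin_z : ∀ x y z x' y' z' : K, x * y' = x' * y → ¬ (x = 0 ∧ y = 0 ∧ z = 0) →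
    ¬ (x' = 0 ∧ y' = 0 ∧ z' = 0) → ¬ (x' = x ∧ y' = y ∧ z' = z) →
    ¬ (x' = -x ∧ y' = -y ∧ z' = x * y - z) → (x = 0 ∧ y = 0 ∧ z ≠ 0) ∨ (x' = 0 ∧ y' = 0 ∧ z' ≠ 0) ∨
      (x + x' = 0 ∧ y + y' = 0 ∧ z + z' + x * y' ≠ 0) ∨
      (-x + x' = 0 ∧ -y + y' = 0 ∧ x * y - z + z' + -x * y' ≠ 0) := by decide +kernel

/-- The abelian subgroups `W ⟨ŷ, ẑ⟩`. -/
def Dl (l : K) : Subgroup P :=
  grp (fun s => s.x = 0 ∧ s.v.f = 0 ∧ s.v.c = l * s.z ∧ s.v.e = l * s.y) (by simp)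
    (by intro s t hs ht; simp_all [act, mul_add]) (by intro s hs; simp_all [act])

theorem mem_Dl {l : K} {s : P} :
    s ∈ Dl l ↔ s.x = 0 ∧ s.v.f = 0 ∧ s.v.c = l * s.z ∧ s.v.e = l * s.y := Iff.rfl

section
variable {E A : Subgroup P} (hA : A ≤ E) (hn : ∀ e ∈ E, ∀ a ∈ A, e * a * e⁻¹ ∈ A)
  (hc : ∀ a ∈ A, ∀ b ∈ A, a * b = b * a)
  (h4 : ∀ x ∈ J, x ∈ normalizer (E : Set P) → x ∉ E → ∀ a ∈ A, a ∉ J → a⁻¹ * (x * a * x⁻¹) ∉ A)

include hn in
theorem th_mem {a : P} (ha : a ∈ A) {v : V} (hv : v ∈ vs E) : th a v ∈ vs A := by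
  have := mul_mem ha (inv_mem (hn _ hv a ha))
  rwa [show a * (jv v * a * (jv v)⁻¹)⁻¹ = a * jv v * a⁻¹ * (jv v)⁻¹ by group, conj_jv, ← jv_neg,
    ← jv_add, ← sub_eq_add_neg] at this

include hc in
theorem le_ker {a : P} (ha : a ∈ A) : vs A ≤ LinearMap.ker (th a) := fun v hv =>
  sub_eq_zero.2 (jv_inj ((conj_jv a v).symm.trans (by rw [hc a ha _ hv, mul_inv_cancel_right]; rfl)))

include hA hn h4 in
theorem comap_eq {a : P} (ha : a ∈ A) (haJ : a ∉ J) (h : ∀ e ∈ E, rho e * rho a = rho a * rho e) :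
    (vs A).comap (th a) = vs E := by
  refine le_antisymm (fun v hv => ?_) fun v hv => th_mem hn ha hv
  have key : ∀ e ∈ E, ∀ v ∈ (vs A).comap (th a), rho e v ∈ (vs A).comap (th a) := fun e he v hv => by
    have := hn e he _ hv
    rw [conj_jv] at this
    show jv (rho a (rho e v) - rho e v) ∈ A
    rwa [← GV.mul_apply, ← h e he, GV.mul_apply, ← map_sub]
  have : jS ((vs A).comap (th a)) ≤ E := by
    by_contra hcon
    obtain ⟨g, hg, hN, hE⟩ := exists_mem_normalizer_of_not_le pg_top le_top le_top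
      (fun e he => mem_normalizer_of_conj_mem fun s hs => by
        obtain ⟨v, hv, rfl⟩ := exists_jv hs
        rw [conj_jv]
        exact jv_mem_jS.2 (key e he v hv)) hcon
    obtain ⟨v, hv, rfl⟩ := exists_jv hg
    refine h4 _ (jv_mem v) hN hE a ha haJ ?_
    have := inv_mem (hn _ (inv_mem (hA ha)) _ hv)
    rw [conj_jv, ← jv_neg] at this
    rw [icj_jv']
    convert this using 2
    show _ = -rho a⁻¹ (rho a v - v)
    rw [map_sub, ← GV.mul_apply, ← map_mul, inv_mul_cancel, map_one, GV.one_apply, neg_sub]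
  exact this (jv_mem_jS.2 hv)

variable (hcard : Nat.card A = Nat.card (J ⊓ E : Subgroup P)) (hJ : ¬ A ≤ J)
include hA hn hc h4 hcard hJ

theorem gens : (∃ a ∈ A, a.x = 0 ∧ a.y = 0 ∧ a.z = 1) ∧ (∃ a ∈ A, a.x = 0 ∧ a.y = 1 ∧ a.z = 0) ∧
    (∀ a ∈ A, a.x = 0) ∧ ∃ k ∈ vs A, k.d ≠ 0 := by
  have h₀ : 3 ^ finrank K (vs E) = 3 ^ finrank K (vs A) * Nat.card (A.map rho) := by
    rw [← card_vs, ← card_vs, ← hcard, ← relIndex_ker, ← Fit.card_inf_mul_relIndex,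
      show rho.ker = J from Subgroup.ext fun _ => rho_eq_one]
  have ge : ∀ n, finrank K (vs A) + n ≤ finrank K (vs E) → 3 ^ n ≤ Nat.card (A.map rho) :=
    fun n h => Nat.le_of_mul_le_mul_left (c := 3 ^ finrank K (vs A))
      (by rw [← h₀, ← pow_add]; exact Nat.pow_le_pow_right (by norm_num) h) (by positivity)
  obtain ⟨a, ha, haJ, hz⟩ := exists_central_mod_of_isPGroup (pg.to_subgroup E) hA hn
    (fun e _ t ht => Normal.conj_mem inferInstance t ht e) hJ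
  have h9 : 9 ≤ Nat.card (A.map rho) := ge 2 (by
    rw [← comap_eq hA hn h4 ha haJ fun e he => by
      simpa [mul_inv_eq_one, mul_inv_eq_iff_eq_mul] using rho_eq_one.2 (hz e he)]
    exact (Nat.add_le_add_left (two_le haJ) _).trans (fr_ge (le_ker hc ha)))
  have cm : ∀ a ∈ A, ∀ b ∈ A, a.x * b.y = b.x * a.y := fun a ha b hb => by
    have := congrArg P.z (hc a ha b hb)
    simp only [P.mul_z] at this
    linear_combination this
  obtain ⟨z, hz, z₁, z₂, z₃⟩ : ∃ a ∈ A, a.x = 0 ∧ a.y = 0 ∧ a.z = 1 := by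
    have : ∃ a ∈ A, a.x = 0 ∧ a.y = 0 ∧ a.z ≠ 0 := by
      obtain ⟨_, ⟨b, hb, rfl⟩, h₁, h₂, h₃⟩ := exists_not_zpowers h9 a.x a.y a.z
      rcases fin_z _ _ _ _ _ _ (cm a ha b hb) (mt mem_J.2 haJ) (mt u_eq_one.2 h₁)
        (fun h => h₂ (by rw [rho_eq, h.1, h.2.1, h.2.2]))
        (fun h => h₃ (by rw [rho_eq, u_inv, h.1, h.2.1, h.2.2])) with h | h | h | h
      exacts [⟨a, ha, h⟩, ⟨b, hb, h⟩, ⟨_, mul_mem ha hb, h⟩, ⟨_, mul_mem (inv_mem ha) hb, h⟩]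
    obtain ⟨b, hb, h₁, h₂, h₃⟩ := this
    rcases K_cases b.z with h | h | h
    exacts [absurd h h₃, ⟨b, hb, h₁, h₂, h⟩, ⟨b⁻¹, inv_mem hb, by simp [h₁, h₂, h]⟩]
  have hW : ∀ v, th z v = 0 ↔ v ∈ vW := fun v => th_z z₁ z₂ z₃
  obtain ⟨k, hk, hd⟩ : ∃ k ∈ vs A, k.d ≠ 0 := by
    by_contra! hcon
    have h₁ : vs A ≤ LinearMap.range (th z) := fun v hv => by
      obtain ⟨h₁, h₂, h₃⟩ := (hW v).1 (le_ker hc hz hv)
      refine ⟨⟨0, 0, -v.a, 0, v.b, 0⟩, ?_⟩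
      ext <;> simp [th_apply, z₁, z₂, z₃, act, h₁, h₂, h₃, hcon v hv]
      grind [three]
    have h₂ := ge 3 (by
      rw [← comap_eq hA hn h4 hz (by simp [mem_J, z₃]) fun e _ => by
        simp [rho_eq, u_mul, z₁, z₂, add_comm], fr_comap, inf_eq_right.2 h₁,
        show LinearMap.ker (th z) = vW from Submodule.ext hW]
      exact Nat.add_le_add_left three_le _)
    have h₃ : A.map rho = R := eq_of_le_of_card_ge (map_le_range _ _) (card_R.trans_le h₂)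
    obtain ⟨b, hb, e⟩ := h₃.ge (u_mem 1 0 0)
    obtain ⟨c, hc', e'⟩ := h₃.ge (u_mem 0 1 0)
    simpa [(u_inj e).1, (u_inj e).2.1, (u_inj e').1, (u_inj e').2.1] using cm b hb c hc'
  have hx : ∀ a ∈ A, a.x = 0 := fun a ha => by
    obtain ⟨h₁, h₂, h₃⟩ := (hW k).1 (le_ker hc hz hk)
    simpa [th_apply, act, h₁, h₂, h₃, hd] using congrArg V.b (le_ker hc ha hk)
  refine ⟨⟨z, hz, z₁, z₂, z₃⟩, ?_, hx, k, hk, hd⟩
  obtain ⟨b, hb, hy⟩ : ∃ b ∈ A, b.y = 1 := by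
    obtain ⟨_, ⟨b, hb, rfl⟩, h₁, h₂, h₃⟩ := exists_not_zpowers h9 0 0 1
    rcases K_cases b.y with h | h | h
    · rw [rho_eq, hx b hb, h] at h₁ h₂ h₃
      rcases K_cases b.z with h | h | h <;> simp_all [u_zero, u_inv]
    exacts [⟨b, hb, h⟩, ⟨b⁻¹, inv_mem hb, by simp [h]⟩]
  rcases K_cases b.z with h | h | h
  exacts [⟨b, hb, hx b hb, hy, h⟩, ⟨_, mul_mem hb (inv_mem hz), by simp [*, hx b hb]⟩,
    ⟨_, mul_mem hb hz, by simp [*, hx b hb]⟩]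

theorem anal : E = E3 ∨ ∃ l, (E = O ∧ A = Dl l) ∨ E = Dl l := by
  obtain ⟨⟨z, hz, z₁, z₂, z₃⟩, ⟨y, hy, y₁, y₂, y₃⟩, hx, k, hk, hd⟩ := gens hA hn hc h4 hcard hJ
  have hW : vs A ≤ vW := fun v hv => (th_z z₁ z₂ z₃).1 (le_ker hc hz hv)
  have hE := comap_eq hA hn h4 hz (by simp [mem_J, z₃]) fun e _ => by
    simp [rho_eq, u_mul, z₁, z₂, add_comm]
  have c := congrArg P.v (hc y hy z hz)
  simp [z₁, z₂, z₃, y₁, y₂, y₃, act, V.ext_iff] at c
  obtain ⟨c₁, c₂, c₃, c₄, c₅⟩ : y.v.f = 0 ∧ z.v.f = 0 ∧ y.v.c = 0 ∧ z.v.e = 0 ∧ z.v.c = y.v.e := by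
    grind [three]
  have h3 : E ≤ E3 := fun s hs => by
    have h₁ := mul_mem (hn s hs z hz) (inv_mem hz)
    rw [← jv_of_mem (s := s * z * s⁻¹ * z⁻¹) (by simp [mem_J, z₁, z₂, z₃]; ring)] at h₁
    have := (hW h₁).2.2
    simp [act, z₁, z₂, z₃, c₂, c₄] at this
    rw [mem_E3]
    grind
  have gen : ∀ s : P, s.x = 0 → ∃ t ∈ A, t ∈ Dl y.v.e ∧ s * t⁻¹ ∈ J := fun s hs => by
    have hy' : y ∈ A ⊓ Dl y.v.e := ⟨hy, by simp [mem_Dl, y₁, y₂, y₃, c₁, c₃]⟩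
    have hz' : z ∈ A ⊓ Dl y.v.e := ⟨hz, by simp [mem_Dl, z₁, z₂, z₃, c₂, c₄, c₅]⟩
    have : ∀ g ∈ A ⊓ Dl y.v.e, ∀ i : K, ∃ t ∈ A ⊓ Dl y.v.e, t.y = i * g.y ∧ t.z = i * g.z :=
      fun g hg i => by
        rcases K_cases i with rfl | rfl | rfl
        exacts [⟨1, one_mem _, by simp⟩, ⟨g, hg, by simp⟩, ⟨g⁻¹, inv_mem hg, by simp [hg.2.1]⟩]
    obtain ⟨a, ha, a₁, a₂⟩ := this y hy' s.y
    obtain ⟨b, hb, b₁, b₂⟩ := this z hz' s.z
    exact ⟨_, (mul_mem ha hb).1, (mul_mem ha hb).2, by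
      simp [mem_J, hs, ha.2.1, hb.2.1, a₁, a₂, b₁, b₂, y₂, y₃, z₂, z₃]⟩
  have lift : ∀ {H H' : Subgroup P}, A ⊓ Dl y.v.e ≤ H → A ⊓ Dl y.v.e ≤ H' → vs H ≤ vs H' →
      ∀ s ∈ H, s.x = 0 → s ∈ H' := fun h h' hv s hs hx => by
    obtain ⟨t, ht, ht', e⟩ := gen s hx
    have := hv (show (s * t⁻¹).v ∈ vs _ by
      rw [mem_vs, jv_of_mem e]; exact mul_mem hs (inv_mem (h ⟨ht, ht'⟩)))
    rw [mem_vs, jv_of_mem e] at this
    simpa using mul_mem this (h' ⟨ht, ht'⟩)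
  have hAE : A ⊓ Dl y.v.e ≤ E := inf_le_left.trans hA
  have wD : ∀ v, v ∈ vs (Dl y.v.e) ↔ v ∈ vW := fun v => by
    simp [mem_vs, mem_Dl, jv, mem_vW, and_comm, and_left_comm]
  by_cases hx' : ∃ s ∈ E, s.x ≠ 0
  · obtain ⟨s, hs, hx'⟩ := hx'
    have st : ∀ v ∈ vs A, th s v ∈ vs A := fun v hv =>
      sub_mem (show jv (rho s v) ∈ A from conj_jv s v ▸ hn s hs _ hv) hv
    obtain ⟨k₁, k₂, k₃⟩ := hW hk
    have h5 : vs E3 ≤ vs E := fun v hv => by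
      have hv : v.f = 0 := hv
      rw [← hE]
      show th z v ∈ vs A
      convert add_mem ((vs A).smul_mem (v.e * s.x * k.d) (st _ hk)) ((vs A).smul_mem
        (k.d * (v.e * s.x * k.d * (2 * s.x * k.b + k.d) - 2 * v.c)) (st _ (st _ hk))) using 1
      have h₁ := K_sq hx'
      have h₂ := K_sq hd
      ext <;> simp [th_apply, act, z₁, z₂, z₃, k₁, k₂, k₃, hv] <;> grind [three]
    refine .inl (le_antisymm h3 fun t ht => ?_)
    obtain ⟨r, hr, e⟩ : ∃ r ∈ E, t.x = r.x := by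
      rcases K_cases t.x with h | h | h <;> rcases K_cases s.x with h' | h' | h'
      all_goals first
        | exact absurd h' hx'
        | exact ⟨1, one_mem _, h⟩
        | exact ⟨s, hs, h.trans h'.symm⟩
        | exact ⟨s⁻¹, inv_mem hs, by simp [h, h']⟩
    simpa using mul_mem (lift (hAE.trans h3) hAE h5 _ (mul_mem ht (inv_mem (h3 hr))) (by simp [e]))
      hr
  push Not at hx'
  refine .inr ⟨y.v.e, ?_⟩
  by_cases hv : vs E ≤ vW
  · exact .inr (le_antisymm (fun s hs => lift hAE inf_le_right (fun v h => (wD v).2 (hv h)) s hs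
      (hx' s hs)) fun s hs => lift inf_le_right hAE (fun v h => hE.le (show th z v ∈ vs A from
        (th_z z₁ z₂ z₃).2 ((wD v).1 h) ▸ zero_mem _)) s hs hs.1)
  obtain ⟨v, hv, hv'⟩ := SetLike.not_le_iff_exists.1 hv
  have hf : v.f = 0 := h3 hv
  have h5 : vs O ≤ vs E := fun w hw => by
    have hw : w.f = 0 := hw.2
    obtain ⟨a, ha, a₀, a₁⟩ := gen ⟨0, v.e, v.c, 0⟩ rfl
    obtain ⟨b, hb, b₀, b₁⟩ := gen ⟨0, w.e, w.c, 0⟩ rfl
    simp [mem_J, a₀.1, b₀.1, add_neg_eq_zero] at a₁ b₁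
    rw [← comap_eq hA hn h4 ha (fun h => hv' ⟨hf, a₁.1.trans h.2.1, a₁.2.trans h.2.2.1⟩)
      fun e he => by simp [rho_eq, u_mul, a₀.1, hx' e he, add_comm]]
    show th a w ∈ vs A
    convert th_mem hn hb hv using 1
    ext <;> simp [th_apply, act, a₀.1, b₀.1, ← a₁.1, ← a₁.2, ← b₁.1, ← b₁.2, hf, hw] <;> ring
  have hO : E ≤ O := fun s hs => ⟨hx' s hs, h3 hs⟩
  refine .inl ⟨le_antisymm hO fun s hs => lift (hAE.trans hO) hAE h5 s hs hs.1,
    le_antisymm (fun s hs => lift inf_le_left inf_le_right (fun v h => (wD v).2 (hW h)) s hs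
      (hx s hs)) fun s hs => lift inf_le_right inf_le_left (fun w h => ?_) s hs hs.1⟩
  obtain ⟨h₁, h₂, h₃⟩ := (wD w).1 h
  convert add_mem (th_mem hn hz (h5 (show ⟨0, 0, -w.a, 0, w.b, 0⟩ ∈ vs O from ⟨rfl, rfl⟩)))
    (th_mem hn hy (h5 (show ⟨0, 0, 0, 0, -w.d, 0⟩ ∈ vs O from ⟨rfl, rfl⟩))) using 1
  ext <;> simp [th_apply, act, z₁, z₂, z₃, y₁, y₂, y₃, h₁, h₂, h₃] <;> grind [three]

end

end Cfsg.Agent.C1.EB
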