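import Cfsg.Agent.Lib.C1.Basic

/-!
A faster evaluation of matrix products.
-/

set_option autoImplicit false

namespace Cfsg.Agent.C1

/-- Evaluate a natural number modulo `3` before continuing. -/
noncomputable def fN {α : Type} (n : ℕ) (g : K → α) : α :=
  Nat.rec (g ⟨0, by decide⟩) (fun k _ => Nat.rec (g ⟨1, by decide⟩) (fun _ _ => g ⟨2, by decide⟩) k)
    (Nat.mod n 3)

theorem fN_eq {α : Type} (n : ℕ) (g : K → α) : fN n g = g n := by
  rw [← ZMod.natCast_mod n 3, fN, show Nat.mod n 3 = n % 3 from rfl]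
  have : n % 3 < 3 := Nat.mod_lt _ (by decide)
  generalize n % 3 = k at this
  interval_cases k <;> rfl

def vl (k : K) : ℕ := Fin.val (n := 3) k

theorem cast_vl : ∀ k : K, (vl k : K) = k := by decide

def dot (v : V) (a b c d e f : K) : ℕ :=
  Nat.add (Nat.add (Nat.add (Nat.mul (vl v.a) (vl a)) (Nat.mul (vl v.b) (vl b)))
    (Nat.add (Nat.mul (vl v.c) (vl c)) (Nat.mul (vl v.d) (vl d))))
    (Nat.add (Nat.mul (vl v.e) (vl e)) (Nat.mul (vl v.f) (vl f)))

namespace M6

noncomputable def appC {α : Type} (m : M6) (v : V) (g : V → α) : α :=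
  fN (dot v m.a.a m.b.a m.c.a m.d.a m.e.a m.f.a) fun a =>
  fN (dot v m.a.b m.b.b m.c.b m.d.b m.e.b m.f.b) fun b =>
  fN (dot v m.a.c m.b.c m.c.c m.d.c m.e.c m.f.c) fun c =>
  fN (dot v m.a.d m.b.d m.c.d m.d.d m.e.d m.f.d) fun d =>
  fN (dot v m.a.e m.b.e m.c.e m.d.e m.e.e m.f.e) fun e =>
  fN (dot v m.a.f m.b.f m.c.f m.d.f m.e.f m.f.f) fun f => g ⟨a, b, c, d, e, f⟩

theorem appC_eq {α : Type} (m : M6) (v : V) (g : V → α) : m.appC v g = g (m.app v) := by
  simp only [appC, fN_eq]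
  congr 1
  ext <;> simp [dot, app, cast_vl, add_assoc]

noncomputable def mulF (m n : M6) : M6 :=
  M6.casesOn m fun a b c d e f => let m : M6 := ⟨a, b, c, d, e, f⟩
  m.appC n.a fun a => m.appC n.b fun b => m.appC n.c fun c => m.appC n.d fun d =>
    m.appC n.e fun e => m.appC n.f fun f => ⟨a, b, c, d, e, f⟩

theorem mulF_eq (m n : M6) : mulF m n = mul m n := by
  cases m
  simp only [mulF, mul, appC_eq, fV_eq]

def one : M6 := ⟨ea, eb, ec, ed, ee, ef⟩

noncomputable def prodF (l : List M6) : M6 := List.rec one (fun m _ r => mulF m r) l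

theorem prodF_eq (l : List M6) : prodF l = prod l := by
  induction l with
  | nil => exact (of_eq id).symm
  | cons m l ih => exact (mulF_eq _ _).trans (congrArg _ ih)

end M6

end Cfsg.Agent.C1
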