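import Cfsg.Agent.Lib.C1.Gam

/-!
Row FINAL, part 0: coordinate computations.
-/

set_option autoImplicit false
set_option linter.unusedSimpArgs false

namespace Cfsg.Agent.C1.Fn

open Subgroup

/-! ### Generators -/

theorem J_le_E1 : J ≤ E1 := fun _ h => h.1
theorem J_le_E2 : J ≤ E2 := fun _ h => h.2.1
theorem J_le_E4 (ε k : K) : J ≤ E4 ε k := fun _ h => by simp [mem_E4, h.1, h.2.1, h.2.2.1]

theorem mem_of_gen {D : Subgroup P} (g : K → P) (h₀ : g 0 = 1) (h₁ : g 1 ∈ D)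
    (h₂ : g (-1) = (g 1)⁻¹) (k : K) : g k ∈ D := by
  rcases K_cases k with rfl | rfl | rfl
  exacts [h₀ ▸ one_mem D, h₁, h₂ ▸ inv_mem h₁]

theorem E1_le {D : Subgroup P} (hJ : J ≤ D) (hy : (⟨0, 1, 0, 0⟩ : P) ∈ D)
    (hz : (⟨0, 0, 1, 0⟩ : P) ∈ D) : E1 ≤ D := fun s hs => by
  rw [s.decomp, show s.x = 0 from hs]
  exact mul_mem (mul_mem (mul_mem (hJ (jv_mem _))
    (mem_of_gen (fun k => ⟨0, 0, k, 0⟩) rfl hz (by decide) _))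
    (mem_of_gen (fun k => ⟨0, k, 0, 0⟩) rfl hy (by decide) _)) (one_mem D)

theorem E2_le {D : Subgroup P} (hJ : J ≤ D) (hx : (⟨1, 0, 0, 0⟩ : P) ∈ D)
    (hz : (⟨0, 0, 1, 0⟩ : P) ∈ D) : E2 ≤ D := fun s hs => by
  rw [s.decomp, show s.y = 0 from hs]
  exact mul_mem (mul_mem (mul_mem (hJ (jv_mem _))
    (mem_of_gen (fun k => ⟨0, 0, k, 0⟩) rfl hz (by decide) _)) (one_mem D))
    (mem_of_gen (fun k => ⟨k, 0, 0, 0⟩) rfl hx (by decide) _)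

/-- The powers of `r`. -/
def rr (ε k : K) : P := ⟨k, ε * k, -(ε * (k * k - k)), 0⟩

theorem rr_zero (ε : K) : rr ε 0 = 1 := by simp [rr, P.ext_iff]
theorem rr_one (ε : K) : rr ε 1 = ⟨1, ε, 0, 0⟩ := by simp [rr]
theorem rr_neg : ∀ ε : K, rr ε (-1) = (rr ε 1)⁻¹ := by decide
theorem rr_cube : ∀ ε : K, rr ε 1 * rr ε 1 * rr ε 1 = 1 := by decide
theorem rr_mem (ε k : K) : rr ε k ∈ E4 ε 0 := by simp [mem_E4, rr]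
theorem rho_rr (ε : K) : rho (rr ε 1) = u 1 ε 0 := by rw [rr_one]; rfl

theorem E4_decomp {ε : K} {s : P} (hs : s ∈ E4 ε 0) : s = jv s.v * rr ε s.x := by
  ext1 <;> simp [rr, jv, hs.1, hs.2, act_zero]

theorem E4_le {ε : K} {D : Subgroup P} (hJ : J ≤ D) (hr : rr ε 1 ∈ D) : E4 ε 0 ≤ D := fun s hs => by
  rw [E4_decomp hs]
  exact mul_mem (hJ (jv_mem _)) (mem_of_gen (rr ε) (rr_zero ε) hr (rr_neg ε) _)

theorem rho_E4 {ε : K} {s : P} (hs : s ∈ E4 ε 0) :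
    rho s = 1 ∨ rho s = u 1 ε 0 ∨ rho s = (u 1 ε 0)⁻¹ := by
  rw [E4_decomp hs, map_mul, rho_jv, one_mul]
  rcases K_cases s.x with h | h | h <;> rw [h]
  · simp [rr_zero]
  · simp [rho_rr]
  · simp [rr_neg, rho_rr]

theorem conj_E4 {ε : K} (hε : ε ≠ 0) (k : K) (s : P) :
    (⟨k * ε, 0, 0, 0⟩ : P) * s * (⟨k * ε, 0, 0, 0⟩ : P)⁻¹ ∈ E4 ε k ↔ s ∈ E4 ε 0 := by
  have := K_sq hε
  simp only [mem_E4, P.mul_x, P.mul_y, P.mul_z, P.inv_x, P.inv_y, P.inv_z]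
  constructor <;> rintro ⟨h₁, h₂⟩ <;> constructor <;> grind

/-! ### Cocycles -/

theorem coc1 {q q' v : V}
    (h₁ : (⟨0, 1, 0, q⟩ : P)⁻¹ = jv v * dg 1 (-1) 1 ⟨0, 1, 0, q⟩ * (jv v)⁻¹)
    (h₂ : (⟨0, 0, 1, q'⟩ : P)⁻¹ = jv v * dg 1 (-1) 1 ⟨0, 0, 1, q'⟩ * (jv v)⁻¹)
    (h₃ : (⟨0, 1, 0, q⟩ : P) * ⟨0, 0, 1, q'⟩ = ⟨0, 0, 1, q'⟩ * ⟨0, 1, 0, q⟩) :
    ∃ w, (⟨0, 1, 0, q⟩ : P) = jv w * ⟨0, 1, 0, 0⟩ * (jv w)⁻¹ ∧
      (⟨0, 0, 1, q'⟩ : P) = jv w * ⟨0, 0, 1, 0⟩ * (jv w)⁻¹ := by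
  refine ⟨⟨0, 0, q'.a - q'.c, 0, -q'.b, -q'.c⟩, ?_⟩
  simp [P.ext_iff, V.ext_iff, act, dg, dF, jv] at h₁ h₂ h₃ ⊢
  grind

theorem coc2 {q q' v : V}
    (h₁ : (⟨1, 0, 0, q⟩ : P)⁻¹ = jv v * dg (-1) 1 1 ⟨1, 0, 0, q⟩ * (jv v)⁻¹)
    (h₂ : (⟨0, 0, 1, q'⟩ : P)⁻¹ = jv v * dg (-1) 1 1 ⟨0, 0, 1, q'⟩ * (jv v)⁻¹)
    (h₃ : (⟨1, 0, 0, q⟩ : P) * ⟨0, 0, 1, q'⟩ = ⟨0, 0, 1, q'⟩ * ⟨1, 0, 0, q⟩) :
    ∃ w, (⟨1, 0, 0, q⟩ : P) = jv w * ⟨1, 0, 0, 0⟩ * (jv w)⁻¹ ∧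
      (⟨0, 0, 1, q'⟩ : P) = jv w * ⟨0, 0, 1, 0⟩ * (jv w)⁻¹ := by
  refine ⟨⟨0, q.a - q.b, q'.a - q'.c, -q.b, -q.c, -q'.c⟩, ?_⟩
  simp [P.ext_iff, V.ext_iff, act, dg, dF, jv] at h₁ h₂ h₃ ⊢
  grind

theorem vT_exists {ε : K} (hε : ε ≠ 0) {v : V} (hv : v ∈ vT ε) : ∃ w, v = u 1 ε 0 w - w := by
  have := K_sq hε
  obtain ⟨h₁, h₂⟩ := hv
  refine ⟨⟨0, -v.a, ε * v.b - v.c, 0, v.c, ε * v.e⟩, ?_⟩
  simp [V.ext_iff, u_apply, act]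
  grind

theorem fix_exists {ε : K} (hε : ε ≠ 0) {v : V} (hv : u 1 ε 0 v = v) :
    ∃ w ∈ vT ε, v = u 1 ε 0 w - w := by
  have := K_sq hε
  refine ⟨⟨0, -v.a, v.c, 0, v.c, 0⟩, ?_⟩
  simp [V.ext_iff, u_apply, act, mem_vT] at hv ⊢
  grind

theorem sub_mem_vT {ε : K} (hε : ε ≠ 0) (w : V) :
    u 1 ε 0 w - w ∈ vT ε ∧ (u 1 ε 0)⁻¹ w - w ∈ vT ε := by
  have := K_sq hε
  simp [u_inv, u_apply, act, mem_vT]
  grind

theorem fix_sub {ε : K} (hε : ε ≠ 0) {w : V} (hw : w ∈ vT ε) :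
    u 1 ε 0 (u 1 ε 0 w - w) = u 1 ε 0 w - w := by
  have := K_sq hε
  obtain ⟨h₁, h₂⟩ := hw
  simp [V.ext_iff, u_apply, act]
  grind

theorem coc4 {ε : K} (hε : ε ≠ 0) {q : V}
    (h : (⟨1, ε, 0, q⟩ : P) * ⟨1, ε, 0, q⟩ * ⟨1, ε, 0, q⟩ = 1) :
    ∃ w, (⟨1, ε, 0, q⟩ : P) = jv w * ⟨1, ε, 0, 0⟩ * (jv w)⁻¹ := by
  have := K_sq hε
  obtain ⟨w, rfl⟩ := vT_exists hε (v := q) (by
    simp [P.ext_iff, V.ext_iff, act] at h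
    rw [mem_vT]
    grind)
  exact ⟨-w, by ext1 <;> simp [jv, ← u_apply, u_zero, sub_eq_neg_add]⟩

/-! ### Normalisers -/

theorem NA1.mul {g h : GV} (hg : NA1 g) (hh : NA1 h) : NA1 (g * h) := fun y z => by
  obtain ⟨y', z', e⟩ := hh y z
  obtain ⟨y'', z'', e'⟩ := hg y' z'
  exact ⟨y'', z'', by rw [mul_assoc, e, ← mul_assoc, e', mul_assoc]⟩

theorem NA2.mul {g h : GV} (hg : NA2 g) (hh : NA2 h) : NA2 (g * h) := fun y z => by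
  obtain ⟨y', z', e⟩ := hh y z
  obtain ⟨y'', z'', e'⟩ := hg y' z'
  exact ⟨y'', z'', by rw [mul_assoc, e, ← mul_assoc, e', mul_assoc]⟩

theorem NR.mul {g h : GV} (hg : NR g) (hh : NR h) : NR (g * h) := fun s => by
  obtain ⟨s', e⟩ := hh s
  obtain ⟨s'', e'⟩ := hg s'
  exact ⟨s'', by rw [mul_assoc, e, ← mul_assoc, e', mul_assoc]⟩

theorem nr_rho (s : P) : NR (rho s) := fun t => ⟨s * t * s⁻¹, by simp⟩

theorem Nr.mul {ε : K} {g h : GV} (hg : g * u 1 ε 0 = u 1 ε 0 * g) (hh : Nr ε h) :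
    Nr ε (g * h) := by
  have hg' : Commute g (u 1 ε 0) := hg
  rcases hh with e | e
  · exact .inl (by rw [mul_assoc, e, ← mul_assoc, hg, mul_assoc])
  · exact .inr (by rw [mul_assoc, e, ← mul_assoc, hg'.inv_right.eq, mul_assoc])

theorem na1_x (l : K) : NA1 (x1m l) := fun y z => ⟨y + z, z, LinearEquiv.ext fun v => by
  simp [GV.mul_apply, x1m, x1F, u_apply, act, V.ext_iff]
  grind⟩

theorem na2_x (m : K) : NA2 (x2m m) := fun x z => ⟨x - z, z, LinearEquiv.ext fun v => by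
  simp [GV.mul_apply, x2m, x2F, u_apply, act, V.ext_iff]
  grind⟩

theorem na1_u (k : K) : NA1 (u k 0 0) := fun y z => ⟨y, z + k * y, by simp [u_mul]⟩

theorem na2_u (k : K) : NA2 (u 0 k 0) := fun x z => ⟨x, z - x * k, by simp [u_mul]⟩

theorem dg_jv (i j k : Kˣ) (v : V) : dg i j k (jv v) = jv (dV i j k v) := by
  ext1 <;> simp [dg, dV, jv]

theorem nr_dV (i j k : Kˣ) : NR (dV i j k) := fun s =>
  ⟨_, res_mul (Fus2.homOn_hom ⊤ (dg i j k).toMonoidHom) le_top (dg_jv i j k) (mem_top s)⟩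

theorem st_of_fix {γ : GV} {W : Submodule K V} {A : Set GV} (h : ∀ a ∈ A, ∃ a' ∈ A, γ * a = a' * γ)
    (hW : ∀ v, v ∈ W ↔ ∀ a ∈ A, a v = v) : St γ W := by
  have : St γ⁻¹ W := fun v hv => (hW _).2 fun a ha => by
    obtain ⟨a', ha', e⟩ := h a ha
    refine γ.injective ?_
    rw [← GV.mul_apply, e, GV.mul_apply, GV.apply_inv_apply, (hW _).1 hv a' ha']
  simpa using this.inv

theorem NA1.stW {γ : GV} (h : NA1 γ) : St γ vW :=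
  st_of_fix (A := {a | ∃ y z, a = u 0 y z}) (by
    rintro _ ⟨y, z, rfl⟩
    obtain ⟨y', z', e⟩ := h y z
    exact ⟨_, ⟨_, _, rfl⟩, e⟩) fun v => ⟨by
      rintro ⟨h₁, h₂, h₃⟩ _ ⟨y, z, rfl⟩
      ext <;> simp [u_apply, act, h₁, h₂, h₃], fun h => by
      have := h _ ⟨0, 1, rfl⟩
      simp [u_apply, act, V.ext_iff] at this
      rw [mem_vW]
      grind⟩

theorem NA2.stZ {γ : GV} (h : NA2 γ) : St γ vZ :=
  st_of_fix (A := {a | ∃ y z, a = u y 0 z}) (by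
    rintro _ ⟨y, z, rfl⟩
    obtain ⟨y', z', e⟩ := h y z
    exact ⟨_, ⟨_, _, rfl⟩, e⟩) fun v => ⟨by
      rintro ⟨h₁, h₂, h₃, h₄, h₅⟩ _ ⟨y, z, rfl⟩
      ext <;> simp [u_apply, act, h₁, h₂, h₃, h₄, h₅], fun h => by
      have h₁ := h _ ⟨0, 1, rfl⟩
      have h₂ := h _ ⟨1, 0, rfl⟩
      simp [u_apply, act, V.ext_iff] at h₁ h₂
      rw [mem_vZ]
      grind⟩

theorem NA2.stU {γ : GV} (h : NA2 γ) : St γ vU := fun v hv => by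
  obtain ⟨x, z, e⟩ := h 1 0
  have : v = u 1 0 0 ⟨0, v.b - v.a, 0, v.b, v.c, 0⟩ - ⟨0, v.b - v.a, 0, v.b, v.c, 0⟩ := by
    obtain ⟨h₁, h₂, h₃⟩ := hv
    simp [u_apply, act, V.ext_iff]
    grind
  rw [this, map_sub, ← GV.mul_apply, e, GV.mul_apply]
  simp [u_apply, act, mem_vU]

theorem Nr.stT {ε : K} (hε : ε ≠ 0) {γ : GV} (h : Nr ε γ) : St γ (vT ε) := fun v hv => by
  obtain ⟨w, rfl⟩ := vT_exists hε hv
  rw [map_sub, ← GV.mul_apply]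
  rcases h with e | e <;> rw [e]
  exacts [(sub_mem_vT hε _).1, (sub_mem_vT hε _).2]

theorem Nr.fix {ε : K} {γ : GV} (h : Nr ε γ) {v : V} (hv : u 1 ε 0 v = v) :
    u 1 ε 0 (γ v) = γ v := by
  rcases h with e | e
  · rw [← GV.mul_apply, ← e, GV.mul_apply, hv]
  · conv_lhs => rw [← hv, ← GV.mul_apply γ, e, GV.mul_apply, GV.apply_inv_apply]

end Cfsg.Agent.C1.Fn
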