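import Cfsg.Agent.Lib.C1.Fin0
import Cfsg.Agent.Lib.Ess.Conj

/-!
Row FINAL, part 1: comparison of the automizers of the subgroups over `J`.
-/

set_option autoImplicit false
set_option linter.unusedSimpArgs false

namespace Cfsg.Agent.C1.Fn

open Cfsg.Agent.Fus Cfsg.Agent.Fus2 Subgroup

variable {F F' : FusionSystem (⊤ : Subgroup P)} {E : Subgroup P}

theorem exists_rs (hE : J ≤ E) (α : MulAut E) : ∃ γ : GV, ∀ v, afn α (jv v) = jv (γ v) :=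
  exists_lin ((homOn_afn α).mono hE) fun _ _ _ _ e => afn_injective α e

/-- Restriction to `J`. -/
noncomputable def rs (hE : J ≤ E) : MulAut E →* GV :=
  MonoidHom.mk' (fun α => (exists_rs hE α).choose) fun α β => LinearEquiv.ext fun v => jv_inj (by
    rw [← (exists_rs hE (α * β)).choose_spec, afn_mul, (exists_rs hE β).choose_spec,
      (exists_rs hE α).choose_spec]
    rfl)

variable (hE : J ≤ E) {α : MulAut E} {γ : GV}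

theorem afn_jv (α : MulAut E) (v : V) : afn α (jv v) = jv (rs hE α v) :=
  (exists_rs hE α).choose_spec v

theorem rs_eq (h : ∀ v, afn α (jv v) = jv (γ v)) : rs hE α = γ :=
  LinearEquiv.ext fun v => jv_inj ((afn_jv hE α v).symm.trans (h v))

theorem rs_mem (hα : α ∈ F.autGroup E) : rs hE α ∈ Gam F :=
  mem_Gam_of (M_afn le_top hα) hE (afn_jv hE α)

theorem rs_rho (α : MulAut E) {s : P} (hs : s ∈ E) :
    rs hE α * rho s = rho (afn α s) * rs hE α := res_mul (homOn_afn α) hE (afn_jv hE α) hs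

theorem exists_lift (hF : F.IsSaturated 3) (hγ : γ ∈ Gam F)
    (h : ∀ s ∈ E, ∃ s' ∈ E, γ * rho s = rho s' * γ) : ∃ β ∈ F.autGroup E, rs hE β = γ := by
  obtain ⟨f, hf, e⟩ := exists_ext_au hF hγ hE h
  obtain ⟨β, hβ, e'⟩ := hf.1.exists_aut' hf.2
  exact ⟨β, hβ, rs_eq hE fun v => by rw [e' _ (hE (jv_mem v)), e]⟩

theorem of_ker (hF : F.IsSaturated 3) (hα : α ∈ F.autGroup E) (h : rs hE α = 1) :
    ∃ v, ∀ s ∈ E, afn α s = jv v * s * (jv v)⁻¹ :=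
  exists_conj_J hF hE (M_id F le_top) (M_afn le_top hα) fun v => by rw [afn_jv hE, h]; rfl

theorem xyz_of_ker (h : rs hE α = 1) {s : P} (hs : s ∈ E) :
    afn α s = ⟨s.x, s.y, s.z, (afn α s).v⟩ := by
  have := rs_rho hE α hs
  rw [h, one_mul, mul_one] at this
  obtain ⟨h₁, h₂, h₃⟩ := u_inj this
  exact P.ext h₁.symm h₂.symm h₃.symm rfl

/-- The elements on which `α` agrees with conjugation by `jv w`. -/
def agree (α : MulAut E) (w : V) : Subgroup P :=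
  grp (fun s => s ∈ E ∧ afn α s = jv w * s * (jv w)⁻¹) ⟨one_mem E, by simp [(homOn_afn α).map_one]⟩
    (fun hs ht => ⟨mul_mem hs.1 ht.1, by rw [(homOn_afn α).map_mul hs.1 ht.1, hs.2, ht.2]; group⟩)
    fun hs => ⟨inv_mem hs.1, by rw [(homOn_afn α).map_inv hs.1, hs.2]; group⟩

theorem J_le_agree (h : rs hE α = 1) (w : V) : J ≤ agree α w := fun s hs => ⟨hE hs, by
  rw [comm_J (jv_mem w) hs, mul_inv_cancel_right, ← jv_of_mem hs, afn_jv hE, h]; rfl⟩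

theorem fix4 {ε : K} (hε : ε ≠ 0) {m : MulAut (E4 ε 0)} (h : rs (J_le_E4 ε 0) m = 1) :
    ∃ w, ∀ s ∈ E4 ε 0, afn m s = jv w * s * (jv w)⁻¹ := by
  have hr := rr_mem ε 1
  have e := xyz_of_ker _ h hr
  have c := congrArg (afn m) (rr_cube ε)
  rw [(homOn_afn m).map_mul (mul_mem hr hr) hr, (homOn_afn m).map_mul hr hr,
    (homOn_afn m).map_one, e] at c
  rw [rr_one] at c e hr
  obtain ⟨w, hw⟩ := coc4 hε c
  exact ⟨w, fun s hs => (E4_le (J_le_agree _ h w) (rr_one ε ▸ ⟨hr, e.trans hw⟩) hs).2⟩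

theorem fix1 {m : MulAut E1} (h : rs J_le_E1 m = 1) {v : V}
    (hv : ∀ s ∈ E1, afn m (dg 1 (-1) 1 s) = jv v * dg 1 (-1) 1 (afn m s) * (jv v)⁻¹) :
    ∃ w, ∀ s ∈ E1, afn m s = jv w * s * (jv w)⁻¹ := by
  have hy : (⟨0, 1, 0, 0⟩ : P) ∈ E1 := rfl
  have hz : (⟨0, 0, 1, 0⟩ : P) ∈ E1 := rfl
  have ey := xyz_of_ker _ h hy
  have ez := xyz_of_ker _ h hz
  have h₁ := hv _ hy
  have h₂ := hv _ hz
  have h₃ := congrArg (afn m) (show (⟨0, 1, 0, 0⟩ : P) * ⟨0, 0, 1, 0⟩ = ⟨0, 0, 1, 0⟩ * ⟨0, 1, 0, 0⟩ by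
    decide)
  rw [show dg 1 (-1) 1 ⟨0, 1, 0, 0⟩ = (⟨0, 1, 0, 0⟩ : P)⁻¹ by decide, (homOn_afn m).map_inv hy,
    ey] at h₁
  rw [show dg 1 (-1) 1 ⟨0, 0, 1, 0⟩ = (⟨0, 0, 1, 0⟩ : P)⁻¹ by decide, (homOn_afn m).map_inv hz,
    ez] at h₂
  rw [(homOn_afn m).map_mul hy hz, (homOn_afn m).map_mul hz hy, ey, ez] at h₃
  obtain ⟨w, w₁, w₂⟩ := coc1 h₁ h₂ h₃
  exact ⟨w, fun s hs => (E1_le (J_le_agree _ h w) ⟨hy, ey.trans w₁⟩ ⟨hz, ez.trans w₂⟩ hs).2⟩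

theorem fix2 {m : MulAut E2} (h : rs J_le_E2 m = 1) {v : V}
    (hv : ∀ s ∈ E2, afn m (dg (-1) 1 1 s) = jv v * dg (-1) 1 1 (afn m s) * (jv v)⁻¹) :
    ∃ w, ∀ s ∈ E2, afn m s = jv w * s * (jv w)⁻¹ := by
  have hy : (⟨1, 0, 0, 0⟩ : P) ∈ E2 := rfl
  have hz : (⟨0, 0, 1, 0⟩ : P) ∈ E2 := rfl
  have ey := xyz_of_ker _ h hy
  have ez := xyz_of_ker _ h hz
  have h₁ := hv _ hy
  have h₂ := hv _ hz
  have h₃ := congrArg (afn m) (show (⟨1, 0, 0, 0⟩ : P) * ⟨0, 0, 1, 0⟩ = ⟨0, 0, 1, 0⟩ * ⟨1, 0, 0, 0⟩ by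
    decide)
  rw [show dg (-1) 1 1 ⟨1, 0, 0, 0⟩ = (⟨1, 0, 0, 0⟩ : P)⁻¹ by decide, (homOn_afn m).map_inv hy,
    ey] at h₁
  rw [show dg (-1) 1 1 ⟨0, 0, 1, 0⟩ = (⟨0, 0, 1, 0⟩ : P)⁻¹ by decide, (homOn_afn m).map_inv hz,
    ez] at h₂
  rw [(homOn_afn m).map_mul hy hz, (homOn_afn m).map_mul hz hy, ey, ez] at h₃
  obtain ⟨w, w₁, w₂⟩ := coc2 h₁ h₂ h₃
  exact ⟨w, fun s hs => (E2_le (J_le_agree _ h w) ⟨hy, ey.trans w₁⟩ ⟨hz, ez.trans w₂⟩ hs).2⟩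

theorem na1_of (h : ∀ s ∈ E1, ∃ s' ∈ E1, γ * rho s = rho s' * γ) : NA1 γ := fun y z => by
  obtain ⟨s, hs, e⟩ := h ⟨0, y, z, 0⟩ rfl
  exact ⟨s.y, s.z, by rwa [rho_eq s, show s.x = 0 from hs] at e⟩

theorem na2_of (h : ∀ s ∈ E2, ∃ s' ∈ E2, γ * rho s = rho s' * γ) : NA2 γ := fun x z => by
  obtain ⟨s, hs, e⟩ := h ⟨x, 0, z, 0⟩ rfl
  exact ⟨s.x, s.z, by rwa [rho_eq s, show s.y = 0 from hs] at e⟩

theorem nr_of {ε : K} (h : ∀ s ∈ E4 ε 0, ∃ s' ∈ E4 ε 0, γ * rho s = rho s' * γ) : Nr ε γ := by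
  obtain ⟨s, hs, e⟩ := h _ (rr_mem ε 1)
  rw [rho_rr] at e
  rcases rho_E4 hs with h | h | h <;> rw [h] at e
  · exact absurd (u_eq_one.1 (by simpa using e)).1 one_ne_zero
  exacts [.inl e, .inr e]

theorem na1_rs (α : MulAut E1) : NA1 (rs J_le_E1 α) :=
  na1_of fun _ hs => ⟨_, afn_mem α hs, rs_rho _ α hs⟩

theorem na2_rs (α : MulAut E2) : NA2 (rs J_le_E2 α) :=
  na2_of fun _ hs => ⟨_, afn_mem α hs, rs_rho _ α hs⟩

theorem nr_rs {ε : K} (α : MulAut (E4 ε 0)) : Nr ε (rs (J_le_E4 ε 0) α) :=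
  nr_of fun _ hs => ⟨_, afn_mem α hs, rs_rho _ α hs⟩

/-- The chain of `E4`. -/
def ch4 (ε : K) : ℕ → Subgroup P
  | 0 => ⊥
  | 1 => jS (LinearMap.eqLocus (u 1 ε 0).toLinearMap LinearMap.id)
  | 2 => jS (vT ε)
  | 3 => J
  | _ => ⊤

theorem k4_of_ess {ε : K} (hε : ε ≠ 0) (hF : F.IsSaturated 3) (hE : F.IsEssential 3 (E4 ε 0)) :
    K4 ε (Gam F) := fun g hg hc ht => by
  have hc' : Commute g (u 1 ε 0) := hc
  have hcm : ∀ s ∈ E4 ε 0, g * rho s = rho s * g := fun s hs => by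
    rcases rho_E4 hs with h | h | h <;> rw [h]
    exacts [by simp, hc, hc'.inv_right]
  obtain ⟨α, hα, rfl⟩ := exists_lift (J_le_E4 ε 0) hF hg fun s hs => ⟨s, hs, hcm s hs⟩
  have hsub : ∀ w, rs (J_le_E4 ε 0) α (u 1 ε 0 w - w) - (u 1 ε 0 w - w) =
      u 1 ε 0 (rs (J_le_E4 ε 0) α w - w) - (rs (J_le_E4 ε 0) α w - w) := fun w => by
    rw [map_sub, map_sub, ← GV.mul_apply, hc, GV.mul_apply]
    abel
  have hfT : ∀ v ∈ vT ε, u 1 ε 0 (rs (J_le_E4 ε 0) α v - v) = rs (J_le_E4 ε 0) α v - v :=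
    fun v hv => by
      obtain ⟨w, rfl⟩ := vT_exists hε hv
      rw [hsub, fix_sub hε (ht w)]
  suffices H : α ∈ autCore F 3 (E4 ε 0) by
    obtain ⟨s, hs, e⟩ := Fus2.mem_Inn_iff.1 ((isRadical_iff pg_top le_top).1
      (isRadical_of_isEssential pg_top hE) H)
    have : rs (J_le_E4 ε 0) α = rho s := rs_eq _ fun v => by
      rw [e _ (J_le_E4 ε 0 (jv_mem v)), conj_jv]
    rw [this]
    rcases rho_E4 hs with h | h | h <;> rw [h]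
    exacts [one_mem _, mem_zpowers _, inv_mem (mem_zpowers _)]
  refine mem_autCore_of_chain' pg_top le_top (ch4 ε) 4
    (fun i hi => ?_) le_top rfl (fun β hβ i hi x hx hx' => ?_) hα fun i hi x hx hx' => ?_
  · interval_cases i
    · exact bot_le
    · refine jS_mono fun v hv => ?_
      obtain ⟨w, -, rfl⟩ := fix_exists hε hv
      exact (sub_mem_vT hε w).1
    · exact jS_le _
    · exact le_top
  · interval_cases i
    · rw [mem_bot.1 hx', (homOn_afn β).map_one]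
      exact one_mem _
    · obtain ⟨v, hv, rfl⟩ := exists_jv hx'
      rw [afn_jv (J_le_E4 ε 0)]
      exact jv_mem_jS.2 (Nr.fix (nr_rs β) hv)
    · obtain ⟨v, hv, rfl⟩ := exists_jv hx'
      rw [afn_jv (J_le_E4 ε 0)]
      exact jv_mem_jS.2 (Nr.stT hε (nr_rs β) v hv)
    · exact M.mem_J (M_afn le_top hβ) (J_le_E4 ε 0) hx'
    · trivial
  · interval_cases i
    · obtain ⟨v, hv, rfl⟩ := exists_jv hx'
      obtain ⟨w, hw, rfl⟩ := fix_exists hε hv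
      rw [afn_jv (J_le_E4 ε 0), ← jv_neg, ← jv_add, neg_add_eq_sub, hsub, hfT w hw, sub_self]
      exact one_mem _
    · obtain ⟨v, hv, rfl⟩ := exists_jv hx'
      rw [afn_jv (J_le_E4 ε 0), ← jv_neg, ← jv_add, neg_add_eq_sub]
      exact jv_mem_jS.2 (hfT v hv)
    · obtain ⟨v, -, rfl⟩ := exists_jv hx'
      rw [afn_jv (J_le_E4 ε 0), ← jv_neg, ← jv_add, neg_add_eq_sub]
      exact jv_mem_jS.2 (ht v)
    · have := rs_rho (J_le_E4 ε 0) α hx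
      rw [hcm x hx, mul_left_inj] at this
      exact rho_eq_one.1 (by rw [map_mul, ← this, map_inv, inv_mul_cancel])

theorem ess4 {ε k : K} (hε : ε ≠ 0) (hE : F.IsEssential 3 (E4 ε k)) :
    F.IsConj (E4 ε k) (E4 ε 0) ∧ F.IsEssential 3 (E4 ε 0) := by
  have e : img (E4 ε k) (fun x => (⟨k * ε, 0, 0, 0⟩ : P)⁻¹ * x * (⟨k * ε, 0, 0, 0⟩ : P)⁻¹⁻¹) =
      E4 ε 0 := by
    ext x
    rw [(homOn_conj _ _).mem_img, ← conj_E4 hε k]
    exact ⟨by rintro ⟨y, hy, rfl⟩; simpa [mul_assoc], fun h => ⟨_, h, by group⟩⟩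
  exact ⟨e ▸ (M_conj F le_top trivial).isConj,
    e ▸ Ess.isEssential_img hE (M_conj F le_rfl trivial)⟩

section Cmp

variable (hF : F.IsSaturated 3) (h : ∀ f, M F ⊤ f → M F' ⊤ f)
include hF h

theorem gam_le (hγ : γ ∈ Gam F) (hn : NR γ) : γ ∈ Gam F' :=
  let ⟨_, hf, e⟩ := exists_ext_top hF hγ hn
  mem_Gam_of (h _ hf) le_top e

theorem aut_le (hα : α ∈ F.autGroup E) (hn : NR (rs hE α)) : α ∈ F'.autGroup E := by
  obtain ⟨g, hg, e⟩ := exists_ext_top hF (rs_mem hE hα) hn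
  obtain ⟨v, hv⟩ := exists_conj_J hF hE (hg.mono le_top) (M_afn le_top hα) fun v => by
    rw [e, afn_jv hE]
  exact ((M_conj F' le_top (mem_top (jv v))).comp (h g hg) fun _ _ => trivial).mem_autGroup hv

variable (hF' : F'.IsSaturated 3)
include hF'

theorem cmp_tor {t : P → P} (ht : M F ⊤ t) (htE : ∀ s ∈ E, t s ∈ E) {τ : GV}
    (hτ : ∀ v, t (jv v) = jv (τ v))
    (hfix : ∀ m : MulAut E, rs hE m = 1 → ∀ v, (∀ s ∈ E, afn m (t s) = jv v * t (afn m s) * (jv v)⁻¹) →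
      ∃ w, ∀ s ∈ E, afn m s = jv w * s * (jv w)⁻¹)
    (hN : ∀ β ∈ F.autGroup E, rs hE β = rs hE α * τ * (rs hE α)⁻¹ → NR (rs hE β))
    (hα : α ∈ F.autGroup E) (hγ : rs hE α ∈ Gam F') : α ∈ F'.autGroup E := by
  obtain ⟨σ, hσ, eσ⟩ := (ht.mono le_top).exists_aut' htE
  have hσ' : σ ∈ F'.autGroup E := ((h t ht).mono le_top).mem_autGroup eσ
  have rσ : rs hE σ = τ := rs_eq hE fun v => by rw [eσ _ (hE (jv_mem v)), hτ]
  obtain ⟨β, hβ, e⟩ := exists_lift hE hF' hγ fun s hs => ⟨_, afn_mem α hs, rs_rho hE α hs⟩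
  have hm : rs hE (β⁻¹ * α) = 1 := by simp [e]
  have h₁ := mul_mem (mul_mem hα hσ) (inv_mem hα)
  have h₂ := aut_le hE hF h h₁ (hN _ h₁ (by simp [rσ]))
  obtain ⟨v, hv⟩ := of_ker hE hF' (α := β⁻¹ * α * σ * (β⁻¹ * α)⁻¹ * σ⁻¹) (by
    rw [show β⁻¹ * α * σ * (β⁻¹ * α)⁻¹ * σ⁻¹ = β⁻¹ * (α * σ * α⁻¹) * β * σ⁻¹ by group]
    exact mul_mem (mul_mem (mul_mem (inv_mem hβ) h₂) hβ) (inv_mem hσ'))
    (by rw [map_mul, map_mul, map_mul, map_inv, hm]; simp)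
  obtain ⟨w, hw⟩ := hfix _ hm v fun s hs => by
    rw [← eσ _ (afn_mem _ hs), ← hv _ (afn_mem _ (afn_mem _ hs)), ← eσ _ hs]
    simp only [← afn_mul]
    congr 1
    group
  simpa using mul_mem hβ ((M_conj F' le_top (mem_top (jv w))).mem_autGroup hw)

theorem cmp1 (h₁ : L1Stmt) {l : K} (hl : x1m l ∈ Gam F) (hl' : x1m l ∈ Gam F')
    (ht : M F ⊤ (dg 1 (-1) 1)) : F.autGroup E1 ≤ F'.autGroup E1 := fun α hα => by
  have hγ := rs_mem J_le_E1 hα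
  refine cmp_tor J_le_E1 hF h hF' ht (fun s hs => by simpa [mem_E1, dg] using hs) (dg_jv _ _ _)
    (fun m hm v => fix1 hm) (fun β hβ e => (h₁ _ (syl_Gam hF) _ (rs_mem _ hβ) (na1_rs β)).1
      fun v hv => ?_) hα ?_
  · have : ∀ w ∈ vW, dV 1 (-1) 1 w = w := fun w ⟨h₁, h₂, h₃⟩ => by
      ext <;> simp [dV, dF, h₁, h₂, h₃]
    rwa [e, GV.mul_apply, GV.mul_apply,
      this _ ((NA1.stW (na1_rs α)).inv v ⟨hv.1, hv.2.1, hv.2.2.1⟩), GV.apply_inv_apply]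
  · obtain ⟨a, -, c | c⟩ := h₁ _ (syl_Gam hF) _ hγ (na1_rs α)
    · exact gam_le hF h hγ (a c)
    obtain ⟨k, c⟩ := c l
    have hm := mul_mem (mul_mem hl ((syl_Gam hF).le (u_mem k 0 0))) hγ
    exact (Subgroup.mul_mem_cancel_left _ (mul_mem hl' ((syl_Gam hF').le (u_mem k 0 0)))).1
      (gam_le hF h hm ((h₁ _ (syl_Gam hF) _ hm (NA1.mul (NA1.mul (na1_x l) (na1_u k)) (na1_rs α))).1 c))

theorem cmp2 (h₂ : L2Stmt) {m : K} (hl : x2m m ∈ Gam F) (hl' : x2m m ∈ Gam F')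
    (ht : M F ⊤ (dg (-1) 1 1)) : F.autGroup E2 ≤ F'.autGroup E2 := fun α hα => by
  have hγ := rs_mem J_le_E2 hα
  refine cmp_tor J_le_E2 hF h hF' ht (fun s hs => by simpa [mem_E2, dg] using hs) (dg_jv _ _ _)
    (fun m hm v => fix2 hm) (fun β hβ e => (h₂ _ (syl_Gam hF) _ (rs_mem _ hβ) (na2_rs β)).1
      fun v hv => ?_) hα ?_
  · have := (NA2.stU (na2_rs α) (dV (-1) 1 1 ((rs J_le_E2 α)⁻¹ v) - (rs J_le_E2 α)⁻¹ v)
      (by simp [mem_vU, dV, dF])).1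
    rw [map_sub, GV.apply_inv_apply, V.sub_f, show v.f = 0 from hv, sub_zero] at this
    rwa [e]
  · obtain ⟨a, -, c | c⟩ := h₂ _ (syl_Gam hF) _ hγ (na2_rs α)
    · exact gam_le hF h hγ (a c)
    obtain ⟨k, c⟩ := c m
    have hm := mul_mem (mul_mem hl ((syl_Gam hF).le (u_mem 0 k 0))) hγ
    exact (Subgroup.mul_mem_cancel_left _ (mul_mem hl' ((syl_Gam hF').le (u_mem 0 k 0)))).1
      (gam_le hF h hm ((h₂ _ (syl_Gam hF) _ hm (NA2.mul (NA2.mul (na2_x m) (na2_u k)) (na2_rs α))).1 c))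

theorem cmp4 (h₄ : L4Stmt) (h12 : L12Stmt) {l ε : K} (hε : ε ≠ 0) (hl : x1m l ∈ Gam F)
    (hl' : x1m l ∈ Gam F') (hm : x2m 0 ∈ Gam F) (hm' : x2m 0 ∈ Gam F')
    (hE : F.IsEssential 3 (E4 ε 0)) : F.autGroup (E4 ε 0) ≤ F'.autGroup (E4 ε 0) := fun α hα => by
  have hγ := rs_mem (J_le_E4 ε 0) hα
  obtain ⟨w, hw, hc, H⟩ := h₄ ε hε
  replace H := H _ (syl_Gam hF) (k4_of_ess hε hF hE)
  have : rs (J_le_E4 ε 0) α ∈ Gam F' := by
    obtain ⟨a, b, c⟩ := H _ hγ (nr_rs α)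
    by_cases hs : St (rs (J_le_E4 ε 0) α) vY5
    · exact gam_le hF h hγ (a hs)
    obtain ⟨m, m₁, m₂⟩ := b hs
    obtain ⟨k, c⟩ := c.resolve_left hs
    obtain rfl := ((h12 _ (syl_Gam hF)).2.1 0 hm).2 m m₂
    obtain rfl := ((h12 _ (syl_Gam hF)).1 l hl).2 _ m₁
    rw [zero_add] at hl hl'
    have hw' : ∀ Γ : Subgroup GV, R ≤ Γ → x1m 1 ∈ Γ → x2m 0 ∈ Γ → w * u 0 0 k ∈ Γ :=
      fun Γ h₁ h₂ h₃ => mul_mem ((closure_le Γ).2 (Set.union_subset h₁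
        (Set.insert_subset h₂ (Set.singleton_subset_iff.2 h₃))) hw) (h₁ (u_mem 0 0 k))
    have hm₀ := mul_mem (hw' _ (syl_Gam hF).le hl hm) hγ
    exact (Subgroup.mul_mem_cancel_left _ (hw' _ (syl_Gam hF').le hl' hm')).1
      (gam_le hF h hm₀ ((H _ hm₀ (Nr.mul (Commute.mul_left hc (show _ = _ by
        simp [u_mul])) (nr_rs α))).1 c))
  obtain ⟨β, hβ, e⟩ := exists_lift (J_le_E4 ε 0) hF' this fun s hs =>
    ⟨_, afn_mem α hs, rs_rho _ α hs⟩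
  obtain ⟨v, hv⟩ := fix4 hε (m := β⁻¹ * α) (by simp [e])
  simpa using mul_mem hβ ((M_conj F' le_top (mem_top (jv v))).mem_autGroup hv)

end Cmp

end Cfsg.Agent.C1.Fn
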