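import Cfsg.Agent.Lib.C1.Fin1

/-!
Row FINAL, part 2: the standard form exists, and it determines the system.
-/

set_option autoImplicit false
set_option linter.unusedSimpArgs false

namespace Cfsg.Agent.C1.Fn

open Cfsg.Agent.Fus Cfsg.Agent.Fus2 Subgroup

variable {F F' : FusionSystem (⊤ : Subgroup P)} {E : Subgroup P} {W : Submodule K V}

theorem st_afn (hE : J ≤ E) (α : MulAut E) (h : St (rs hE α) W) : ∀ s ∈ jS W, afn α s ∈ jS W :=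
  fun s hs => by
    obtain ⟨v, hv, rfl⟩ := exists_jv hs
    rw [afn_jv hE]
    exact jv_mem_jS.2 (h v hv)

theorem st_top (hN : NF F) (h₁ : ∀ s, St (rho s) W) (h₂ : ∀ i j k, St (dV i j k) W)
    {α : MulAut (⊤ : Subgroup P)} (hα : α ∈ F.autGroup ⊤) : ∀ s ∈ jS W, afn α s ∈ jS W :=
  fun s hs => by
    obtain ⟨v, hv, rfl⟩ := exists_jv hs
    obtain ⟨t, i, j, k, e⟩ := hN _ (M_afn le_rfl hα)
    rw [e, dg_jv, conj_jv]
    exact jv_mem_jS.2 (h₁ _ _ (h₂ _ _ _ _ hv))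

theorem top_Z (hN : NF F) {α : MulAut (⊤ : Subgroup P)} (hα : α ∈ F.autGroup ⊤) :
    ∀ s ∈ jS vZ, afn α s ∈ jS vZ :=
  st_top hN (fun s v hv => by simp_all [mem_vZ, rho_apply, act])
    (fun i j k v hv => by simp_all [mem_vZ, dV, dF]) hα

theorem top_W (hN : NF F) {α : MulAut (⊤ : Subgroup P)} (hα : α ∈ F.autGroup ⊤) :
    ∀ s ∈ jS vW, afn α s ∈ jS vW :=
  st_top hN (fun s v hv => by simp_all [mem_vW, rho_apply, act])
    (fun i j k v hv => by simp_all [mem_vW, dV, dF]) hα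

theorem top_U (hN : NF F) {α : MulAut (⊤ : Subgroup P)} (hα : α ∈ F.autGroup ⊤) :
    ∀ s ∈ jS vU, afn α s ∈ jS vU :=
  st_top hN (fun s v hv => by simp_all [mem_vU, rho_apply, act])
    (fun i j k v hv => by simp_all [mem_vU, dV, dF]) hα

theorem not_J_le_E3 : ¬ J ≤ E3 := fun h => one_ne_zero (mem_E3.1 (h (jv_mem ef)))

theorem M_dg_mul {i j k i' j' k' : Kˣ} (h : M F ⊤ (dg i j k)) (h' : M F ⊤ (dg i' j' k')) :
    M F ⊤ (dg (i * i') (j * j') (k * k')) :=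
  (h'.comp h fun _ _ => trivial).congr fun s _ => by ext <;> simp [dg, dF] <;> ring

theorem M_dg_two (a : M F ⊤ (dg (-1) 1 1)) (b : M F ⊤ (dg 1 (-1) 1)) (i j : Kˣ) :
    M F ⊤ (dg i j 1) := by
  rcases unit_cases i with rfl | rfl <;> rcases unit_cases j with rfl | rfl
  exacts [by simpa using M_dg_mul a a, b, a, by simpa using M_dg_mul a b]

theorem M_dg_of (hN : NF F) {f : P → P} (hf : M F ⊤ f) :
    ∃ s i j k, M F ⊤ (dg i j k) ∧ ∀ t, f t = s * dg i j k t * s⁻¹ :=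
  let ⟨s, i, j, k, e⟩ := hN f hf
  ⟨s, i, j, k, (hf.comp (M_conj F le_rfl (mem_top s⁻¹)) fun _ _ => trivial).congr fun t _ => by
    simp [e, mul_assoc], e⟩

variable (hF : F.IsSaturated 3)
include hF

theorem M_dg (hN : NF F) {i j k : Kˣ} (h : dV i j k ∈ Gam F) : M F ⊤ (dg i j k) := by
  obtain ⟨f, hf, e⟩ := exists_ext_top hF h (nr_dV i j k)
  obtain ⟨s, i', j', k', hd, e'⟩ := M_dg_of hN hf
  have H : ∀ v, dV i j k v = rho s (dV i' j' k' v) := fun v =>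
    jv_inj (by rw [← e, e', dg_jv, conj_jv])
  have h₁ := congrArg V.a (H ea)
  have h₂ := congrArg V.b (H eb)
  have h₃ := congrArg V.e (H ee)
  simp [dV, dF, rho_apply, act, ea, eb, ee, Units.val_inj] at h₁ h₂ h₃
  subst h₁
  simp [Units.val_inj] at h₂ h₃
  rwa [h₂, h₃]

theorem st_of_alperin (hW : ∀ E, (E = ⊤ ∨ F.IsEssential 3 E) → J < E →
    ∀ α ∈ F.autGroup E, ∀ s ∈ jS W, afn α s ∈ jS W) :
    ∀ g ∈ Gam F, ∀ t ∈ R, t ≠ 1 → g * t * g⁻¹ ∈ R → St g W := by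
  rintro g hg _ ⟨s, rfl⟩ h1 ⟨s', hs'⟩ v hv
  obtain ⟨f, hf, e⟩ := exists_ext (Q := zpowers s) hF hg (by
    rintro _ ⟨n, rfl⟩
    exact ⟨s' ^ n, by simp [hs']⟩)
  have hs : s ∈ J ⊔ zpowers s := mem_sup_right (mem_zpowers s)
  refine jv_mem_jS.1 (e v ▸ alperin_M pg_top hF (C := fun f => ∀ x ∈ jS W, f x ∈ jS W)
    (fun f g h e x hx => e x (mem_sup_left (jS_le W hx)) ▸ h x hx) (fun _ _ h => h)
    (fun f E α hE hα hf h hfE x hx => hW E hE ?_ α hα _ (h x hx)) hf _ (jv_mem_jS.2 hv))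
  obtain ⟨γ, -, e⟩ := exists_res hf le_sup_left
  have key : ∀ y ∈ J, ∃ x ∈ J, f x = y := fun y hy =>
    ⟨jv (γ⁻¹ y.v), jv_mem _, by rw [e, GV.apply_inv_apply, jv_of_mem hy]⟩
  refine lt_of_le_of_ne (fun y hy => ?_) fun h => h1 (rho_eq_one.2 ?_)
  · obtain ⟨x, hx, rfl⟩ := key y hy
    exact hfE x (mem_sup_left hx)
  · obtain ⟨x, hx, e⟩ := key _ (h ▸ hfE s hs)
    rwa [← hf.inj x (mem_sup_left hx) s hs e]

theorem not_core (hc : F.core = ⊥) (hW : ea ∈ W) : ¬ ∀ E, (E = ⊤ ∨ F.IsEssential 3 E) →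
    jS W ≤ E ∧ ∀ α ∈ F.autGroup E, ∀ s ∈ jS W, afn α s ∈ jS W := fun h =>
  absurd (mem_bot.1 ((hc ▸ le_core (isNormal_of_essential pg_top hF h) : jS W ≤ ⊥)
    (jv_mem_jS.2 hW))) (by decide)

theorem not_ess1 (h₁ : L1Stmt) (h : ∀ l, x1m l ∉ Gam F) : ¬ F.IsEssential 3 E1 := fun hE =>
  absurd (le_of_ess (Q := ⊤) hF hE J_le_E1 le_normalizer_of_normal (fun γ hγ hn s _ => by
    obtain ⟨a, b, -⟩ := h₁ _ (syl_Gam hF) γ hγ (na1_of hn)
    exact a (by_contra fun c => (b c).elim h) s) (mem_top (⟨1, 0, 0, 0⟩ : P))) one_ne_zero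

theorem not_ess2 (h₂ : L2Stmt) (h : ∀ m, x2m m ∉ Gam F) : ¬ F.IsEssential 3 E2 := fun hE =>
  absurd (le_of_ess (Q := ⊤) hF hE J_le_E2 le_normalizer_of_normal (fun γ hγ hn s _ => by
    obtain ⟨a, b, -⟩ := h₂ _ (syl_Gam hF) γ hγ (na2_of hn)
    exact a (by_contra fun c => (b c).elim h) s) (mem_top (⟨0, 1, 0, 0⟩ : P))) one_ne_zero

theorem not_ess4 (h₄ : L4Stmt) (h : ∀ m, ¬ (x1m (m + 1) ∈ Gam F ∧ x2m m ∈ Gam F)) {ε k : K}
    (hε : ε ≠ 0) : ¬ F.IsEssential 3 (E4 ε k) := fun hE => by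
  replace hE := (ess4 hε hE).2
  obtain ⟨w, -, -, H⟩ := h₄ ε hε
  simpa [mem_E4] using le_of_ess (Q := ⊤) hF hE (J_le_E4 ε 0) le_normalizer_of_normal
    (fun γ hγ hn s _ => by
    obtain ⟨a, b, -⟩ := H _ (syl_Gam hF) (k4_of_ess hε hF hE) γ hγ (nr_of hn)
    exact a (by_contra fun c => (b c).elim h) s) (mem_top (⟨0, 0, 1, 0⟩ : P))

theorem ess3 (hB : EssBStmt) (h : ¬ F.IsNormal J) : F.IsEssential 3 E3 := by_contra fun h₃ =>
  h (isNormal_of_weaklyClosed_of_le_essential pg_top hF (wc_J F) fun _ hE =>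
    by_contra fun c => h₃ (hB hF hE c ▸ hE))

variable (hA : EssAStmt) (hB : EssBStmt)
include hA hB

theorem ess_cases (hE : F.IsEssential 3 E) :
    E = E3 ∨ E = J ∨ E = E1 ∨ E = E2 ∨ ∃ ε k, ε ≠ 0 ∧ E = E4 ε k :=
  (em (J ≤ E)).elim (fun h => .inr (hA hF hE h)) fun h => .inl (hB hF hE h)

theorem exists_x1 (h₁ : L1Stmt) (h₄ : L4Stmt) (hj : JneStmt) (h₃ : E3Stmt) (hc : F.core = ⊥)
    (hN : NF F) : ∃ l, x1m l ∈ Gam F := by
  by_contra! hx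
  by_cases hJ : F.IsEssential 3 J
  · obtain ⟨Mx, hM⟩ := sed_Gam hF hJ
    refine (hj _ _ hM).2.2 (st_of_alperin hF ?_)
    rintro E (rfl | hE) hlt α hα
    · exact top_U hN hα
    rcases ess_cases hF hA hB hE with rfl | rfl | rfl | rfl | ⟨ε, k, hε, rfl⟩
    · exact absurd hlt.le not_J_le_E3
    · exact absurd hlt (lt_irrefl _)
    · exact absurd hE (not_ess1 hF h₁ hx)
    · exact st_afn J_le_E2 α (NA2.stU (na2_rs α))
    · exact absurd hE (not_ess4 hF h₄ (fun m h => hx _ h.1) hε)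
  refine not_core hF hc (W := vZ) ⟨rfl, rfl, rfl, rfl, rfl⟩ ?_
  rintro E (rfl | hE)
  · exact ⟨le_top, fun α hα => top_Z hN hα⟩
  rcases ess_cases hF hA hB hE with rfl | rfl | rfl | rfl | ⟨ε, k, hε, rfl⟩
  · exact ⟨fun s hs => hs.2.2.2.1, fun α hα => (h₃.1 (au_afn hα)).1⟩
  · exact absurd hE hJ
  · exact absurd hE (not_ess1 hF h₁ hx)
  · exact ⟨(jS_le _).trans J_le_E2, fun α _ => st_afn J_le_E2 α (NA2.stZ (na2_rs α))⟩
  · exact absurd hE (not_ess4 hF h₄ (fun m h => hx _ h.1) hε)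

theorem exists_x2 (h₂ : L2Stmt) (h₄ : L4Stmt) (hj : JneStmt) (h₃ : E3Stmt) (hc : F.core = ⊥)
    (hN : NF F) : ∃ m, x2m m ∈ Gam F := by
  by_contra! hx
  by_cases hJ : F.IsEssential 3 J
  · obtain ⟨Mx, hM⟩ := sed_Gam hF hJ
    refine (hj _ _ hM).2.1 (st_of_alperin hF ?_)
    rintro E (rfl | hE) hlt α hα
    · exact top_W hN hα
    rcases ess_cases hF hA hB hE with rfl | rfl | rfl | rfl | ⟨ε, k, hε, rfl⟩
    · exact absurd hlt.le not_J_le_E3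
    · exact absurd hlt (lt_irrefl _)
    · exact st_afn J_le_E1 α (NA1.stW (na1_rs α))
    · exact absurd hE (not_ess2 hF h₂ hx)
    · exact absurd hE (not_ess4 hF h₄ (fun m h => hx _ h.2) hε)
  refine not_core hF hc (W := vW) ⟨rfl, rfl, rfl⟩ ?_
  rintro E (rfl | hE)
  · exact ⟨le_top, fun α hα => top_W hN hα⟩
  rcases ess_cases hF hA hB hE with rfl | rfl | rfl | rfl | ⟨ε, k, hε, rfl⟩
  · exact ⟨fun s hs => hs.2.2.2.1, fun α hα => (h₃.1 (au_afn hα)).2⟩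
  · exact absurd hE hJ
  · exact ⟨(jS_le _).trans J_le_E1, fun α _ => st_afn J_le_E1 α (NA1.stW (na1_rs α))⟩
  · exact absurd hE (not_ess2 hF h₂ hx)
  · exact absurd hE (not_ess4 hF h₄ (fun m h => hx _ h.2) hε)

omit hA hB in
theorem Std.tor (h12 : L12Stmt) {l : K} (h : Std F l) :
    M F ⊤ (dg (-1) 1 1) ∧ M F ⊤ (dg 1 (-1) 1) :=
  ⟨M_dg hF h.1 ((h12 _ (syl_Gam hF)).2.1 0 (mem_Gam.2 h.2.2.1)).1,
    M_dg hF h.1 ((h12 _ (syl_Gam hF)).1 l (mem_Gam.2 h.2.1)).1⟩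

omit hA hB in
theorem top_le (h12 : L12Stmt) (hF' : F'.IsSaturated 3) {l : K} (h : Std F l) (h' : Std F' l)
    (hk : M F ⊤ (dg 1 1 (-1)) → M F' ⊤ (dg 1 1 (-1))) (f : P → P) (hf : M F ⊤ f) : M F' ⊤ f := by
  obtain ⟨s, i, j, k, hd, e⟩ := M_dg_of h.1 hf
  have t := M_dg_two (Std.tor hF h12 h).1 (Std.tor hF h12 h).2 i j
  have t' := M_dg_two (Std.tor hF' h12 h').1 (Std.tor hF' h12 h').2 i j
  have : M F' ⊤ (dg i j k) := by
    rcases unit_cases k with rfl | rfl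
    · exact t'
    have sq : ∀ i : Kˣ, i * i = 1 := by decide
    simpa using M_dg_mul t' (hk (by simpa [sq] using M_dg_mul t hd))
  exact (this.comp (M_conj F' le_rfl (mem_top s)) fun _ _ => trivial).congr fun t _ => (e t).symm

theorem le_std (h₁ : L1Stmt) (h₂ : L2Stmt) (h₄ : L4Stmt) (h12 : L12Stmt) (hj : JneStmt)
    (h₃ : E3Stmt) (hF' : F'.IsSaturated 3) {l : K} (h : Std F l) (h' : Std F' l)
    (hk : M F ⊤ (dg 1 1 (-1)) ↔ M F' ⊤ (dg 1 1 (-1))) : F ≤ F' := by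
  have t := top_le hF h12 hF' h h' hk.1
  have t' := top_le hF' h12 hF h' h hk.2
  have a := mem_Gam.2 h.2.1
  have b := mem_Gam.2 h.2.2.1
  have a' := mem_Gam.2 h'.2.1
  have b' := mem_Gam.2 h'.2.2.1
  refine alperin_isSubsystemOf' pg_top hF le_rfl
    (fun α hα => (t _ (M_afn le_rfl hα)).mem_autGroup fun _ _ => rfl) fun E hE => ?_
  rcases ess_cases hF hA hB hE with rfl | rfl | rfl | rfl | ⟨ε, k, hε, rfl⟩
  · exact ⟨_, isConj_refl le_top, hE.2.1, fun α hα => (h₃.2.2 hF hF' (fun f => ⟨t f, t' f⟩)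
      (Std.tor hF h12 h).2 h'.2.2.2 _ (au_afn hα)).mem_autGroup fun _ _ => rfl⟩
  · obtain ⟨Mx, hM⟩ := sed_Gam hF hE
    exact absurd b ((hj _ _ hM).1 l 0 a)
  · exact ⟨_, isConj_refl le_top, hE.2.1, cmp1 hF t hF' h₁ a a' (Std.tor hF h12 h).2⟩
  · exact ⟨_, isConj_refl le_top, hE.2.1, cmp2 hF t hF' h₂ b b' (Std.tor hF h12 h).1⟩
  · exact ⟨_, (ess4 hε hE).1, (ess4 hε hE).2.2.1, cmp4 hF t hF' h₄ h12 hε a a' b b' (ess4 hε hE).2⟩

end Cfsg.Agent.C1.Fn
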