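import Cfsg.Agent.Lib.C1.Fin2
import Cfsg.Agent.Lib.U5.Final

/-!
Row FINAL: normalisation, the models and the assembly.
-/

set_option autoImplicit false
set_option linter.unusedSimpArgs false
set_option linter.style.haveILetI false

namespace Cfsg.Agent.C1

open Cfsg.Agent.Fus Cfsg.Agent.Fus2 Subgroup

namespace Fn

variable {F F' : FusionSystem (⊤ : Subgroup P)}

theorem exists_iso (θ : MulAut P) (F : FusionSystem (⊤ : Subgroup P)) :
    ∃ F' : FusionSystem (⊤ : Subgroup P), IsoM F F' θ θ.symm :=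
  have hG : GIso (⊤ : Subgroup P) ⊤ θ θ.symm := ⟨homOn_hom ⊤ θ.toMonoidHom, fun _ _ => trivial,
    fun _ _ => trivial, fun x _ => θ.symm_apply_apply x, fun x _ => θ.apply_symm_apply x⟩
  hG.exists_isoM F

theorem M_of_iso {θ : MulAut P} (h : IsoM F F' θ θ.symm) {E : Subgroup P} {f : P → P}
    (hE : ∀ x, θ x ∈ E ↔ x ∈ E) : M F' E f ↔ M F E fun x => θ.symm (f (θ x)) := by
  have e : img E θ = E := by
    ext y
    rw [h.mem_img le_top, ← hE, MulEquiv.apply_symm_apply]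
    simp
  refine ⟨fun hf => h.pull' le_top (e.symm ▸ hf), fun hf => ?_⟩
  have := h.M_of hf (g := f) fun x _ => by simp
  rwa [e] at this

theorem exists_sylow {G : Type*} [Group G] {A : Subgroup G} (h : IsSylowIn 3 A ⊤) :
    ∃ T : Sylow 3 G, (T : Subgroup G) = A :=
  ⟨⟨A, h.isPGroup, fun hB hAB => h.eq_of_le hB hAB le_top⟩, rfl⟩

/-- The system of a model group. -/
theorem model (hB : EssBStmt) (hN : NrmStmt) (h₃ : E3Stmt) (hY : SylStmt) {G : Type} [Group G]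
    [Finite G] {ι : P →* G} {l : K} (hM : Mod ι l)
    (hk : (∃ g, ∀ s, g * ι s = ι (dg 1 1 (-1) s) * g) ∨ ∀ g, g * ι (jv ea) ≠ ι (jv (-ea)) * g) :
    ∃ E : FusionSystem (⊤ : Subgroup P), E.IsSaturated 3 ∧ E.IsRealizable 3 ∧ Std E l ∧
      (M E ⊤ (dg 1 1 (-1)) ↔ ∃ g, ∀ s, g * ι s = ι (dg 1 1 (-1) s) * g) := by
  obtain ⟨T, hT⟩ := exists_sylow (hY ι l hM)
  obtain ⟨b, hb⟩ := exists_gIso (homOn_hom ⊤ ι) (fun _ _ _ _ e => hM.inj e) (S' := T)
    (by rw [img_hom, hT, MonoidHom.range_eq_map])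
  obtain ⟨E, hE⟩ := hb.symm.exists_isoM (groupFusionSystem (T : Subgroup G))
  have hI := hE.symm
  have hE' : E.IsSaturated 3 := hE.saturated T.isPGroup' (group_isSaturated T)
  have key : ∀ Q f, M E Q f ↔ ∃ g, ∀ x ∈ Q, g * ι x = ι (f x) * g := fun Q f => by
    rw [Asch.M_iff_of_realized hI.isRealizedBy.1]
    simp only [le_top, mem_top, implies_true, true_and, hI.hom.fn_toHom (mem_top _),
      eq_mul_inv_iff_mul_eq, eq_comm]
  have key' : ∀ f, M E ⊤ f ↔ ∃ g, ∀ x, g * ι x = ι (f x) * g := fun f => by simp [key]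
  have keyJ : ∀ γ : GV, (∃ g, ∀ v, g * ι (jv v) = ι (jv (γ v)) * g) → InG E γ :=
    fun γ ⟨g, hg⟩ => (key _ _).2 ⟨g, fun x hx => by rw [← hg, jv_of_mem hx]⟩
  refine ⟨E, hE', ⟨G, _, inferInstance, _, hI.isRealizedBy.1, T, hI.isRealizedBy.2.symm⟩,
    ⟨fun f hf => ?_, keyJ _ hM.w1, keyJ _ hM.w2, h₃.2.1 hE' (ess3 hE' hB fun hn => ?_)⟩, key' _⟩
  · obtain ⟨α, -, eα⟩ := hf.exists_aut' fun _ _ => trivial
    let β : MulAut P := MulAut.congr topEquiv α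
    have eβ : ∀ s, β s = f s := fun s => by rw [← eα s trivial, afn_apply _ (mem_top s)]; rfl
    obtain ⟨i, j, k, h₁, h₂, h₄⟩ := hN.1 β
    simp only [eβ] at h₁ h₂ h₄
    have hd : M E ⊤ (dg i j k) := by
      have t := M_dg_two ((key' _).2 hM.t2) ((key' _).2 hM.t1) i j
      rcases unit_cases k with rfl | rfl
      · exact t
      rcases hk with hk | hk
      · simpa using M_dg_mul t ((key' _).2 hk)
      obtain ⟨g, hg⟩ := (key' _).1 hf
      exact absurd (by simpa [h₄] using hg (jv ea)) (hk g)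
    have sq : ∀ (i : Kˣ) (a : K), i * (i * a) = a := by decide
    obtain ⟨s, hs⟩ := hN.2.1 hE' _ (hf.comp hd fun _ _ => trivial)
      (fun s => by simp [dg, h₁, sq]) fun v => by simp [dg, dF, h₂, sq]
    refine ⟨dg i j k s, i, j, k, fun t => ?_⟩
    rw [← map_inv, ← map_mul, ← map_mul, ← hs]
    exact ((dg i j k).left_inv _).symm
  · obtain ⟨g, v, s, hs, e⟩ := hM.w3
    have e' : ∀ n : ℤ, g * ι (jv v ^ n) * g⁻¹ = ι (s ^ n) := fun n => by
      rw [map_zpow, ← conj_zpow, e, mul_inv_cancel_right, map_zpow]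
    have := (stronglyClosed_iff.1 (sc_of_isNormal hn)).2 (zpowers (jv v))
      (fun x => b (g * ι x * g⁻¹)) ((key _ _).2 ⟨g, by
        rintro _ ⟨n, rfl⟩
        rw [e', hb.left _ trivial, ← e', inv_mul_cancel_right]⟩) _ (mem_zpowers _) (jv_mem v)
    rw [e, mul_inv_cancel_right, hb.left _ trivial] at this
    exact hs this

theorem nP_J (j : K) (s : P) : nP j s ∈ J ↔ s ∈ J := Iff.rfl

/-- The standard form. -/
theorem exists_std (hA : EssAStmt) (hB : EssBStmt) (hN : NrmStmt) (h₁ : L1Stmt) (h₂ : L2Stmt)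
    (h₄ : L4Stmt) (hj : JneStmt) (h₃ : E3Stmt) (hF : F.IsSaturated 3) (hc : F.core = ⊥) :
    ∃ (F' : FusionSystem (⊤ : Subgroup P)) (a b : P → P) (l : K), IsoM F F' a b ∧ Std F' l := by
  obtain ⟨θ, hθ⟩ := hN.2.2 hF
  obtain ⟨F₁, i₁⟩ := exists_iso θ F
  have s₁ := i₁.saturated pg_top hF
  have c₁ : F₁.core = ⊥ := by rw [i₁.core_eq, hc, img_bot (map_one _)]
  have n₁ : NF F₁ := fun f hf => by simpa using hθ _ ((M_of_iso i₁ (by simp)).1 hf)
  obtain ⟨m, hm⟩ := exists_x2 s₁ hA hB h₂ h₄ hj h₃ c₁ n₁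
  obtain ⟨F₂, i₂⟩ := exists_iso (nP (-m)) F₁
  have s₂ := i₂.saturated pg_top s₁
  have c₂ : F₂.core = ⊥ := by rw [i₂.core_eq, c₁, img_bot (map_one _)]
  have n₂ : NF F₂ := fun f hf => by
    obtain ⟨s, i, j, k, e⟩ := n₁ _ ((M_of_iso i₂ (by simp)).1 hf)
    refine ⟨nP (-m) s, i, j, k, fun t => ?_⟩
    have := congrArg (nP (-m)) (e ((nP (-m)).symm t))
    simp only [MulEquiv.apply_symm_apply, map_mul, map_inv] at this
    rw [this]
    congr 2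
    ext <;> simp [nP, nF, dg, dF]
    ring
  obtain ⟨l, hl⟩ := exists_x1 s₂ hA hB h₁ h₄ hj h₃ c₂ n₂
  refine ⟨F₂, _, _, l, i₁.trans i₂, n₂, mem_Gam.1 hl, (M_of_iso i₂ (nP_J _)).2
    ((mem_Gam.1 hm).congr fun s _ => ?_), h₃.2.1 s₂ (ess3 s₂ hB fun h => ?_)⟩
  · ext <;> simp [nP, nF, x2m, x2F, jv]
    ring
  · exact absurd (mem_bot.1 ((c₂ ▸ le_core h : J ≤ ⊥) (jv_mem ea))) (by decide)

theorem real_P (hA : EssAStmt) (hB : EssBStmt) (hN : NrmStmt) (h₁ : L1Stmt) (h₂ : L2Stmt)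
    (h₄ : L4Stmt) (h12 : L12Stmt) (hj : JneStmt) (h₃ : E3Stmt) (hY : SylStmt) (hS : SpStmt)
    (hL : LeechStmt) (hF : F.IsSaturated 3) (hc : F.core = ⊥) : F.IsRealizable 3 := by
  obtain ⟨F, a, b, l, hI, h⟩ := exists_std hA hB hN h₁ h₂ h₄ hj h₃ hF hc
  replace hF := hI.saturated pg_top hF
  refine U5.real_of_isoM hI ?_
  suffices H : ∃ E : FusionSystem (⊤ : Subgroup P), E.IsSaturated 3 ∧ E.IsRealizable 3 ∧ Std E l ∧
      (M F ⊤ (dg 1 1 (-1)) ↔ M E ⊤ (dg 1 1 (-1))) by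
    obtain ⟨E, hE, hr, hs, hk⟩ := H
    rwa [fs_le_antisymm (le_std hF hA hB h₁ h₂ h₄ h12 hj h₃ hE h hs hk)
      (le_std hE hA hB h₁ h₂ h₄ h12 hj h₃ hF hs h hk.symm)]
  rcases (h12 _ (syl_Gam hF)).2.2 l (mem_Gam.2 h.2.1) (mem_Gam.2 h.2.2.1) with rfl | ⟨rfl, hd⟩
  · by_cases hk : M F ⊤ (dg 1 1 (-1))
    · obtain ⟨G, _, _, ι, hM, hg⟩ := hS.2
      obtain ⟨E, e₁, e₂, e₃, e₄⟩ := model hB hN h₃ hY hM (.inl hg)
      exact ⟨E, e₁, e₂, e₃, iff_of_true hk (e₄.2 hg)⟩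
    · obtain ⟨G, _, _, ι, hM, hg⟩ := hS.1
      obtain ⟨E, e₁, e₂, e₃, e₄⟩ := model hB hN h₃ hY hM (.inr hg)
      refine ⟨E, e₁, e₂, e₃, iff_of_false hk fun h => ?_⟩
      obtain ⟨g, e⟩ := e₄.1 h
      exact hg g ((e _).trans (by rw [show dg 1 1 (-1) (jv ea) = jv (-ea) by decide]))
  · obtain ⟨_, ι, hM, hg⟩ := hL
    obtain ⟨E, e₁, e₂, e₃, e₄⟩ := model hB hN h₃ hY hM (.inl hg)
    exact ⟨E, e₁, e₂, e₃, iff_of_true (M_dg hF h.1 hd) (e₄.2 hg)⟩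

theorem syl_Co1 (hY : SylStmt) (hL : LeechStmt) (T : Sylow 3 Spor.Co1) :
    Nonempty ((T : Subgroup Spor.Co1) ≃* P) := by
  obtain ⟨_, ι, hM, -⟩ := hL
  obtain ⟨T₀, h0⟩ := exists_sylow (hY ι 1 hM)
  have hi : Function.Injective ((QuotientGroup.mk' (center _)).comp ι) := by
    refine (injective_iff_map_eq_one _).2 fun s hs => ?_
    have hz := mem_center_iff.1 ((QuotientGroup.eq_one_iff _).1 hs)
    have hc : ∀ t, t * s = s * t := fun t => hM.inj (by rw [map_mul, map_mul, hz])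
    obtain ⟨v, -, rfl⟩ := exists_jv (mem_J_of_comm fun v => (hc _).symm)
    obtain ⟨g, hg⟩ := hM.w1
    have h₁ := jv_inj (hM.inj (mul_right_cancel ((hz g).symm.trans (hg v))))
    have h₂ := hc ⟨1, 0, 0, 0⟩
    have h₃ := hc ⟨0, 0, 1, 0⟩
    simp [P.ext_iff, V.ext_iff, act, x1F, jv] at h₁ h₂ h₃ ⊢
    grind
  have h1 : ((T₀.mapSurjective (QuotientGroup.mk'_surjective (center _)) : Sylow 3 _) :
      Subgroup Spor.Co1) = ((QuotientGroup.mk' (center _)).comp ι).range := by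
    rw [Sylow.coe_mapSurjective, h0, MonoidHom.range_comp]
  exact ⟨((T.equiv _).trans (MulEquiv.subgroupCongr h1)).trans (MonoidHom.ofInjective hi).symm⟩

end Fn

open Fn in
theorem s5227_of (hA : EssAStmt) (hB : EssBStmt) (hN : NrmStmt) (h₁ : L1Stmt) (h₂ : L2Stmt)
    (h₄ : L4Stmt) (h12 : L12Stmt) (hj : JneStmt) (h₃ : E3Stmt) (hY : SylStmt) (hP : SpStmt)
    (hL : LeechStmt) {Ω : Type*} [Group Ω] {S : Subgroup Ω} [Finite S] (hS : IsPGroup 3 S)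
    (F : FusionSystem S) (hF : F.IsSaturated 3) (T : Sylow 3 Spor.Co1)
    (e : S ≃* (T : Subgroup Spor.Co1)) (hc : F.core = ⊥) : F.IsRealizable 3 := by
  obtain ⟨e'⟩ := syl_Co1 hY hL T
  let ι : S →* P := (e.trans e').toMonoidHom
  obtain ⟨b, hb⟩ := exists_gIso (homOn_fn ι) (fn_inj (e.trans e').injective) (S' := ⊤)
    ((img_fn ι).trans (MonoidHom.range_eq_top.2 (e.trans e').surjective))
  obtain ⟨E, hE⟩ := hb.exists_isoM F
  exact U5.real_of_isoM hE (real_P hA hB hN h₁ h₂ h₄ h12 hj h₃ hY hP hL (hE.saturated hS hF)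
    (by rw [hE.core_eq, hc, img_bot hE.hom.map_one]))

end Cfsg.Agent.C1
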