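import Cfsg.Agent.Lib.C1.Basic
import Cfsg.Agent.Lib.Fus2.Constr
import Cfsg.Agent.Lib.Fus.Centric

/-!
The automizer of `J` as a linear group.
-/

set_option autoImplicit false
set_option linter.style.haveILetI false
set_option linter.unusedSimpArgs false

namespace Cfsg.Agent.C1

open Cfsg.Agent.Fus Cfsg.Agent.Fus2 Subgroup
open Cfsg.Agent.U5 (SEd sed_of_ess)

theorem card_fix : ∀ x y z : K, ¬ (x = 0 ∧ y = 0 ∧ z = 0) →
    (Finset.univ.filter fun v : V => act x y z v = v).card ≤ 27 := by decide +kernel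

/-- `J` is the only abelian subgroup of order `3⁶`. -/
theorem le_J_of_card {A : Subgroup P} (hA : ∀ s ∈ A, ∀ t ∈ A, s * t = t * s)
    (hc : 729 ≤ Nat.card A) : A ≤ J := fun s hs => by
  by_contra hJ
  have h₁ : Nat.card (J.subgroupOf A) ≤ 27 := by
    refine le_trans ?_ (card_fix s.x s.y s.z (mt mem_J.2 hJ))
    rw [← Nat.card_eq_finsetCard]
    refine Nat.card_le_card_of_injective (fun t => ⟨t.1.1.v, Finset.mem_filter.2 ⟨Finset.mem_univ _,
      jv_inj (mul_right_cancel (b := s) ?_)⟩⟩) fun t t' e => ?_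
    · rw [← rho_apply, ← mul_jv, jv_of_mem (s := t.1.1) t.2, hA s hs _ t.1.2]
    · refine Subtype.ext (Subtype.ext ?_)
      rw [← jv_of_mem (s := t.1.1) t.2, ← jv_of_mem (s := t'.1.1) t'.2]
      exact congrArg jv (congrArg Subtype.val e)
  have h₂ : Nat.card (A.map rho) < 27 := by
    have hle : A.map rho ≤ R := map_le_range _ _
    refine card_R ▸ lt_of_le_of_ne (card_le_of_le hle) fun e => ?_
    have := eq_of_le_of_card_ge hle e.ge
    obtain ⟨a, ha, ea⟩ := this.ge (u_mem 1 0 0)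
    obtain ⟨b, hb, eb⟩ := this.ge (u_mem 0 1 0)
    have := congrArg rho (hA a ha b hb)
    rw [map_mul, map_mul, ea, eb, u_mul, u_mul] at this
    exact absurd (u_inj this).2.2 (by decide)
  have h₃ := (J.subgroupOf A).card_mul_index
  rw [show J = rho.ker from Subgroup.ext fun _ => rho_eq_one.symm] at h₁ h₃
  rw [← relIndex, relIndex_ker] at h₃
  nlinarith

theorem HomOn.mem_J {f : P → P} (hf : HomOn J f) (hi : ∀ x ∈ J, ∀ y ∈ J, f x = f y → x = y)
    {s : P} (hs : s ∈ J) : f s ∈ J :=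
  le_J_of_card (A := img J f) (fun s hs t ht => by
    obtain ⟨s, hs', rfl⟩ := hf.mem_img.1 hs
    obtain ⟨t, ht', rfl⟩ := hf.mem_img.1 ht
    rw [← hf.map_mul hs' ht', comm_J hs' ht', hf.map_mul ht' hs'])
    (by rw [hf.card_img hi, card_J]) (mem_img_of_mem f hs)

theorem aut_mem_J (α : MulAut P) {s : P} (hs : s ∈ J) : α s ∈ J :=
  HomOn.mem_J (homOn_hom J α.toMonoidHom) (fun _ _ _ _ e => α.injective e) hs

/-- The automorphism of `J` given by a linear map. -/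
def toJ : GV →* MulAut J := MonoidHom.mk' (fun g =>
  { toFun := fun s => ⟨jv (g s.1.v), jv_mem _⟩
    invFun := fun s => ⟨jv (g⁻¹ s.1.v), jv_mem _⟩
    left_inv := fun s => Subtype.ext (by simp [jv_of_mem s.2])
    right_inv := fun s => Subtype.ext (by simp [jv_of_mem s.2])
    map_mul' := fun s t => Subtype.ext (by
      simp [← jv_add, s.2.1, s.2.2.1, s.2.2.2.1, act_zero]) }) fun _ _ => rfl

theorem afn_toJ (g : GV) {s : P} (hs : s ∈ J) : afn (toJ g) s = jv (g s.v) := by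
  rw [afn_apply _ hs]; rfl

/-- An injective homomorphism on `J` is given by a linear map. -/
theorem exists_lin {f : P → P} (hf : HomOn J f) (hi : ∀ x ∈ J, ∀ y ∈ J, f x = f y → x = y) :
    ∃ γ : GV, ∀ v, f (jv v) = jv (γ v) := by
  have e : ∀ v, jv (f (jv v)).v = f (jv v) := fun v => jv_of_mem (HomOn.mem_J hf hi (jv_mem v))
  let φ : V →+ V := AddMonoidHom.mk' (fun v => (f (jv v)).v) fun v w => jv_inj (by
    rw [e, jv_add, jv_add, e, e, hf.map_mul (jv_mem v) (jv_mem w)])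
  exact ⟨LinearEquiv.ofBijective (φ.toZModLinearMap 3) (Finite.injective_iff_bijective.1
    fun v w h => jv_inj (hi _ (jv_mem v) _ (jv_mem w) ((e v).symm.trans ((congrArg jv h).trans (e w))))),
    fun v => (e v).symm⟩

theorem toJ_bij : Function.Bijective toJ :=
  ⟨fun g h e => LinearEquiv.ext fun v => jv_inj (by
    have := afn_toJ g (jv_mem v)
    rw [e, afn_toJ _ (jv_mem v)] at this
    exact this.symm), fun α => by
    obtain ⟨γ, h⟩ := exists_lin (homOn_afn α) fun x _ y _ e => by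
      simpa using congrArg (afn α⁻¹) e
    exact ⟨γ, MulEquiv.ext fun s => Subtype.ext (by
      rw [← afn_coe α, ← jv_of_mem s.2, h]; rfl)⟩⟩

variable {F : FusionSystem (⊤ : Subgroup P)} {E Q : Subgroup P} {f : P → P} {γ : GV}

theorem M.mem_J (hf : M F E f) (hE : J ≤ E) {s : P} (hs : s ∈ J) : f s ∈ J :=
  HomOn.mem_J (hf.mono hE).homOn (hf.mono hE).inj hs

theorem wc_J (F : FusionSystem (⊤ : Subgroup P)) : F.WeaklyClosed J :=
  weaklyClosed_iff.2 ⟨le_top, fun _ hf => hf.img_eq_self fun _ => M.mem_J hf le_rfl⟩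

theorem cen_J (F : FusionSystem (⊤ : Subgroup P)) : F.IsCentric J :=
  isCentric_of_weaklyClosed (wc_J F) fun _ hs => mem_J_of_comm fun v => (hs.2 _ (jv_mem v)).symm

theorem fn_J (F : FusionSystem (⊤ : Subgroup P)) : F.IsFullyNormalized J :=
  isFullyNormalized_of_normal le_top (normalizer_eq_top _).ge

/-- `Aut_F(J)` as a linear group. -/
def Gam (F : FusionSystem (⊤ : Subgroup P)) : Subgroup GV := (F.autGroup J).comap toJ

theorem mem_Gam : γ ∈ Gam F ↔ InG F γ := by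
  rw [Gam, mem_comap, Fus2.mem_autGroup_iff le_top]
  exact ⟨fun h => h.congr fun _ => afn_toJ γ, fun h => h.congr fun _ hs => (afn_toJ γ hs).symm⟩

theorem mem_Gam_of (hf : M F E f) (hE : J ≤ E) (h : ∀ v, f (jv v) = jv (γ v)) : γ ∈ Gam F :=
  mem_Gam.2 ((hf.mono hE).congr fun s hs => by rw [← h, jv_of_mem hs])

/-- The restriction to `J` of a map of the system. -/
theorem exists_res (hf : M F E f) (hE : J ≤ E) : ∃ γ ∈ Gam F, ∀ v, f (jv v) = jv (γ v) :=
  let ⟨γ, h⟩ := exists_lin (hf.mono hE).homOn (hf.mono hE).inj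
  ⟨γ, mem_Gam_of hf hE h, h⟩

theorem res_mul (hf : HomOn E f) (hE : J ≤ E) (h : ∀ v, f (jv v) = jv (γ v)) {s : P} (hs : s ∈ E) :
    γ * rho s = rho (f s) * γ := LinearEquiv.ext fun v => jv_inj (by
  rw [GV.mul_apply, GV.mul_apply, ← h, ← conj_jv, ← conj_jv, ← h, hf.map_conj hs (hE (jv_mem v))])

theorem toJ_mem_iff : toJ γ ∈ autInducedBy ⊤ J ↔ γ ∈ R := by
  rw [Fus2.mem_autInducedBy_iff]
  refine exists_congr fun s => ⟨fun h => LinearEquiv.ext fun v => jv_inj ?_, ?_⟩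
  · rw [← conj_jv, ← h.2 _ (jv_mem v), afn_toJ _ (jv_mem v), jv_v]
  · rintro rfl
    exact ⟨trivial, fun t ht => by rw [afn_toJ _ ht, ← conj_jv, jv_of_mem ht]⟩

theorem syl_Gam (hF : F.IsSaturated 3) : IsSylowIn 3 R (Gam F) := by
  have := (sat_sylow pg_top hF (fn_J F)).map_equiv (MulEquiv.ofBijective toJ toJ_bij).symm
  convert this using 1 <;> ext g <;> rw [mem_map_equiv]
  exacts [toJ_mem_iff.symm, Iff.rfl]

theorem sed_Gam (hF : F.IsSaturated 3) (hE : F.IsEssential 3 J) : ∃ Mx, SEd 3 (Gam F) R ⊥ Mx := by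
  obtain ⟨Mx, h⟩ := sed_of_ess pg_top hF hE
  refine ⟨Mx.comap toJ, syl_Gam hF, fun t ht => h.le (toJ_mem_iff.2 ht), fun hle => h.nle
    fun α hα => ?_, fun g hg hg' x hx hx' ⟨k, hk⟩ hc => ?_⟩
  · obtain ⟨g, rfl⟩ := toJ_bij.2 α
    exact hle hα
  · obtain ⟨s, hs, e⟩ := Fus2.mem_Inn_iff.1 (h.se _ hg hg' _ hx hx'
      ⟨k, by rw [← map_pow, hk, map_one]⟩ (by simpa using hc))
    refine LinearEquiv.ext fun v => jv_inj ?_
    rw [← jv_v v, ← afn_toJ _ (jv_mem v), e _ (jv_mem v), comm_J hs (jv_mem v),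
      mul_inv_cancel_right]
    rfl

/-- Extension of elements of `Gam F`. -/
theorem exists_ext (hF : F.IsSaturated 3) (hγ : γ ∈ Gam F)
    (h : ∀ s ∈ Q, ∃ s', γ * rho s = rho s' * γ) :
    ∃ f, M F (J ⊔ Q) f ∧ ∀ v, f (jv v) = jv (γ v) := by
  have hf : M F J fun s => jv (γ s.v) := mem_Gam.1 hγ
  obtain ⟨f, hf', e⟩ := receptive_ext (sat_receptive pg_top hF (fn_J F)) hf
    (hf.img_eq_self fun _ _ => jv_mem _) (R := Q)
    (fun s _ => ⟨trivial, (normalizer_eq_top J).ge trivial⟩) fun s hs => by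
      obtain ⟨s', e⟩ := h s hs
      refine ⟨s', trivial, fun t ht => ?_⟩
      rw [← jv_of_mem ht, conj_jv, conj_jv]
      exact congrArg jv (LinearEquiv.congr_fun e _)
  exact ⟨f, hf', fun v => e _ (jv_mem v)⟩

theorem exists_ext_top (hF : F.IsSaturated 3) (hγ : γ ∈ Gam F) (h : NR γ) :
    ∃ f, M F ⊤ f ∧ ∀ v, f (jv v) = jv (γ v) := by
  simpa using exists_ext (Q := ⊤) hF hγ fun s _ => h s

/-- Extension to an automorphism of `E ≥ J`. -/
theorem exists_ext_au (hF : F.IsSaturated 3) (hγ : γ ∈ Gam F) (hE : J ≤ E)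
    (h : ∀ s ∈ E, ∃ s' ∈ E, γ * rho s = rho s' * γ) :
    ∃ f, Au F E f ∧ ∀ v, f (jv v) = jv (γ v) := by
  obtain ⟨f, hf, e⟩ := exists_ext (Q := E) hF hγ fun s hs => (h s hs).imp fun _ h => h.2
  rw [sup_eq_right.2 hE] at hf
  refine ⟨f, ⟨hf, fun s hs => ?_⟩, e⟩
  obtain ⟨s', hs', e'⟩ := h s hs
  rw [res_mul hf.homOn hE e hs, mul_left_inj] at e'
  simpa using mul_mem hs' (hE (rho_eq_one.1 (show rho (s'⁻¹ * f s) = 1 by simp [e'])))

/-- Maps of the system which agree on `J` differ by conjugation by an element of `J`. -/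
theorem exists_conj_J (hF : F.IsSaturated 3) (hE : J ≤ E) {f' : P → P} (hf : M F E f)
    (hf' : M F E f') (h : ∀ v, f (jv v) = f' (jv v)) :
    ∃ v, ∀ s ∈ E, f' s = f (jv v * s * (jv v)⁻¹) := by
  obtain ⟨z, hz, -, e⟩ := exists_conj_of_eqOn pg_top hF (cen_J F) hE hf hf' fun s hs => by
    rw [← jv_of_mem hs, h]
  exact ⟨z.v, by rwa [jv_of_mem hz]⟩

theorem au_afn {β : MulAut E} (hβ : β ∈ F.autGroup E) : Au F E (afn β) :=
  ⟨M_afn le_top hβ, fun _ hx => afn_mem β hx⟩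

/-- An essential subgroup over `J` has an automorphism not normalising a larger automizer. -/
theorem le_of_ess (hF : F.IsSaturated 3) (hE : F.IsEssential 3 E) (hJ : J ≤ E)
    (hn : E ≤ normalizer (Q : Set P))
    (h : ∀ γ ∈ Gam F, (∀ s ∈ E, ∃ s' ∈ E, γ * rho s = rho s' * γ) →
      ∀ s ∈ Q, ∃ s', γ * rho s = rho s' * γ) : Q ≤ E := by
  by_contra hc
  obtain ⟨s, hs, hN, hsE⟩ := exists_mem_normalizer_of_not_le pg_top le_top le_top hn hc
  obtain ⟨Mx, hM⟩ := sed_of_ess pg_top hF hE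
  obtain ⟨α, hα, hαM⟩ := hM.exists_notMem
  have ht := conjAut_mem_autInducedBy (K := ⊤) trivial hN
  obtain ⟨γ, hγ, e⟩ := exists_res (M_afn le_top hα) hJ
  obtain ⟨s', e'⟩ := h γ hγ (fun t ht => ⟨_, afn_mem α ht, res_mul (homOn_afn α) hJ e ht⟩) s hs
  refine hM.conj_notMem hα hαM ht
    (fun h => hsE ((Ess.mem_iff_conjAut_mem_Inn hE.1 trivial hN).1 h)) (hM.le ?_)
  obtain ⟨v, hv⟩ := exists_conj_J hF hJ (M_conj F le_top (mem_top s'))
    (M_afn le_top (mul_mem (mul_mem hα (hM.syl.le ht)) (inv_mem hα))) fun v => by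
      have : afn α⁻¹ (jv v) = jv (γ⁻¹ v) := by
        conv_lhs => rw [← GV.apply_inv_apply γ v, ← e, afn_inv_afn]
      rw [afn_mul, afn_mul, this, afn_conjAut hN (hJ (jv_mem _)), conj_jv, conj_jv, e,
        ← GV.mul_apply γ, e', GV.mul_apply, GV.apply_inv_apply]
  exact Fus2.mem_autInducedBy_iff.2 ⟨s' * jv v, trivial, fun t ht => by rw [hv t ht]; group⟩

end Cfsg.Agent.C1
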