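import Cfsg.Agent.Lib.C1.Jne3

/-!
Row JNE.
-/

set_option autoImplicit false
set_option linter.unusedSimpArgs false
set_option linter.style.haveILetI false
set_option linter.unusedVariables false

namespace Cfsg.Agent.C1

open Cfsg.Agent.Fus Subgroup Finset Pointwise
open Cfsg.Agent.U5 (SEd)

namespace Jn

variable {Γ : Subgroup GV} {g : GV} {v w : V} {ω : Set V}

/-- `q` lies in the span of `v` and `w`. -/
def Sp (v w q : V) : Prop := ∃ s t : K, q = s • v + t • w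

instance (v w q : V) : Decidable (Sp v w q) := by unfold Sp; infer_instance

theorem Sp.mem {q : V} (h : Sp v w q) (hω : ω ∈ Om Γ) (h₁ : v ∈ ω) (h₂ : w ∈ ω) : q ∈ ω :=
  let ⟨s, t, e⟩ := h
  e ▸ lin_mem hω h₁ h₂ s t

set_option synthInstance.maxSize 1024 in
theorem planes : ∀ a b d a' b' d' : K, wv a b d ≠ 0 → ¬ Pm (wv a b d) (wv a' b' d') →
    (∃ y z : K, ¬ (y = 0 ∧ z = 0) ∧ Sp (wv a b d) (wv a' b' d') (sq y z) ∧
      (¬ Pm (sq y z) (wv a b d) ∨ ¬ Pm (sq y z) (wv a' b' d'))) ∨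
    ∃ k : K, Sp (wv a b d) (wv a' b' d') (u k 0 0 v0) ∧
      Sp (wv a b d) (wv a' b' d') (u k 0 0 v1) := by decide +kernel

theorem card_not_pm (hv : v ∈ vW) : 24 ≤ #(univ.filter fun w => w ∈ vW ∧ ¬ Pm v w) := by
  have h₁ : #(univ.filter fun w : V => w ∈ vW) = 27 := by decide +kernel
  have h₂ := card_le_card (s := univ.filter fun w : V => w ∈ vW)
    (t := (univ.filter fun w => w ∈ vW ∧ ¬ Pm v w) ∪ {0, v, -v}) fun w hw => by
      by_cases k : Pm v w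
      · exact mem_union_right _ (by simpa [Pm] using k)
      · exact mem_union_left _ (mem_filter.2 ⟨mem_univ _, (mem_filter.1 hw).2, k⟩)
  have h₃ := card_union_le (univ.filter fun w => w ∈ vW ∧ ¬ Pm v w) {0, v, -v}
  have h₄ : #({0, v, -v} : Finset V) ≤ 3 := card_le_three
  omega

open Classical in
theorem card_cnt (n : ℕ) : #(Om Γ) * #(univ.filter fun s => s ∈ vW ∧ #(On Γ s s) = n) =
    #(univ.filter fun s => #(On Γ s s) = n) * n := by
  refine card_mul_eq_card_mul (fun ω s => s ∈ ω) (fun ω hω => ?_) fun s hs => ?_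
  · obtain ⟨g, hg, rfl⟩ := mem_Om.1 hω
    refine (card_nbij' g (g⁻¹ : GV) (fun s hs => ?_) (fun s hs => ?_)
      (fun _ _ => GV.inv_apply_apply ..) fun _ _ => GV.apply_inv_apply ..).symm
    · obtain ⟨h₁, h₂⟩ := (mem_filter.1 hs).2
      exact mem_filter.2 ⟨mem_filter.2 ⟨mem_univ _, (card_On_smul hg s s).trans h₂⟩, sm_mem.2 h₁⟩
    · obtain ⟨h₁, h₂⟩ := mem_filter.1 hs
      exact mem_filter.2 ⟨mem_univ _, mem_sm.1 h₂,
        (card_On_smul (inv_mem hg) s s).trans (mem_filter.1 h₁).2⟩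
  · rw [← (mem_filter.1 hs).2]
    congr 1
    ext ω
    simp [mem_On]

variable (h : SEd 3 Γ R ⊥ (stab vW))
include h

theorem alpha (hω : ω ∈ Om Γ) (hv : v ∈ vW) (hw : w ∈ vW) (h₁ : v ∈ ω) (h₂ : w ∈ ω) (h0 : v ≠ 0)
    (hn : ¬ Pm v w) : ω = vW := by
  rw [eq_wv hv] at h₁ h0 hn
  rw [eq_wv hw] at h₂ hn
  rcases planes _ _ _ _ _ _ h0 hn with ⟨y, z, k₁, k₂, k₃ | k₃⟩ | ⟨k, k₁, k₂⟩
  · exact eq_W h hω k₁ (k₂.mem hω h₁ h₂) (wv_mem ..) h₁ k₃
  · exact eq_W h hω k₁ (k₂.mem hω h₁ h₂) (wv_mem ..) h₂ k₃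
  · exact card_le_one.1 ((card_On_smul (h.syl.le (u_mem k 0 0)) v0 v1).trans (beta h)).le _
      (mem_On.2 ⟨hω, k₁.mem hω h₁ h₂, k₂.mem hω h₁ h₂⟩) _
      (mem_On.2 ⟨W_mem, k₁.mem (W_mem (Γ := Γ)) (wv_mem ..) (wv_mem ..),
        k₂.mem (W_mem (Γ := Γ)) (wv_mem ..) (wv_mem ..)⟩)

theorem one_or_ten (hv : v ∈ vW) (h0 : v ≠ 0) : #(On Γ v v) = 1 ∨ #(On Γ v v) = 10 := by
  have h₁ := count_le (H := Hs Γ v v) (Mx := stab vW)
    (s := univ.filter fun w => w ∈ vW ∧ ¬ Pm v w) fun γ hγ w hw hw' => smul_eq_iff.1 (alpha h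
      (smul_mem hγ.1 W_mem) hv (mem_filter.1 hw').2.1 (by
        have := (sm_mem (g := γ) (ω := vW)).2 hv
        rwa [show γ v = v from hγ.2.1] at this) (sm_mem.2 (mem_filter.1 hw).2.1) h0
      (mem_filter.1 hw').2.2)
  have h₂ := (Nat.mul_le_mul_left _ (card_not_pm hv)).trans h₁
  rw [← card_On h hv hv] at h₂
  obtain ⟨⟨k, hk⟩, a₁, a₂, -⟩ := On_mod h hv hv h0
  rw [hk] at a₁ a₂ h₂ ⊢
  obtain rfl | rfl | rfl | rfl : k = 0 ∨ k = 1 ∨ k = 2 ∨ k = 3 := by omega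
  all_goals omega

theorem ef_ne : #(On Γ ef ef) ≠ 1 := fun e => by
  obtain ⟨ω, e⟩ := card_eq_one.1 e
  obtain ⟨h₀, h₁, -⟩ := mem_On.1 (e ▸ mem_singleton_self ω)
  have hx := h.syl.le (u_mem 1 0 0)
  have h₂ : ef ∈ u 1 0 0 • ω := by
    have := (sm_mem (g := u 1 0 0)).2 h₁
    rwa [show u 1 0 0 ef = ef by decide] at this
  have h₃ := mem_On.2 ⟨smul_mem hx h₀, h₂, h₂⟩
  rw [e, mem_singleton] at h₃
  obtain ⟨g, hg, rfl⟩ := mem_Om.1 h₀
  have : g⁻¹ ∈ stab vW := by_contra fun c => nconj h (inv_mem hg) c (u_mem 1 0 0)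
    (fun k => one_ne_zero (u_eq_one.1 k).1) (smul_eq_iff.1 (by
      rw [inv_inv, mul_smul, mul_smul, h₃, inv_smul_smul]))
  exact absurd (St.iff this |>.1 (mem_sm.1 h₁)) (by decide)

theorem not_sed : False := by
  classical
  obtain ⟨k, k0, hk⟩ := Om_mod h
  have z : #(On Γ 0 0) = 1 + 27 * k := by rw [On_zero, hk]
  have c₁ := card_cnt (Γ := Γ) 1
  have c₂ := card_cnt (Γ := Γ) 10
  have c₃ : #(univ.filter fun s => s ∈ vW ∧ #(On Γ s s) = 1) +
      #(univ.filter fun s => s ∈ vW ∧ #(On Γ s s) = 10) = 26 := by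
    rw [← card_union_of_disjoint (disjoint_filter.2 fun s _ k₁ k₂ => by omega),
      ← show #(univ.filter fun w : V => w ∈ vW ∧ w ≠ 0) = 26 by decide +kernel]
    congr 1
    ext s
    simp only [mem_union, mem_filter, mem_univ, true_and]
    refine ⟨fun hs => ⟨hs.elim And.left And.left, ?_⟩, fun hs => by
      simpa [hs.1] using one_or_ten h hs.1 hs.2⟩
    rintro rfl
    omega
  have c₄ : 1 < #(univ.filter fun s => s ∈ vW ∧ #(On Γ s s) = 1) :=
    one_lt_card.2 ⟨ea, mem_filter.2 ⟨mem_univ _, by decide, card_ea h⟩, -ea,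
      mem_filter.2 ⟨mem_univ _, by decide, On_neg ▸ card_ea h⟩, by decide⟩
  have c₅ : #(univ.filter fun s => s ∈ vW ∧ #(On Γ s s) = 10) * 9 ≤
      #((Om Γ).erase vW) * 2 := by
    refine card_mul_le_card_mul (fun s ω => s ∈ ω) (fun s hs => ?_) fun ω hω => ?_
    · obtain ⟨s₁, s₂⟩ := (mem_filter.1 hs).2
      have := card_erase_of_mem (mem_On.2 ⟨W_mem (Γ := Γ), s₁, s₁⟩)
      rw [s₂] at this
      refine this.ge.trans (card_le_card fun ω k => ?_)
      obtain ⟨k₁, k₂⟩ := mem_erase.1 k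
      exact mem_filter.2 ⟨mem_erase.2 ⟨k₁, (mem_On.1 k₂).1⟩, (mem_On.1 k₂).2.1⟩
    · obtain ⟨k₁, k₂⟩ := mem_erase.1 hω
      rcases eq_empty_or_nonempty (bipartiteBelow (fun s ω => s ∈ ω)
        (univ.filter fun s => s ∈ vW ∧ #(On Γ s s) = 10) ω) with e | ⟨p, hp⟩
      · simp [e]
      refine (card_le_card fun q hq => ?_).trans (card_le_two (a := p) (b := -p))
      obtain ⟨p₁, p₂⟩ := mem_filter.1 hp
      obtain ⟨q₁, q₂⟩ := mem_filter.1 hq
      obtain ⟨p₃, p₄⟩ := (mem_filter.1 p₁).2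
      obtain ⟨q₃, q₄⟩ := (mem_filter.1 q₁).2
      rcases by_contra fun c => k₁ (alpha h k₂ p₃ q₃ p₂ q₂ (by rintro rfl; omega) c) with
        rfl | rfl | rfl
      · omega
      all_goals simp
  rw [card_erase_of_mem W_mem] at c₅
  have c₆ : 2 ∣ #(univ.filter fun s => s ∈ vW ∧ #(On Γ s s) = 10) := by
    rw [← ZMod.natCast_eq_zero_iff, card_eq_sum_ones, Nat.cast_sum]
    refine sum_involution (fun s _ => -s) (fun _ _ => by decide) (fun s hs _ e => ?_)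
      (fun s hs => ?_) fun _ _ => neg_neg _
    · obtain rfl : s = 0 := by
        have := three_smul s
        nth_rw 1 [← e] at this
        simpa using this
      have := (mem_filter.1 hs).2.2
      omega
    · exact mem_filter.2 ⟨mem_univ _, neg_mem (mem_filter.1 hs).2.1, 
        (congrArg card On_neg).trans (mem_filter.1 hs).2.2⟩
  have c₇ := card_le_univ (insert 0 ((univ.filter fun s => #(On Γ s s) = 1) ∪
    univ.filter fun s => #(On Γ s s) = 10))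
  rw [card_insert_of_notMem (by simp; omega),
    card_union_of_disjoint (disjoint_filter.2 fun s _ k₁ k₂ => by omega),
    ← Nat.card_eq_fintype_card, card_V] at c₇
  have c₈ := card_le_univ (insert 0 (insert ef (univ.filter fun s => #(On Γ s s) = 1)))
  rw [card_insert_of_notMem (by simp [show (0 : V) ≠ ef by decide]; omega),
    card_insert_of_notMem (by simpa using ef_ne h), ← Nat.card_eq_fintype_card, card_V] at c₈
  rw [hk] at c₁ c₂ c₅
  have : (1 + 27 * k) * 2 ≤ 727 := (Nat.mul_le_mul_left _ c₄).trans (by omega)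
  have : k ≤ 13 := by omega
  interval_cases k <;> omega

omit h in
theorem part2 {Mx : Subgroup GV} (h : SEd 3 Γ R ⊥ Mx) :
    ¬ ∀ g ∈ Γ, ∀ t ∈ R, t ≠ 1 → g * t * g⁻¹ ∈ R → St g vW := fun H => by
  have hR : R ≤ stab vW := fun t ht => H t (h.syl.le ht) _ (u_mem 0 0 1) (u_ne (by decide))
    (mul_mem (mul_mem ht (u_mem ..)) (inv_mem ht))
  refine not_sed (Γ := Γ) ⟨h.syl, hR, fun c => h.nle fun g hg => mem_of_stW h hg (c hg),
    fun g hg hg' x hx hx' ⟨k, hk⟩ hc => by_contra fun h1 => hg' ?_⟩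
  have hS := h.syl.of_le (le_inf h.syl.le hR) inf_le_left
  have hz : IsPGroup 3 (zpowers x) := IsPGroup.of_card_dvd_pow (n := k) (by
    rw [Nat.card_zpowers]; exact orderOf_dvd_of_pow_eq_one hk)
  obtain ⟨a, ha, a₁⟩ := hS.exists_conj_mem hz (zpowers_le.2 ⟨hx, hx'⟩)
  obtain ⟨b, hb, b₁⟩ := hS.exists_conj_mem (hz.map (MulAut.conj g).toMonoidHom) (by
    rw [MonoidHom.map_zpowers]
    exact zpowers_le.2 ⟨Γ.mul_mem (Γ.mul_mem hg hx) (Γ.inv_mem hg), hc⟩)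
  have : b * g * a⁻¹ ∈ stab vW := H _ (Γ.mul_mem (Γ.mul_mem hb.1 hg) (Γ.inv_mem ha.1)) _
    (a₁ x (mem_zpowers x)) (fun e => h1 (by simpa using e)) (by
      simpa [mul_assoc] using b₁ _ ⟨x, mem_zpowers x, rfl⟩)
  simpa [mul_assoc] using (stab vW).mul_mem ((stab vW).mul_mem ((stab vW).inv_mem hb.2) this) ha.2

end Jn

theorem jne : JneStmt := fun Γ Mx h => ⟨Jn.part1 h, Jn.part2 h, fun H => Jn.part2 (Γ := dl Γ)
  (Mx := dl Mx) ⟨syl_dl h.syl, fun t ht => mem_dl.2 (h.le (dual_mem_R ht)), fun c => h.nle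
    fun g hg => by simpa [dual_dual] using mem_dl.1 (c (mem_dl.2 (dual_dual g ▸ hg :))),
    fun g hg hg' x hx hx' ⟨k, hk⟩ hc => by
      simpa using h.se _ (mem_dl.1 hg) (mt mem_dl.2 hg') _ (mem_dl.1 hx) (mem_dl.1 hx')
        ⟨k, by rw [← map_pow, hk, map_one]⟩ (by simpa using mem_dl.1 hc)⟩
  fun g hg t ht h1 hc => by
    simpa [dual_dual] using (H _ (mem_dl.1 hg) _ (dual_mem_R ht) (by simpa using h1)
      (by simpa using dual_mem_R hc)).dual perp_U⟩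

end Cfsg.Agent.C1
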