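import Cfsg.Agent.Lib.C1.Lin

/-!
Row JNE, part 1: intersections of `W` with its conjugates.
-/

set_option autoImplicit false
set_option linter.unusedSimpArgs false

namespace Cfsg.Agent.C1.Jn

open Cfsg.Agent.Fus Subgroup
open Cfsg.Agent.U5 (SEd)

variable {Γ Mx : Subgroup GV} {g : GV}

theorem exists_ker : ∀ A B : K, ∃ y z : K, ¬ (y = 0 ∧ z = 0) ∧ y * A + z * B = 0 := by decide

theorem u_ne {y z : K} (h : ¬ (y = 0 ∧ z = 0)) : u 0 y z ≠ 1 := fun e => h (u_eq_one.1 e).2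

theorem fix_W (y z : K) {v : V} (hv : v ∈ vW) : u 0 y z v = v := by
  ext <;> simp [u_apply, act, hv.1, hv.2.1, hv.2.2]

theorem sub_W (y z : K) (v : V) : u 0 y z v - v - v.f • (z • ec + y • ee) ∈ vW := by
  simp [mem_vW, u_apply, act, ec, ee, mul_comm]

theorem sub_W' (y z : K) {v : V} (hv : v.f = 0) : u 0 y z v - v ∈ vW := by
  simpa [hv] using sub_W y z v

/-- The rank one form `u uᵀ`. -/
def sq (y z : K) : V := ⟨z * z, y * z, 0, y * y, 0, 0⟩

/-- `w` is a multiple of `q`. -/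
def Pm (q w : V) : Prop := w = 0 ∨ w = q ∨ w = -q

instance (q w : V) : Decidable (Pm q w) := by unfold Pm; infer_instance

theorem Pm.of_map {q w : V} (h : Pm (g q) (g w)) : Pm q w := by
  simpa only [Pm, ← map_neg, EmbeddingLike.apply_eq_iff_eq, EmbeddingLike.map_eq_zero_iff] using h

/-- The determinant on `W`. -/
def det (p q r : V) : K := p.a * (q.b * r.d - q.d * r.b) - p.b * (q.a * r.d - q.d * r.a) +
  p.d * (q.a * r.b - q.b * r.a)

theorem cramer {p q c v : V} (hp : p ∈ vW) (hq : q ∈ vW) (hc : c ∈ vW) (hv : v ∈ vW)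
    (h : det p q c ≠ 0) : v = (det p q c * det v q c) • p + (det p q c * det p v c) • q +
      (det p q c * det p q v) • c := by
  have := K_sq h
  ext <;> simp [hp.1, hp.2.1, hp.2.2, hq.1, hq.2.1, hq.2.2, hc.1, hc.2.1, hc.2.2, hv.1, hv.2.1, hv.2.2]
  · linear_combination (exp := 1) (-v.a) * this + (det p q c) * (by simp only [det]; ring :
      det p q c * v.a = det v q c * p.a + det p v c * q.a + det p q v * c.a)
  · linear_combination (exp := 1) (-v.b) * this + (det p q c) * (by simp only [det]; ring :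
      det p q c * v.b = det v q c * p.b + det p v c * q.b + det p q v * c.b)
  · linear_combination (exp := 1) (-v.d) * this + (det p q c) * (by simp only [det]; ring :
      det p q c * v.d = det v q c * p.d + det p v c * q.d + det p q v * c.d)

theorem det_lin (p q : V) {v : V} (hv : v.f = 0) (y z : K) : det p q (u 0 y z v - v) =
    y * det p q (u 0 1 0 v - v) + z * det p q (u 0 0 1 v - v) := by
  simp only [det, u_apply, act, V.sub_a, V.sub_b, V.sub_d, hv]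
  ring

/-- An element of `W`. -/
def wv (a b d : K) : V := ⟨a, b, 0, d, 0, 0⟩

theorem wv_mem (a b d : K) : wv a b d ∈ vW := ⟨rfl, rfl, rfl⟩

theorem eq_wv {v : V} (h : v ∈ vW) : v = wv v.a v.b v.d := by ext <;> simp [wv, h.1, h.2.1, h.2.2]

theorem exists_det {p q : V} (hp : p ∈ vW) (hq : q ∈ vW) (h₀ : p ≠ 0) (h : ¬ Pm p q) :
    ∃ c ∈ vW, det p q c ≠ 0 := by
  have : ∀ a b d a' b' d' : K, wv a b d ≠ 0 → ¬ Pm (wv a b d) (wv a' b' d') →
      det (wv a b d) (wv a' b' d') ea ≠ 0 ∨ det (wv a b d) (wv a' b' d') eb ≠ 0 ∨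
        det (wv a b d) (wv a' b' d') ed ≠ 0 := by decide +kernel
  rw [eq_wv hp] at h₀ h ⊢
  rw [eq_wv hq] at h ⊢
  rcases this _ _ _ _ _ _ h₀ h with h | h | h
  exacts [⟨_, by decide, h⟩, ⟨_, by decide, h⟩, ⟨_, by decide, h⟩]

theorem aniso : ∀ α β A B C : K, (∀ y z : K, ¬ (y = 0 ∧ z = 0) →
    y * α + z * β + (A * (z * z) + B * (y * z) + C * (y * y)) ≠ 0) →
    ∀ y z : K, ¬ (y = 0 ∧ z = 0) → A * (z * z) + B * (y * z) + C * (y * y) ≠ 0 := by
  decide +kernel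

theorem f_map (g : GV) (v : V) : (g v).f = v.a * (g ea).f + v.b * (g eb).f + v.c * (g ec).f +
    v.d * (g ed).f + v.e * (g ee).f + v.f * (g ef).f := by
  conv_lhs => rw [v.decomp]
  simp

variable (h : SEd 3 Γ R ⊥ Mx)
include h

theorem nconj (hg : g ∈ Γ) (hg' : g ∉ Mx) {t : GV} (ht : t ∈ R) (h1 : t ≠ 1) : g * t * g⁻¹ ∉ Mx :=
  h.conj_notMem hg hg' ht h1

theorem t2 {B : Subgroup GV} (hB : IsPGroup 3 B) (hg : g ∈ Γ) (hg' : g ∉ Mx) {a b : GV} (ha : a ∈ R)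
    (ha1 : a ≠ 1) (hb : b ∈ R) (hb1 : b ≠ 1) (h₁ : a ∈ B) (h₂ : g * b * g⁻¹ ∈ B) : False :=
  nconj h hg hg' hb hb1 (h.le_of_isPGroup (X := B ⊓ Γ) inf_le_right (hB.to_le inf_le_left)
    ⟨h₁, h.syl.le ha⟩ ha ha1 ⟨h₂, Γ.mul_mem (Γ.mul_mem hg (h.syl.le hb)) (Γ.inv_mem hg)⟩)

/-- The stabiliser of `W` lies in `Mx`. -/
theorem mem_of_stW (hg : g ∈ Γ) (hW : St g vW) : g ∈ Mx := by
  by_contra hg'
  obtain ⟨y, z, hyz, e⟩ := exists_ker (g ee).f (g ec).f
  obtain ⟨l, hl⟩ : ∃ l, l = g (z • ec + y • ee) := ⟨_, rfl⟩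
  have lf : l.f = 0 := by simpa [hl, add_comm] using e
  have hl' : ¬ (l.e = 0 ∧ l.c = 0) := fun k => hyz (by
    have := hW.iff.1 (hl ▸ (show l ∈ vW from ⟨lf, k⟩))
    exact ⟨by simpa [ec, ee] using this.2.1, by simpa [ec, ee] using this.2.2⟩)
  let A : Submodule K V := sub (fun v => ∃ k : K, v - k • l ∈ vW) ⟨0, by simp⟩
    (fun ⟨k, hk⟩ ⟨k', hk'⟩ => ⟨k + k', by convert add_mem hk hk' using 1; module⟩)
    fun c _ ⟨k, hk⟩ => ⟨c * k, by convert vW.smul_mem c hk using 1; module⟩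
  have hA : vW ≤ A := fun v hv => ⟨0, by simpa using hv⟩
  refine t2 h (ut3_pg hA) hg hg' (u_mem 0 l.e l.c) (u_ne hl') (u_mem 0 y z) (u_ne hyz)
    (mem_ut3.2 ⟨fun v => ⟨v.f, ?_⟩, fun v ⟨k, hk⟩ => sub_W' _ _ (by simpa [lf] using hk.1),
      fun v => fix_W _ _⟩) (mem_ut3.2 ⟨fun v => ⟨(g⁻¹ v).f, ?_⟩, fun v ⟨k, hk⟩ => ?_, fun v hv => ?_⟩)
  · simp [mem_vW, u_apply, act, lf, mul_comm]
  · simpa only [hl, map_sub, map_smul, GV.apply_inv_apply, GV.mul_apply] using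
      hW _ (sub_W y z (g⁻¹ v))
  · have := (hW.inv _ hk).1
    rw [map_sub, map_smul, hl, GV.inv_apply_apply] at this
    simpa only [map_sub, GV.apply_inv_apply, GV.mul_apply] using
      hW _ (sub_W' y z (v := g⁻¹ v) (by simpa [ec, ee] using this))
  · rw [GV.mul_apply, GV.mul_apply, fix_W _ _ (hW.inv v hv), GV.apply_inv_apply]

/-- A plane in `W ∩ g⁻¹ W` contains no rank one form. -/
theorem pm_of_sq (hg : g ∈ Γ) (hg' : g ∉ Mx) {y z : K} (hyz : ¬ (y = 0 ∧ z = 0)) {w : V}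
    (hw : w ∈ vW) (h₁ : g (sq y z) ∈ vW) (h₂ : g w ∈ vW) : Pm (sq y z) w := by
  by_contra hn
  obtain ⟨c, hc, hd⟩ := exists_det h₁ h₂ (fun e => hyz (by
    have := (EmbeddingLike.map_eq_zero_iff).1 e
    simp [sq, V.ext_iff] at this
    tauto)) (mt Pm.of_map hn)
  have key : ∀ y' z', ¬ (y' = 0 ∧ z' = 0) → (g (u 0 y' z' (g⁻¹ c))).f ≠ 0 := fun y' z' h' e => by
    obtain ⟨a, ha⟩ : ∃ a, a = g * u 0 y' z' * g⁻¹ := ⟨_, rfl⟩
    have haΓ : a ∈ Γ := ha ▸ Γ.mul_mem (Γ.mul_mem hg (h.syl.le (u_mem ..))) (Γ.inv_mem hg)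
    have a₁ : a (g (sq y z)) = g (sq y z) := by
      rw [ha, GV.mul_apply, GV.mul_apply, GV.inv_apply_apply, fix_W _ _ ⟨rfl, rfl, rfl⟩]
    have a₂ : a (g w) = g w := by
      rw [ha, GV.mul_apply, GV.mul_apply, GV.inv_apply_apply, fix_W _ _ hw]
    replace e : (a c).f = 0 := ha ▸ e
    obtain ⟨y₁, z₁, h₁', e₁⟩ := exists_ker (det (g (sq y z)) (g w) (u 0 1 0 (a c) - a c))
      (det (g (sq y z)) (g w) (u 0 0 1 (a c) - a c))
    obtain ⟨s, t, hδ⟩ : ∃ s t : K, u 0 y₁ z₁ (a c) = s • g (sq y z) + t • g w + a c := by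
      have hδ := cramer h₁ h₂ hc (sub_W' y₁ z₁ e) hd
      rw [det_lin _ _ e, e₁, mul_zero, zero_smul, add_zero, sub_eq_iff_eq_add] at hδ
      exact ⟨_, _, hδ⟩
    refine nconj h (Γ.inv_mem haΓ) (fun k => nconj h hg hg' (u_mem ..) (u_ne h')
      (by simpa [ha] using Mx.inv_mem k)) (u_mem 0 y₁ z₁) (u_ne h₁') (mem_of_stW h
        (Γ.mul_mem (Γ.mul_mem (Γ.inv_mem haΓ) (h.syl.le (u_mem ..))) (Γ.inv_mem (Γ.inv_mem haΓ)))
        fun v hv => ?_)
    have i₁ : a⁻¹ (g (sq y z)) = g (sq y z) := by conv_lhs => rw [← a₁, GV.inv_apply_apply]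
    have i₂ : a⁻¹ (g w) = g w := by conv_lhs => rw [← a₂, GV.inv_apply_apply]
    rw [cramer h₁ h₂ hc hv hd, inv_inv, GV.mul_apply, GV.mul_apply]
    simp only [map_add, map_smul, a₁, a₂, fix_W _ _ h₁, fix_W _ _ h₂, hδ, i₁, i₂, GV.inv_apply_apply]
    exact add_mem (add_mem (vW.smul_mem _ h₁) (vW.smul_mem _ h₂)) (vW.smul_mem _
      (add_mem (add_mem (vW.smul_mem _ h₁) (vW.smul_mem _ h₂)) hc))
  have hc' := f_map g (g⁻¹ c)
  rw [GV.apply_inv_apply, hc.1] at hc'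
  generalize g⁻¹ c = c' at key hc'
  refine aniso ((g eb).f * c'.c + 2 * (g ed).f * c'.e + (g ee).f * c'.f)
    (2 * (g ea).f * c'.c + (g eb).f * c'.e + (g ec).f * c'.f) (c'.f * (g ea).f) (c'.f * (g eb).f)
    (c'.f * (g ed).f) (fun y' z' h' e => key y' z' h' ?_) y z hyz ?_
  · rw [f_map]
    simp only [u_apply, act]
    linear_combination e - hc'
  · have := h₁.1
    rw [f_map] at this
    simp only [sq] at this
    linear_combination c'.f * this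

end Cfsg.Agent.C1.Jn
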