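import Cfsg.Agent.Lib.C1.Jne1
import Cfsg.Agent.Lib.C1.Fin0

/-!
Row JNE, part 2: counting tools, the stabiliser of `ea`, and the first assertion.
-/

set_option autoImplicit false
set_option linter.unusedSimpArgs false
set_option linter.style.haveILetI false

namespace Cfsg.Agent.C1.Jn

open Cfsg.Agent.Fus Subgroup
open Cfsg.Agent.U5 (SEd)

theorem card_mod {A X : Type*} [Group A] [MulAction A X] [Finite X] (x₀ : X)
    (h₀ : ∀ a : A, a • x₀ = x₀) (h : ∀ x ≠ x₀, ∀ a : A, a • x = x → a = 1) :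
    ∃ k, Nat.card X = 1 + Nat.card A * k := by
  classical
  let Y : SubMulAction A X := ⟨{x | x ≠ x₀}, fun a x hx e => hx (by
    rw [← inv_smul_smul a x, e, h₀])⟩
  have e := MulAction.selfEquivOrbitsQuotientProd (G := A) (X := Y) fun y =>
    eq_bot_iff.2 fun a ha => h y.1 y.2 a (congrArg Subtype.val ha)
  refine ⟨Nat.card (Quotient (MulAction.orbitRel A Y)), ?_⟩
  rw [mul_comm, ← Nat.card_prod, ← Nat.card_congr e, add_comm,
    ← Nat.card_congr (Equiv.optionSubtypeNe x₀), Finite.card_option]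
  rfl

theorem pow_mod {p k : ℕ} (hp : p = 7 ∨ p = 19 ∨ p = 23 ∨ p = 37) (hk : k ≤ 6)
    (h : 729 ≡ 3 ^ k [MOD p]) : k = 0 ∨ k = 6 := by
  rcases hp with rfl | rfl | rfl | rfl <;> interval_cases k <;> revert h <;> decide

theorem card_fixed (s : GV) : Nat.card (MulAction.fixedPoints (zpowers s) V) =
    Nat.card (LinearMap.eqLocus s.toLinearMap LinearMap.id).toAddSubgroup :=
  Nat.card_congr (Equiv.subtypeEquivRight fun w => ⟨fun h => h ⟨_, mem_zpowers _⟩, fun h g =>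
    (zpowers_le (H := MulAction.stabilizer GV w)).2 h g.2⟩)

/-- An element of order `7`, `19`, `23` or `37` fixes no nonzero vector. -/
theorem not_dvd_card {H : Subgroup GV} {v : V} (hv : v ≠ 0) (hH : ∀ g ∈ H, g v = v) {p : ℕ}
    (hp : p = 7 ∨ p = 19 ∨ p = 23 ∨ p = 37) : ¬ p ∣ Nat.card H := fun hd => by
  haveI : Fact p.Prime := ⟨by rcases hp with rfl | rfl | rfl | rfl <;> norm_num⟩
  obtain ⟨⟨s, hsH⟩, hs⟩ := exists_prime_orderOf_dvd_card' p hd
  rw [← orderOf_coe] at hs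
  have hz : IsPGroup p (zpowers s) := IsPGroup.of_card (n := 1) (by
    rw [Nat.card_zpowers, hs, pow_one])
  have h₁ := hz.card_modEq_card_fixedPoints V
  rw [card_fixed, card_V] at h₁
  have hC : ∀ w, w ∈ (LinearMap.eqLocus s.toLinearMap LinearMap.id).toAddSubgroup ↔ s w = w :=
    fun _ => Iff.rfl
  generalize (LinearMap.eqLocus s.toLinearMap LinearMap.id).toAddSubgroup = C at h₁ hC
  have h₂ := C.card_addSubgroup_dvd_card
  rw [card_V] at h₂
  obtain ⟨k, hk, e⟩ := (Nat.dvd_prime_pow (m := 6) Nat.prime_three).1 h₂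
  rcases pow_mod hp hk (e ▸ h₁) with rfl | rfl
  · exact hv (AddSubgroup.mem_bot.1 (AddSubgroup.eq_bot_of_card_eq C e ▸ (hC v).2 (hH s hsH)))
  · have := AddSubgroup.eq_top_of_card_eq C (e.trans card_V.symm)
    have : s = 1 := LinearEquiv.ext fun w => (hC w).1 (this ▸ AddSubgroup.mem_top w)
    simp only [this, orderOf_one] at hs
    omega

theorem count_le {H Mx : Subgroup GV} {s : Finset V}
    (h : ∀ g ∈ H, ∀ w ∈ s, g w ∈ s → g ∈ Mx) : Mx.relIndex H * s.card ≤ 729 := by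
  rw [← card_V, ← Nat.card_eq_finsetCard, relIndex, index, ← Nat.card_prod]
  refine Nat.card_le_card_of_injective (fun x => (x.1.out : GV) x.2) fun x y e => ?_
  have : x.1 = y.1 := by
    rw [← x.1.out_eq', ← y.1.out_eq', eq_comm, QuotientGroup.eq]
    refine h _ (y.1.out⁻¹ * x.1.out).2 x.2 x.2.2 ?_
    show (y.1.out : GV)⁻¹ ((x.1.out : GV) x.2) ∈ s
    rw [show (x.1.out : GV) x.2 = _ from e, GV.inv_apply_apply]
    exact y.2.2
  exact Prod.ext this (Subtype.ext ((x.1.out : GV).injective (e.trans (by rw [this]))))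

variable {Γ Mx : Subgroup GV} {g : GV} (h : SEd 3 Γ R ⊥ Mx)
include h

theorem index_mod {A H : Subgroup GV} (hA : A ≤ R) (hAH : A ≤ H) (hH : H ≤ Γ) :
    ∃ k, Mx.relIndex H = 1 + Nat.card A * k := by
  letI : MulAction A (H ⧸ Mx.subgroupOf H) := MulAction.compHom _ (inclusion hAH)
  refine card_mod ((1 : H) : H ⧸ Mx.subgroupOf H) (fun a => ?_) fun x hx a e => ?_
  · exact QuotientGroup.eq.2 (by simpa [mem_subgroupOf] using h.le (hA a.2))
  · obtain ⟨x, rfl⟩ := QuotientGroup.mk_surjective x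
    by_contra ha
    refine nconj h (Γ.inv_mem (hH x.2)) (fun k => hx (QuotientGroup.eq.2 (by
      simpa [mem_subgroupOf] using k))) (hA a.2) (fun k => ha (Subtype.ext k)) ?_
    simpa [mem_subgroupOf, mul_assoc] using QuotientGroup.eq.1 e.symm

/-- The stabiliser of `ea` lies in `Mx`. -/
theorem mem_of_ea (hg : g ∈ Γ) (e : g ea = ea) : g ∈ Mx := by
  by_contra hg'
  let H := Γ ⊓ MulAction.stabilizer GV ea
  obtain ⟨k, hk⟩ := index_mod h le_rfl (H := H) (le_inf h.syl.le (by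
    rintro _ ⟨s, rfl⟩
    show rho s ea = ea
    simp [rho_apply, act, ea])) inf_le_left
  have h₁ := count_le (H := H) (Mx := Mx) (s := Finset.univ.filter fun w => w ∈ vW ∧ ¬ Pm ea w)
    fun γ hγ w hw hw' => by_contra fun c => (Finset.mem_filter.1 hw).2.2 (pm_of_sq h hγ.1 c
      (y := 0) (z := 1) (by decide) (Finset.mem_filter.1 hw).2.1
      ((show γ ea = ea from hγ.2) ▸ (by decide : ea ∈ vW)) (Finset.mem_filter.1 hw').2.1)
  rw [show (Finset.univ.filter fun w => w ∈ vW ∧ ¬ Pm ea w).card = 24 by decide +kernel] at h₁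
  rw [card_R] at hk
  have h₂ : Mx.relIndex H ≠ 1 := fun c => hg' (relIndex_eq_one.1 c ⟨hg, e⟩)
  exact not_dvd_card (H := H) (v := ea) (by decide) (fun _ h => h.2) (.inl rfl)
    ((show 7 ∣ Mx.relIndex H by omega).trans (relIndex_dvd_card _ _))

theorem mem_of_pm (hg : g ∈ Γ) (e : g ea = ea ∨ g ea = -ea) : g ∈ Mx := by_contra fun hg' =>
  nconj h hg hg' (u_mem 0 0 1) (u_ne (by decide)) (mem_of_ea h
    (Γ.mul_mem (Γ.mul_mem hg (h.syl.le (u_mem ..))) (Γ.inv_mem hg)) (by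
      have : g⁻¹ ea ∈ vW := by
        rcases e with e | e
        · rw [← e, GV.inv_apply_apply]; decide
        · rw [← neg_neg ea, ← e, map_neg, GV.inv_apply_apply]; decide
      rw [GV.mul_apply, GV.mul_apply, fix_W _ _ this, GV.apply_inv_apply]))

/-- The vectors `± m ea` for `m ∈ Γ ∩ Mx`. -/
def Ob (Γ Mx : Subgroup GV) (w : V) : Prop := ∃ m ∈ Γ ⊓ Mx, w = m ea ∨ w = -m ea

theorem Ob.mem (hg : g ∈ Γ) {w : V} (hw : Ob Γ Mx w) (hw' : Ob Γ Mx (g w)) : g ∈ Mx := by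
  obtain ⟨m, hm, e⟩ := hw
  obtain ⟨m', hm', e'⟩ := hw'
  have := mem_of_pm h (Γ.mul_mem (Γ.mul_mem (Γ.inv_mem hm'.1) hg) hm.1) (by
    rw [GV.mul_apply, GV.mul_apply]
    rcases e with rfl | rfl <;> rcases e' with e' | e'
    · exact .inl (by rw [e', GV.inv_apply_apply])
    · exact .inr (by rw [e', map_neg, GV.inv_apply_apply])
    · exact .inr (by rw [← neg_neg (g _), ← map_neg, e', map_neg, GV.inv_apply_apply])
    · exact .inl (by rw [← neg_neg (g _), ← map_neg, e', neg_neg, GV.inv_apply_apply]))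
  simpa [mul_assoc] using Mx.mul_mem (Mx.mul_mem hm'.2 this) (Mx.inv_mem hm.2)

omit h in
theorem card_free : (Finset.univ.filter fun v : V =>
    ∀ x y z : K, act x y z v = v → x = 0 ∧ y = 0 ∧ z = 0).card = 594 := by decide +kernel

theorem card_Ob {s : Finset V} (hs : ∀ w ∈ s, Ob Γ Mx w) : s.card ≤ 22 := by
  obtain ⟨g, hg, hg'⟩ := h.exists_notMem
  have key : ∀ t ∈ R, ∀ w ∈ s, t (g w) ∈ s.image g → t = 1 := fun t ht w hw e => by
    obtain ⟨w', hw', e⟩ := Finset.mem_image.1 e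
    by_contra c
    refine nconj h (Γ.inv_mem hg) (fun k => hg' (by simpa using Mx.inv_mem k)) ht c (Ob.mem h
      (Γ.mul_mem (Γ.mul_mem (Γ.inv_mem hg) (h.syl.le ht)) (Γ.inv_mem (Γ.inv_mem hg))) (hs w hw) ?_)
    rw [inv_inv, GV.mul_apply, GV.mul_apply, ← e, GV.inv_apply_apply]
    exact hs w' hw'
  have := Nat.card_le_card_of_injective (fun x : R × s => (⟨(x.1 : GV) (g x.2),
    Finset.mem_filter.2 ⟨Finset.mem_univ _, fun a b c e => u_eq_one.1 (by
      have := key _ (R.mul_mem (R.mul_mem (R.inv_mem x.1.2) (u_mem a b c)) x.1.2) _ x.2.2 (by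
        rw [GV.mul_apply, GV.mul_apply, u_apply, e, GV.inv_apply_apply]
        exact Finset.mem_image_of_mem _ x.2.2)
      simpa [mul_assoc, mul_eq_left, inv_mul_eq_one] using this)⟩⟩ : (Finset.univ.filter fun v : V =>
        ∀ x y z : K, act x y z v = v → x = 0 ∧ y = 0 ∧ z = 0))) fun x y e => by
    replace e : (x.1 : GV) (g x.2) = (y.1 : GV) (g y.2) := congrArg Subtype.val e
    have := key _ (R.mul_mem (R.inv_mem y.1.2) x.1.2) _ x.2.2 (by
      rw [GV.mul_apply, e, GV.inv_apply_apply]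
      exact Finset.mem_image_of_mem _ y.2.2)
    rw [inv_mul_eq_one] at this
    exact Prod.ext (Subtype.ext this.symm)
      (Subtype.ext (g.injective ((x.1 : GV).injective (by rw [e, this]))))
  rw [Nat.card_prod, card_R, Nat.card_eq_finsetCard, Nat.card_eq_finsetCard, card_free] at this
  omega

omit h in
theorem card_orb : ∀ l m : K, 23 ≤ ((Finset.univ : Finset (K × K × K × Bool)).image fun p =>
    let w := act p.1 p.2.1 0 (if p.2.2.1 = 0 then ea else if p.2.2.1 = 1 then x1F l ea else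
      x2F m (x1F l ea))
    if p.2.2.2 then w else -w).card := by decide +kernel

theorem part1 (l m : K) (h₁ : x1m l ∈ Γ) : x2m m ∉ Γ := fun h₂ => by
  have m₁ : x1m l ∈ Mx := by_contra fun c => nconj h h₁ c (u_mem 0 0 1) (u_ne (by decide)) (by
    obtain ⟨y, z, e⟩ := Fn.na1_x l 0 1
    rw [e, mul_inv_cancel_right]
    exact h.le (u_mem ..))
  have m₂ : x2m m ∈ Mx := by_contra fun c => nconj h h₂ c (u_mem 0 0 1) (u_ne (by decide)) (by
    obtain ⟨y, z, e⟩ := Fn.na2_x m 0 1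
    rw [e, mul_inv_cancel_right]
    exact h.le (u_mem ..))
  refine (card_orb l m).not_gt (Nat.lt_succ_of_le (card_Ob h fun w hw => ?_))
  obtain ⟨⟨x, y, k, b⟩, -, rfl⟩ := Finset.mem_image.1 hw
  have hu : u x y 0 ∈ Γ ⊓ Mx := ⟨h.syl.le (u_mem ..), h.le (u_mem ..)⟩
  obtain ⟨n, hn, e⟩ : ∃ n ∈ Γ ⊓ Mx, act x y 0 (if k = 0 then ea else if k = 1 then x1F l ea else
      x2F m (x1F l ea)) = n ea := by
    split_ifs
    exacts [⟨_, hu, rfl⟩, ⟨_, mul_mem hu ⟨h₁, m₁⟩, rfl⟩,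
      ⟨_, mul_mem (mul_mem hu ⟨h₂, m₂⟩) ⟨h₁, m₁⟩, rfl⟩]
  exact ⟨n, hn, by cases b <;> simp [e]⟩

end Cfsg.Agent.C1.Jn
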