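import Cfsg.Agent.Lib.C1.Jne2

/-!
Row JNE, part 3: the conjugates of `W`.
-/

set_option autoImplicit false
set_option linter.unusedSimpArgs false
set_option linter.style.haveILetI false
set_option linter.unusedVariables false

namespace Cfsg.Agent.C1.Jn

open Cfsg.Agent.Fus Subgroup Finset Pointwise
open Cfsg.Agent.U5 (SEd)

variable {Γ : Subgroup GV} {g : GV} {v w : V} {ω : Set V}

/-- The conjugates of `W`. -/
noncomputable def Om (Γ : Subgroup GV) : Finset (Set V) :=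
  (Set.toFinite (MulAction.orbit Γ (vW : Set V))).toFinset

theorem mem_Om : ω ∈ Om Γ ↔ ∃ g ∈ Γ, g • (vW : Set V) = ω :=
  (Set.Finite.mem_toFinset _).trans ⟨fun ⟨g, e⟩ => ⟨g, g.2, e⟩, fun ⟨g, hg, e⟩ => ⟨⟨g, hg⟩, e⟩⟩

theorem mem_sm : v ∈ g • ω ↔ g⁻¹ v ∈ ω := Set.mem_smul_set_iff_inv_smul_mem

theorem sm_mem : g v ∈ g • ω ↔ v ∈ ω := Set.smul_mem_smul_set_iff

theorem W_mem : (vW : Set V) ∈ Om Γ := mem_Om.2 ⟨1, one_mem _, one_smul _ _⟩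

theorem smul_mem (hg : g ∈ Γ) (h : ω ∈ Om Γ) : g • ω ∈ Om Γ :=
  let ⟨a, ha, e⟩ := mem_Om.1 h
  mem_Om.2 ⟨g * a, mul_mem hg ha, by rw [mul_smul, e]⟩

theorem smul_eq_iff : g • (vW : Set V) = vW ↔ g ∈ stab vW :=
  ⟨fun e v hv => e.le (sm_mem.2 hv), fun h => Set.ext fun v => mem_sm.trans (St.inv h).iff⟩

theorem lin_mem (h : ω ∈ Om Γ) (hv : v ∈ ω) (hw : w ∈ ω) (s t : K) : s • v + t • w ∈ ω := by
  obtain ⟨g, -, rfl⟩ := mem_Om.1 h
  rw [mem_sm] at hv hw ⊢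
  rw [map_add, map_smul, map_smul]
  exact add_mem (vW.smul_mem _ hv) (vW.smul_mem _ hw)

open Classical in
/-- The conjugates of `W` containing `v` and `w`. -/
noncomputable def On (Γ : Subgroup GV) (v w : V) : Finset (Set V) :=
  (Om Γ).filter fun ω => v ∈ ω ∧ w ∈ ω

theorem mem_On : ω ∈ On Γ v w ↔ ω ∈ Om Γ ∧ v ∈ ω ∧ w ∈ ω := by
  classical exact mem_filter

theorem On_comm : On Γ v w = On Γ w v := by ext; simp [mem_On, and_comm]

theorem On_neg : On Γ (-v) (-v) = On Γ v v := by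
  ext ω
  simp only [mem_On, and_self]
  exact and_congr_right fun h => ⟨fun k => by simpa using lin_mem h k k (-1) 0,
    fun k => by simpa using lin_mem h k k (-1) 0⟩

theorem On_zero : On Γ 0 0 = Om Γ := by
  ext ω
  refine mem_On.trans (and_iff_left_of_imp fun h => ?_)
  obtain ⟨g, -, rfl⟩ := mem_Om.1 h
  simp [mem_sm]

theorem card_On_smul (hg : g ∈ Γ) (v w : V) : #(On Γ (g v) (g w)) = #(On Γ v w) :=
  (card_nbij' (fun ω => g • ω) (fun ω => g⁻¹ • ω)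
    (fun ω h => mem_On.2 ⟨smul_mem hg (mem_On.1 h).1, sm_mem.2 (mem_On.1 h).2.1,
      sm_mem.2 (mem_On.1 h).2.2⟩)
    (fun ω h => mem_On.2 ⟨smul_mem (inv_mem hg) (mem_On.1 h).1, mem_sm.2 (mem_On.1 h).2.1,
      mem_sm.2 (mem_On.1 h).2.2⟩) (fun _ _ => inv_smul_smul ..) fun _ _ => smul_inv_smul ..).symm

/-- The pointwise stabiliser. -/
def Hs (Γ : Subgroup GV) (v w : V) : Subgroup GV :=
  Γ ⊓ (MulAction.stabilizer GV v ⊓ MulAction.stabilizer GV w)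

/-- The group `A₁`. -/
def a1 : Multiplicative (K × K) →* GV :=
  MonoidHom.mk' (fun p => u 0 p.toAdd.1 p.toAdd.2) fun p q => by simp [u_mul]

theorem card_a1 : Nat.card a1.range = 9 := by
  rw [← Nat.card_congr (MonoidHom.ofInjective (f := a1) fun p q e =>
    Prod.ext (u_inj e).2.1 (u_inj e).2.2).toEquiv]
  simp

theorem a1_le : a1.range ≤ R := by
  rintro _ ⟨p, rfl⟩
  exact u_mem ..

/-- The anisotropic forms. -/
def v0 : V := wv 1 0 1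
def v1 : V := wv 2 1 1
def v2 : V := wv 2 2 1

variable (h : SEd 3 Γ R ⊥ (stab vW))
include h

theorem a1_le_Hs (hv : v ∈ vW) (hw : w ∈ vW) : a1.range ≤ Hs Γ v w := by
  rintro _ ⟨p, rfl⟩
  exact ⟨h.syl.le (u_mem ..), fix_W _ _ hv, fix_W _ _ hw⟩

theorem trans (hv : v ∈ vW) (hw : w ∈ vW) (hω : ω ∈ On Γ v w) :
    ∃ a ∈ Hs Γ v w, a • (vW : Set V) = ω := by
  obtain ⟨hω, h₁, h₂⟩ := mem_On.1 hω
  obtain ⟨g, hg, rfl⟩ := mem_Om.1 hω
  have hz : u 0 0 1 ∈ Hs Γ v w := a1_le_Hs h hv hw ⟨.ofAdd (0, 1), rfl⟩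
  have hz' : g * u 0 0 1 * g⁻¹ ∈ Hs Γ v w := ⟨Γ.mul_mem (Γ.mul_mem hg hz.1) (Γ.inv_mem hg),
    show g (u 0 0 1 (g⁻¹ v)) = v by rw [fix_W _ _ (mem_sm.1 h₁), GV.apply_inv_apply],
    show g (u 0 0 1 (g⁻¹ w)) = w by rw [fix_W _ _ (mem_sm.1 h₂), GV.apply_inv_apply]⟩
  obtain ⟨Q, hQ⟩ := exists_isSylowIn 3 (Hs Γ v w)
  have pz : ∀ t : GV, t ^ 3 = 1 → IsPGroup 3 (zpowers t) := fun t ht =>
    IsPGroup.of_card_dvd_pow (n := 1) (by
      rw [Nat.card_zpowers, pow_one]; exact orderOf_dvd_of_pow_eq_one ht)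
  obtain ⟨a, ha, a₁⟩ := hQ.exists_conj_mem (pz _ (u_cube 0 0 1)) (zpowers_le.2 hz)
  obtain ⟨b, hb, b₁⟩ := hQ.exists_conj_mem (pz (g * u 0 0 1 * g⁻¹) (by
    rw [conj_pow, u_cube]; simp)) (zpowers_le.2 hz')
  have : a⁻¹ * b * g ∈ stab vW := by_contra fun c => t2 h
    (hQ.isPGroup.map (MulAut.conj a⁻¹).toMonoidHom) (mul_mem (mul_mem (inv_mem ha.1) hb.1) hg) c
    (u_mem 0 0 1) (u_ne (by decide)) (u_mem 0 0 1) (u_ne (by decide))
    ⟨_, a₁ _ (mem_zpowers _), by simp [mul_assoc]⟩ ⟨_, b₁ _ (mem_zpowers _), by simp [mul_assoc]⟩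
  refine ⟨b⁻¹ * a, mul_mem (inv_mem hb) ha, ?_⟩
  conv_lhs => rw [← smul_eq_iff.2 this, ← mul_smul]
  simp [mul_assoc]

theorem card_On (hv : v ∈ vW) (hw : w ∈ vW) : #(On Γ v w) = (stab vW).relIndex (Hs Γ v w) := by
  rw [relIndex, show (stab vW).subgroupOf (Hs Γ v w) =
    MulAction.stabilizer (Hs Γ v w) (vW : Set V) from Subgroup.ext fun a => smul_eq_iff.symm,
    MulAction.index_stabilizer, ← Set.ncard_coe_finset]
  congr 1
  ext ω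
  refine ⟨fun k => let ⟨a, ha, e⟩ := trans h hv hw k; ⟨⟨a, ha⟩, e⟩, ?_⟩
  rintro ⟨a, rfl⟩
  have k₁ := (sm_mem (g := a)).2 hv
  have k₂ := (sm_mem (g := a)).2 hw
  rw [show (a : GV) v = v from a.2.2.1] at k₁
  rw [show (a : GV) w = w from a.2.2.2] at k₂
  exact mem_On.2 ⟨smul_mem a.2.1 W_mem, k₁, k₂⟩

theorem On_mod (hv : v ∈ vW) (hw : w ∈ vW) (h0 : v ≠ 0) : (∃ k, #(On Γ v w) = 1 + 9 * k) ∧
    ¬ 7 ∣ #(On Γ v w) ∧ ¬ 19 ∣ #(On Γ v w) ∧ ¬ 23 ∣ #(On Γ v w) ∧ ¬ 37 ∣ #(On Γ v w) := by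
  rw [card_On h hv hw, ← card_a1]
  have := fun p hp hd => not_dvd_card (H := Hs Γ v w) h0 (fun _ h => h.2.1) (p := p) hp
    (dvd_trans hd (relIndex_dvd_card (stab vW) _))
  exact ⟨index_mod h a1_le (a1_le_Hs h hv hw) inf_le_left, this _ (by simp), this _ (by simp),
    this _ (by simp), this _ (by simp)⟩

theorem Om_mod : ∃ k, 0 < k ∧ #(Om Γ) = 1 + 27 * k := by
  have e := card_On h vW.zero_mem vW.zero_mem
  obtain ⟨k, hk⟩ := index_mod h le_rfl (H := Hs Γ 0 0) (fun t ht => ⟨h.syl.le ht, map_zero t,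
    map_zero t⟩) inf_le_left
  refine ⟨k, Nat.pos_of_ne_zero ?_, by rw [← On_zero, e, hk, card_R]⟩
  rintro rfl
  exact h.nle fun t ht => relIndex_eq_one.1 hk ⟨ht, map_zero t, map_zero t⟩

theorem eq_W (hω : ω ∈ Om Γ) {y z : K} (hyz : ¬ (y = 0 ∧ z = 0)) (h₁ : sq y z ∈ ω) (hw : w ∈ vW)
    (h₂ : w ∈ ω) (hn : ¬ Pm (sq y z) w) : ω = vW := by
  obtain ⟨g, hg, rfl⟩ := mem_Om.1 hω
  refine smul_eq_iff.2 (by_contra fun c => hn (pm_of_sq h (inv_mem hg)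
    (fun k => c (by simpa using inv_mem k)) hyz hw (mem_sm.1 h₁) (mem_sm.1 h₂)))

theorem card_ea : #(On Γ ea ea) = 1 := by
  rw [card_On h (by decide) (by decide), relIndex_eq_one]
  exact fun g hg => mem_of_ea h hg.1 hg.2.1

theorem two_le (hω : ω ∈ Om Γ) : ∃ p ∈ ω, -p ∈ ω ∧ p ≠ -p ∧ On Γ p p = {ω} ∧
    On Γ (-p) (-p) = {ω} := by
  obtain ⟨g, hg, rfl⟩ := mem_Om.1 hω
  have h₁ : g ea ∈ g • (vW : Set V) := sm_mem.2 (by decide : ea ∈ vW)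
  have h₂ : On Γ (g ea) (g ea) = {g • (vW : Set V)} := by
    obtain ⟨a, e⟩ := card_eq_one.1 ((card_On_smul hg ea ea).trans (card_ea h))
    have := mem_On.2 ⟨hω, h₁, h₁⟩
    rw [e, mem_singleton] at this
    rw [e, this]
  refine ⟨g ea, h₁, by simpa using lin_mem hω h₁ h₁ (-1) 0, fun (e : g ea = -g ea) => ?_, h₂,
    On_neg.trans h₂⟩
  rw [← map_neg] at e
  exact absurd (g.injective e) (by decide)

theorem beta : #(On Γ v0 v1) = 1 := by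
  classical
  by_contra hd
  have hx := h.syl.le (u_mem 1 0 0)
  have e₁ : #(On Γ v1 v1) = #(On Γ v0 v0) := card_On_smul hx v0 v0
  have e₂ : #(On Γ v0 v1) = #(On Γ v0 v2) := (card_On_smul hx v2 v0).trans (by rw [On_comm])
  have i₁ : 2 * #(On Γ v0 v1) ≤ #(On Γ v0 v0) + 1 := by
    have a := card_union_add_card_inter (On Γ v0 v1) (On Γ v0 v2)
    have b : #(On Γ v0 v1 ∪ On Γ v0 v2) ≤ #(On Γ v0 v0) := card_le_card fun ω k => by
      simp only [mem_union, mem_On] at k ⊢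
      tauto
    have c : #(On Γ v0 v1 ∩ On Γ v0 v2) ≤ 1 := (card_le_card fun ω k => by
      simp only [mem_inter, mem_On] at k
      obtain ⟨⟨k₀, k₁, k₂⟩, -, -, k₃⟩ := k
      exact mem_singleton.2 (eq_W h k₀ (y := 0) (z := 1) (by decide) (by
        convert lin_mem k₀ k₁ (lin_mem k₀ k₂ k₃ 1 1) 2 2 using 1
        decide) (by decide) k₁ (by decide))).trans (card_singleton (vW : Set V)).le
    omega
  have i₂ : 2 * #(On Γ v0 v0) ≤ #(Om Γ) + #(On Γ v0 v1) := by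
    have a := card_union_add_card_inter (On Γ v0 v0) (On Γ v1 v1)
    have b : #(On Γ v0 v0 ∪ On Γ v1 v1) ≤ #(Om Γ) := card_le_card fun ω k => by
      simp only [mem_union, mem_On] at k
      tauto
    have c : #(On Γ v0 v0 ∩ On Γ v1 v1) ≤ #(On Γ v0 v1) := card_le_card fun ω k => by
      simp only [mem_inter, mem_On] at k ⊢
      tauto
    omega
  have i₃ : #(On Γ v0 v0) * 12 ≤ #(univ.filter fun s => #(On Γ v0 s) = 1) * 1 := by
    refine card_mul_le_card_mul (fun ω s => s ∈ ω) (fun ω hω => ?_) fun s hs => ?_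
    · obtain ⟨a, ha, rfl⟩ := trans h (by decide) (by decide) hω
      rw [← show #(univ.filter fun s : V => s ∈ vW ∧ ∃ y z c d : K, ¬ (y = 0 ∧ z = 0) ∧
        sq y z = c • v0 + d • s ∧ ¬ Pm (sq y z) v0) = 12 by decide +kernel]
      refine card_le_card_of_injOn a (fun s hs => ?_) a.injective.injOn
      obtain ⟨hs, y, z, c, d, k₁, k₂, k₃⟩ := (mem_filter.1 hs).2
      refine mem_filter.2 ⟨mem_filter.2 ⟨mem_univ _, ?_⟩, sm_mem.2 hs⟩
      rw [← (show a v0 = v0 from ha.2.1), card_On_smul ha.1]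
      refine card_eq_one.2 ⟨vW, eq_singleton_iff_unique_mem.2 ⟨mem_On.2 ⟨W_mem, wv_mem .., hs⟩,
        fun ω hω => ?_⟩⟩
      obtain ⟨l₀, l₁, l₂⟩ := mem_On.1 hω
      exact eq_W h l₀ k₁ (k₂ ▸ lin_mem l₀ l₁ l₂ c d) (by decide) l₁ k₃
    · refine (card_le_card fun ω k => ?_).trans (mem_filter.1 hs).2.le
      obtain ⟨k₁, k₂⟩ := mem_filter.1 k
      exact mem_On.2 ⟨(mem_On.1 k₁).1, (mem_On.1 k₁).2.1, k₂⟩
  have i₄ : #(Om Γ \ On Γ v0 v0) * 2 ≤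
      #(univ.filter fun s => #(On Γ s s) = 1 ∧ #(On Γ v0 s) = 0) * 1 := by
    refine card_mul_le_card_mul (fun ω s => s ∈ ω) (fun ω hω => ?_) fun s hs => ?_
    · obtain ⟨k₁, k₂⟩ := mem_sdiff.1 hω
      obtain ⟨p, p₁, p₂, p₃, p₄, p₅⟩ := two_le h k₁
      have : ∀ q, q ∈ ω → On Γ q q = {ω} → q ∈ bipartiteAbove (fun ω s => s ∈ ω)
          (univ.filter fun s => #(On Γ s s) = 1 ∧ #(On Γ v0 s) = 0) ω := fun q q₁ q₂ =>
        mem_filter.2 ⟨mem_filter.2 ⟨mem_univ _, by rw [q₂, card_singleton], card_eq_zero.2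
          (eq_empty_of_forall_notMem fun ω' k => by
            obtain ⟨l₀, l₁, l₂⟩ := mem_On.1 k
            obtain rfl := mem_singleton.1 (q₂ ▸ mem_On.2 ⟨l₀, l₂, l₂⟩)
            exact k₂ (mem_On.2 ⟨l₀, l₁, l₁⟩))⟩, q₁⟩
      exact one_lt_card.2 ⟨_, this _ p₁ p₄, _, this _ p₂ p₅, p₃⟩
    · refine (card_le_card fun ω k => ?_).trans (mem_filter.1 hs).2.1.le
      obtain ⟨k₁, k₂⟩ := mem_filter.1 k
      exact mem_On.2 ⟨(mem_sdiff.1 k₁).1, k₂, k₂⟩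
  have i₅ := card_sdiff_add_card_eq_card (s := On Γ v0 v0) (t := Om Γ) fun ω k => (mem_On.1 k).1
  have i₆ := card_le_univ ((univ.filter fun s => #(On Γ v0 s) = 1) ∪
    univ.filter fun s => #(On Γ s s) = 1 ∧ #(On Γ v0 s) = 0)
  rw [card_union_of_disjoint (disjoint_filter.2 fun s _ k₁ k₂ => by omega),
    ← Nat.card_eq_fintype_card, card_V] at i₆
  obtain ⟨⟨k, hk⟩, a₁, a₂, a₃, a₄⟩ := On_mod h (v := v0) (w := v0) (by decide) (by decide) (by decide)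
  obtain ⟨⟨j, hj⟩, b₁, b₂, -⟩ := On_mod h (v := v0) (w := v1) (by decide) (by decide) (by decide)
  rw [hk] at a₁ a₂ a₃ a₄
  rw [hj] at b₁ b₂
  obtain rfl | rfl | rfl : j = 1 ∨ j = 2 ∨ j = 3 := by omega
  · obtain rfl | rfl | rfl | rfl : k = 2 ∨ k = 3 ∨ k = 4 ∨ k = 5 := by omega
    all_goals omega
  all_goals omega

end Cfsg.Agent.C1.Jn
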