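import Cfsg.Agent.Lib.C1.L4a

/-!
Row L4: the normaliser of a regular unipotent element.
-/

set_option autoImplicit false
set_option linter.style.haveILetI false
set_option linter.unusedSimpArgs false

namespace Cfsg.Agent.C1

open Cfsg.Agent.Fus Subgroup M6

attribute [local irreducible] M6.of M6.mul

namespace L4

theorem app_lin (g : V →ₗ[K] V) (v : V) : (of g).app v = g v := by
  conv_rhs => rw [v.decomp]
  simp only [M6.of_eq, app, map_add, map_smul]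

theorem polC_eq {α : Type} (ε : K) (p v : V) (g : V → α) : polC ε p v g = g (pol ε p v) := by
  simp only [polC, appC_eq, app_lin]
  simp [app, pol]

theorem dec {ε : K} (hε : ε ≠ 0) (v : V) :
    v = pol ε (co ε v) (e0 ε) + pol ε (sh (co ε v)) ef := by
  have : ∀ ε : K, ε ≠ 0 → ∀ v : V, v = app ⟨e0 ε, t ε (e0 ε), t ε (t ε (e0 ε)), ef, t ε ef,
      t ε (t ε ef)⟩ (co ε v) := by decide +kernel
  simpa [app, pol, sh, add_assoc] using this ε hε v

theorem ttt {ε : K} (v : V) : t ε (t ε (t ε v)) = 0 := by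
  have : ∀ ε : K, t ε ∘ₗ t ε ∘ₗ t ε = 0 := fun ε => by
    refine lin_ext ?_ ?_ ?_ ?_ ?_ ?_ <;> revert ε <;> decide +kernel
  exact LinearMap.congr_fun (this ε) v

theorem pol_pinv (ε : K) {p : V} (hp : p.d ≠ 0) (v : V) :
    pol ε (pinv p) (pol ε (sh p) v) = -v := by
  simp only [pol, pinv, sh, map_add, map_smul, ttt, smul_zero, add_zero]
  have := K_sq hp
  match_scalars
  · linear_combination -this
  · ring
  · linear_combination (-p.e * p.e) * this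

theorem pol_neg (ε : K) (p v : V) : pol ε p (-v) = -pol ε p v := by
  simp only [pol, map_neg, smul_neg, neg_add]

variable {ε : K} {Γ : Subgroup GV} {γ : GV}

theorem map_pol {g : V →ₗ[K] V} (h : ∀ v, g (t ε v) = t ε (g v)) (p v : V) :
    g (pol ε p v) = pol ε p (g v) := by simp only [pol, map_add, map_smul, h]

theorem t_mem' : ∀ ε : K, ε ≠ 0 → ∀ v : V, t ε v ∈ vT ε ∧ act (-1) (-ε) (1 * ε - 0) v - v ∈ vT ε ∧
    act (-1) (-ε) (1 * ε - 0) (act (-1) (-ε) (1 * ε - 0) v - v) - (act (-1) (-ε) (1 * ε - 0) v - v) =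
      t ε (t ε v) := by decide +kernel

theorem t_mem (hε : ε ≠ 0) (v : V) : t ε v ∈ vT ε := (t_mem' ε hε v).1

theorem exists_t (hε : ε ≠ 0) {v : V} (hv : v ∈ vT ε) : ∃ w, v = t ε w := by
  have : ∀ ε : K, ε ≠ 0 → ∀ v ∈ vT ε, (co ε v).a = 0 ∧ (co ε v).d = 0 := by decide +kernel
  refine ⟨(co ε v).b • e0 ε + (co ε v).c • t ε (e0 ε) + (co ε v).e • ef + (co ε v).f • t ε ef, ?_⟩
  conv_lhs => rw [dec hε v]
  simp [pol, sh, this ε hε v hv, add_assoc]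

theorem pol_mem (hε : ε ≠ 0) (p : V) {v : V} (hv : v ∈ vT ε) : pol ε p v ∈ vT ε :=
  add_mem (add_mem (Submodule.smul_mem _ _ hv) (Submodule.smul_mem _ _ (t_mem hε _)))
    (Submodule.smul_mem _ _ (t_mem hε _))

theorem comm_t {g : GV} (h : g * u 1 ε 0 = u 1 ε 0 * g) (v : V) : g (t ε v) = t ε (g v) :=
  map_act_sub h v

theorem sub_mem (hε : ε ≠ 0) {g : GV} (h : g * u 1 ε 0 = u 1 ε 0 * g)
    (h₁ : g (e0 ε) - e0 ε ∈ vT ε) (h₂ : g ef - ef ∈ vT ε) (v : V) : g v - v ∈ vT ε := by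
  have := add_mem (pol_mem hε (co ε v) h₁) (pol_mem hε (sh (co ε v)) h₂)
  convert this using 1
  conv_lhs => rw [dec hε v, map_add]
  have e := map_pol (g := g.toLinearMap) (comm_t h)
  simp only [LinearEquiv.coe_coe] at e
  rw [e, e]
  simp only [pol, map_sub, smul_sub]
  abel

theorem st_T (hε : ε ≠ 0) (h : Nr ε γ) : St γ (vT ε) := fun v hv => by
  obtain ⟨w, rfl⟩ := exists_t hε hv
  rcases h with h | h
  · rw [comm_t h]; exact t_mem hε _
  · rw [u_inv] at h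
    rw [t_apply, map_act_sub h]
    exact (t_mem' ε hε _).2.1

theorem st_Y5 (hε : ε ≠ 0) (h : St γ (vT ε)) (h' : (γ (e0 ε)).f = 0) : St γ vY5 := fun v hv => by
  have : ∀ ε : K, ε ≠ 0 → ∀ v ∈ vY5, v - (co ε v).a • e0 ε ∈ vT ε := by decide +kernel
  have := (h _ (this ε hε v hv)).1
  simpa [h', mem_vY5] using this

theorem comm_z (h : Nr ε γ) : γ * u 0 0 1 * γ⁻¹ * u 1 ε 0 = u 1 ε 0 * (γ * u 0 0 1 * γ⁻¹) := by
  have e : Commute (u 0 0 1) (u 1 ε 0) := by simp [Commute, SemiconjBy, u_mul]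
  have e' : Commute (γ * u 0 0 1 * γ⁻¹) (γ * u 1 ε 0 * γ⁻¹) := by
    rw [Commute, SemiconjBy, conj_mul, conj_mul, e.eq]
  rcases h with h | h <;> rw [h, mul_inv_cancel_right] at e'
  exacts [e', Commute.inv_right_iff.1 e']

theorem cases_r {g : GV} (h : g ∈ zpowers (u 1 ε 0)) :
    g = 1 ∨ g = u 1 ε 0 ∨ g = u (-1) (-ε) ε := by
  obtain ⟨n, rfl⟩ := mem_powers_iff_mem_zpowers.2 h
  have : n % 3 < 3 := Nat.mod_lt _ (by decide)
  dsimp only
  rw [← Nat.div_add_mod n 3, pow_add, pow_mul, u_cube, one_pow, one_mul]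
  generalize n % 3 = k at this
  interval_cases k
  · simp
  · simp
  · refine .inr (.inr ?_)
    rw [sq, u_mul]
    congr 1
    · linear_combination ε * three
    · simp

theorem kok (hε : ε ≠ 0) (hK : K4 ε Γ) {g : GV} (hg : g ∈ Γ) (h : g * u 1 ε 0 = u 1 ε 0 * g) :
    Kok ε (of g) := fun H => by
  rw [app_of, M6.of_eq] at H
  rcases cases_r (hK g hg h (sub_mem hε h H.1 H.2)) with rfl | rfl | rfl
  exacts [.inl (M6.of_eq _), .inr (.inl rfl), .inr (.inr rfl)]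

theorem part₁ (hε : ε ≠ 0) (hS : IsSylowIn 3 R Γ) (hK : K4 ε Γ) (hγ : γ ∈ Γ) (h : Nr ε γ)
    (hY : St γ vY5) : NR γ := by
  obtain ⟨z', hz⟩ : ∃ z', z' = γ * u 0 0 1 * γ⁻¹ := ⟨_, rfl⟩
  have hc := hz ▸ comm_z h
  have e : ∀ v, z' v - v = γ (act 0 0 1 (γ⁻¹ v) - γ⁻¹ v) := fun v => by
    rw [hz, map_sub, GV.apply_inv_apply]; rfl
  have k₁ : ∀ ε : K, ∀ v ∈ vY5, act 0 0 1 v - v ∈ vT ε := by decide +kernel
  have h₁ : z' (e0 ε) - e0 ε ∈ vT ε := e _ ▸ st_T hε h _ (k₁ ε _ (hY.inv _ rfl))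
  have h₂ : z' ef - ef ∈ vY5 := e _ ▸ hY _ (by simp [mem_vY5, act])
  have k₂ : ∀ ε : K, ε ≠ 0 → ∀ v ∈ vT ε, ∀ k, act 0 0 k (v + e0 ε) - e0 ε ∈ vT ε := by
    decide +kernel
  have k₃ : ∀ ε : K, ε ≠ 0 → ∀ v ∈ vY5, ∃ k, act 0 0 k (v + ef) - ef ∈ vT ε := by decide +kernel
  have k₄ : ∀ x y z : K, x ≠ 0 → u x y z (u x y z ed - ed) - (u x y z ed - ed) ≠ 0 := by
    decide +kernel
  obtain ⟨k, hk⟩ := k₃ ε hε _ h₂
  have hc' : u 0 0 k * z' * u 1 ε 0 = u 1 ε 0 * (u 0 0 k * z') := by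
    rw [mul_assoc, hc, ← mul_assoc, ← mul_assoc, u_mul, u_mul]; simp
  have hr := cases_r (hK _ (mul_mem (hS.le (u_mem 0 0 k)) (hz ▸ mul_mem (mul_mem hγ
    (hS.le (u_mem 0 0 1))) (inv_mem hγ))) hc' (sub_mem hε hc'
      (by simpa [u_apply] using k₂ ε hε _ h₁ k) (by simpa [u_apply] using hk)))
  have h₃ : z' (z' ed - ed) - (z' ed - ed) = 0 := by
    have hv := hY.inv ed rfl
    rw [e, e, GV.inv_apply_apply, map_eq_zero_iff _ γ.injective]
    generalize γ⁻¹ ed = v at hv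
    ext <;> simp [act, mem_vY5.1 hv]
  simp only [← eq_inv_mul_iff_mul_eq, u_inv, u_mul, mul_one] at hr
  rcases hr with hr | hr | hr
  · exact nr_of_z hS hγ (k := -k) (by rw [← mul_inv_eq_iff_eq_mul, ← hz, hr]; simp)
  · exact absurd (hr ▸ h₃) (k₄ _ _ _ (by decide))
  · exact absurd (hr ▸ h₃) (k₄ _ _ _ (by decide))

theorem mul_eq (m n : M6) : m.mul n =
    ⟨m.app n.a, m.app n.b, m.app n.c, m.app n.d, m.app n.e, m.app n.f⟩ := by
  unfold M6.mul
  simp only [fV_eq]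

theorem app_six (c w w' : V) : app ⟨w, t ε w, t ε (t ε w), w', t ε w', t ε (t ε w')⟩ c =
    pol ε c w + pol ε (sh c) w' := by
  simp only [app, pol, sh, add_assoc]

theorem zp_eq {w : V} {g : GV} (n : V → V) (hn : ∀ v, n v = pol ε (co ε v) w +
      pol ε (sh (co ε v)) (pol ε (pinv (co ε w)) (pol ε (co ε w) w)))
    (hg : ∀ v, n v = g v + ε • t ε (t ε (g v)) - v) (hε : ε ≠ 0) : of g = zp ε w := by
  have e₂ : ∀ v, (of fun v => v - ε • t ε (t ε v)).app (v + n v) = g v := fun v => by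
    have : (fun v => v - ε • t ε (t ε v)) =
        ⇑((LinearMap.id - ε • t ε ∘ₗ t ε : V →ₗ[K] V)) := funext fun v => by
      rw [LinearMap.sub_apply, LinearMap.smul_apply, LinearMap.comp_apply, LinearMap.id_apply]
    rw [this, app_lin, hg, add_sub_cancel, LinearMap.sub_apply, LinearMap.smul_apply,
      LinearMap.comp_apply, LinearMap.id_apply]
    simp only [map_add, map_smul, ttt, smul_zero, add_zero, add_sub_cancel_right]
  rw [zp, fV_eq, polC_eq, polC_eq, appC_eq, appC_eq, appC_eq, appC_eq, app_lin, app_lin, app_lin,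
    app_lin, mulF_eq, mul_eq, M6.of_eq (co ε)]
  simp only [app_six, ← hn]
  rw [mulF_eq, mul_eq]
  simp only [e₂]
  exact M6.of_eq g

theorem part₂ (hε : ε ≠ 0) (hS : IsSylowIn 3 R Γ) (hK : K4 ε Γ) (hγ : γ ∈ Γ) (h : Nr ε γ)
    (hY : ¬ St γ vY5) : ∃ m, x1m (m + 1) ∈ Γ ∧ x2m m ∈ Γ := by
  obtain ⟨z', hz⟩ : ∃ z', z' = γ * u 0 0 1 * γ⁻¹ := ⟨_, rfl⟩
  have hc := hz ▸ comm_z h
  have hz' : z' ∈ Γ := hz ▸ mul_mem (mul_mem hγ (hS.le (u_mem 0 0 1))) (inv_mem hγ)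
  have tt : ∀ v, γ (t ε (t ε v)) = t ε (t ε (γ v)) := fun v => by
    rcases h with h | h
    · rw [comm_t h, comm_t h]
    · rw [u_inv] at h
      rw [t_apply, map_act_sub h, t_apply ε v, map_act_sub h]
      exact (t_mem' ε hε _).2.2
  obtain ⟨n, n_apply⟩ : ∃ n : GV → V →ₗ[K] V, ∀ g v, n g v = g v + ε • t ε (t ε (g v)) - v :=
    ⟨fun g => g.toLinearMap + ε • t ε ∘ₗ t ε ∘ₗ g.toLinearMap - LinearMap.id, fun _ _ => rfl⟩
  have e : ∀ v, n z' (γ v) = γ (n (u 0 0 1) v) := fun v => by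
    simp only [n_apply, hz, GV.mul_apply, GV.inv_apply_apply, map_sub, map_add, map_smul, tt]
  have k₁ : ∀ ε : K, ε ≠ 0 → ∀ v, (let w := act 0 0 1 v + ε • t ε (t ε (act 0 0 1 v)) - v
      act 0 0 1 w + ε • t ε (t ε (act 0 0 1 w)) - w = 0 ∧ w + v.f • e0 ε ∈ vT ε) := by
    decide +kernel
  have nn : ∀ v, n z' (n z' v) = 0 := fun v => by
    rw [← GV.apply_inv_apply γ v, e, e]
    simp only [n_apply, u_apply]
    exact (congrArg γ (k₁ ε hε _).1).trans (map_zero _)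
  have nt : ∀ v, n z' (t ε v) = t ε (n z' v) := fun v => by
    simp only [n_apply, comm_t hc, map_sub, map_add, map_smul]
  obtain ⟨w, hw⟩ : ∃ w, w = n z' (e0 ε) := ⟨_, rfl⟩
  have hf : w.f ≠ 0 := fun h0 => by
    have h₁ := (st_T hε h _ (k₁ ε hε (γ⁻¹ (e0 ε))).2).1
    rw [map_add, map_smul] at h₁
    have h₂ := e (γ⁻¹ (e0 ε))
    rw [GV.apply_inv_apply, ← hw, n_apply, u_apply] at h₂
    rw [← h₂, V.add_f, h0, zero_add, V.smul_f, mul_eq_zero] at h₁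
    exact hY (h₁.elim (fun h₁ => by simpa using (st_Y5 hε (st_T hε h).inv h₁).inv)
      (st_Y5 hε (st_T hε h)))
  have nv : ∀ v, n z' v = pol ε (co ε v) w + pol ε (sh (co ε v)) (n z' ef) := fun v => by
    conv_lhs => rw [dec hε v, map_add, map_pol nt, map_pol nt, ← hw]
  have hw' : pol ε (pinv (co ε w)) (pol ε (co ε w) w) = n z' ef := by
    have := nn (e0 ε)
    rw [← hw, nv, add_eq_zero_iff_eq_neg] at this
    rw [this, pol_neg, pol_pinv ε (p := co ε w) hf, neg_neg]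
  have hs : of z' = zp ε w := zp_eq (n z') (hw'.symm ▸ nv) (fun v => by rw [n_apply]) hε
  have hz1 := hS.le (u_mem 0 0 1)
  have hzc : Commute (u 0 0 1) (u 1 ε 0) := by simp [Commute, SemiconjBy, u_mul]
  have p4_of : ∀ g : GV, p4 (of g) = of (g ^ 4 : GV) := fun g => by
    rw [p4, mulF_eq, mulF_eq, ← of_mul, ← of_mul, ← pow_two, ← pow_two, ← pow_mul]
  obtain ⟨k, j, a, hk⟩ := key₁ ε hε w hf
    (by
      rw [← hs, mulF_eq]
      exact (of_mul (u 0 0 1) z') ▸ p4_of _ ▸ kok hε hK (pow_mem (mul_mem hz1 hz') 4)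
        ((hzc.mul_left hc).pow_left 4))
    (by
      rw [← hs, prodF_eq]
      exact (of_prod [u 0 0 1, z', z']) ▸ p4_of _ ▸ kok hε hK
        (pow_mem (list_prod_mem (by simp [hz1, hz'])) 4)
        (Commute.pow_left (Commute.list_prod_left _ _ (by simpa using ⟨hzc, hc⟩)) 4))
  have hin : InM Γ (zp ε (w0 ε j a)) := by
    rw [← hk, prodF_eq, ← hs]
    exact InM.prod (by simp [inM_u hS, InM.of_mem hz'])
  have hev : ∀ l, InM Γ (ev (zp ε (w0 ε j a)) l) := fun l => by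
    rw [ev, prodF_eq]
    refine InM.prod fun m hm => ?_
    obtain ⟨i, -, rfl⟩ := List.mem_map.1 hm
    have : InM Γ (mulF (zp ε (w0 ε j a)) (zp ε (w0 ε j a))) := by
      obtain ⟨g, hg, e⟩ := hin
      exact ⟨_, mul_mem hg hg, by rw [of_mul, mulF_eq, e]⟩
    rcases i with _ | _ | _ | _ | _ | _ | i <;> simp [inM_u hS, hin, this]
  have h9 : ∀ l, ¬ O9 (ev (zp ε (w0 ε j a)) l) := fun l H => by
    simp only [O9, prodF_eq] at H
    exact H.2 ((((hev l).ok hS).2 (H.1.trans (M6.of_eq id).symm)).trans (M6.of_eq id))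
  obtain rfl : j = 0 := by
    by_contra hj
    simpa [h9] using key₂ ε j a hε hj
  rcases K_cases ε with rfl | rfl | rfl
  · exact absurd rfl hε
  · exact ⟨a, InM.mem ((key₃ a).1.1 ▸ hev _), InM.mem ((key₃ a).1.2 ▸ hev _)⟩
  · exact ⟨-a, InM.mem ((key₃ a).2.1 ▸ hev _), InM.mem ((key₃ a).2.2 ▸ hev _)⟩

end L4

theorem l4 : L4Stmt := by
  intro ε hε
  obtain ⟨w, hw, hc, hk⟩ : ∃ w ∈ closure ((R : Set GV) ∪ {x1m 1, x2m 0}),
      w * u 1 ε 0 = u 1 ε 0 * w ∧ ∀ v : V, v.f ≠ 0 → ∃ k, (w (act 0 0 k v)).f = 0 := by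
    have h₁ : ∀ x y z, u x y z ∈ closure ((R : Set GV) ∪ {x1m 1, x2m 0}) := fun x y z =>
      subset_closure (.inl (u_mem x y z))
    have h₂ : x1m 1 ∈ closure ((R : Set GV) ∪ {x1m 1, x2m 0}) := subset_closure (by simp)
    have h₃ : x2m 0 ∈ closure ((R : Set GV) ∪ {x1m 1, x2m 0}) := subset_closure (by simp)
    generalize closure ((R : Set GV) ∪ {x1m 1, x2m 0}) = C at h₁ h₂ h₃ ⊢
    rcases K_cases ε with rfl | rfl | rfl
    · exact absurd rfl hε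
    · refine ⟨[u 1 0 0, x2m 0, (x1m 1)⁻¹, u 1 0 0, x2m 0, x1m 1, x2m 0, x1m 1].prod,
        list_prod_mem (by simp [h₁, h₂, h₃]), of_inj ?_, ?_⟩
      · rw [of_mul, of_mul, of_prod]; decide +kernel
      · simp only [← app_of, of_prod]; decide +kernel
    · refine ⟨[(x1m 1)⁻¹, x2m 0, (x1m 1)⁻¹, x2m 0, x1m 1, u (-1) 0 0, x1m 1, x2m 0].prod,
        list_prod_mem (by simp [h₁, h₂, h₃]), of_inj ?_, ?_⟩
      · rw [of_mul, of_mul, of_prod]; decide +kernel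
      · simp only [← app_of, of_prod]; decide +kernel
  refine ⟨w, hw, hc, fun Γ hS hK γ hγ h => ⟨L4.part₁ hε hS hK hγ h, L4.part₂ hε hS hK hγ h, ?_⟩⟩
  by_cases hf : (γ (L4.e0 ε)).f = 0
  · exact .inl (L4.st_Y5 hε (L4.st_T hε h) hf)
  · refine .inr ((hk _ hf).imp fun k hk => L4.st_Y5 hε (((L4.st_T hε (.inl hc)).mul
      (L4.st_T hε (.inl (by simp [u_mul])))).mul (L4.st_T hε h)) hk)

end Cfsg.Agent.C1
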