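import Cfsg.Agent.Lib.C1.Lin
import Cfsg.Agent.Lib.C1.Fast

/-!
Row L4: the normaliser of a regular unipotent element.
-/

set_option autoImplicit false
set_option linter.style.haveILetI false
set_option linter.unusedSimpArgs false

namespace Cfsg.Agent.C1

open Cfsg.Agent.Fus Subgroup M6

attribute [local irreducible] M6.of M6.mul

namespace L4

/-- `t = r - 1`. -/
def t (ε : K) : V →ₗ[K] V := (u 1 ε 0).toLinearMap - LinearMap.id

theorem t_apply (ε : K) (v : V) : t ε v = act 1 ε 0 v - v := rfl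

def pol (ε : K) (p : V) (v : V) : V := p.a • v + p.b • t ε v + p.c • t ε (t ε v)

def e0 (ε : K) : V := ⟨0, 0, 1, ε, 0, 0⟩

/-- Coordinates in the basis `tⁱ e₀, tⁱ e₃²`. -/
def co (ε : K) (v : V) : V :=
  ⟨2 * v.c + 2 * ε * v.d + v.e, 2 * ε * v.b + v.c + 2 * ε * v.d + v.e, ε * v.a + ε * v.b,
    v.f, ε * v.e, 2 * ε * v.c + v.d + 2 * ε * v.e⟩

def sh (p : V) : V := ⟨p.d, p.e, p.f, 0, 0, 0⟩

def pinv (p : V) : V := ⟨-p.d, p.e, p.f - p.d * p.e * p.e, 0, 0, 0⟩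

noncomputable def polC {α : Type} (ε : K) (p v : V) (g : V → α) : α :=
  (of (t ε)).appC v fun v₁ => (of (t ε)).appC v₁ fun v₂ =>
    appC ⟨v, v₁, v₂, 0, 0, 0⟩ ⟨p.a, p.b, p.c, 0, 0, 0⟩ g

/-- The candidate for a conjugate of `z`. -/
noncomputable def zp (ε : K) (w : V) : M6 :=
  fV (co ε w) fun c => polC ε c w fun a => polC ε (pinv c) a fun w' =>
    (of (t ε)).appC w fun w₁ => (of (t ε)).appC w₁ fun w₂ =>
    (of (t ε)).appC w' fun w₁' => (of (t ε)).appC w₁' fun w₂' =>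
    M6.casesOn (mulF ⟨w, w₁, w₂, w', w₁', w₂'⟩ (of (co ε))) fun a b c d e f =>
    mulF (of fun v => v - ε • t ε (t ε v)) ⟨ea + a, eb + b, ec + c, ed + d, ee + e, ef + f⟩

def w0 (ε j a : K) : V := pol ε ⟨1, 1, 1, 0, 0, 0⟩ (ef + pol ε ⟨0, j, a, 0, 0, 0⟩ (e0 ε))

def Kok (ε : K) (m : M6) : Prop :=
  m.app (e0 ε) - e0 ε ∈ vT ε ∧ m.f - ef ∈ vT ε →
    m = one ∨ m = of (act 1 ε 0) ∨ m = of (act (-1) (-ε) ε)

instance (ε : K) : DecidablePred (Kok ε) := fun _ => by unfold Kok; infer_instance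

noncomputable def p4 (m : M6) : M6 := mulF (mulF m m) (mulF m m)

noncomputable def ev (s : M6) (l : List ℕ) : M6 := prodF (l.map fun i =>
  [of (act 1 0 0), of (act (-1) 0 0), of (act 0 1 0), of (act 0 (-1) 0), s, mulF s s].getD i s)

def O9 (m : M6) : Prop :=
  prodF [prodF [m, m, m], prodF [m, m, m], prodF [m, m, m]] = one ∧ prodF [m, m, m] ≠ one

noncomputable instance : DecidablePred O9 := fun _ => by unfold O9; infer_instance

theorem key₁ : ∀ ε : K, ε ≠ 0 → ∀ w : V, w.f ≠ 0 → let s := zp ε w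
    Kok ε (p4 (mulF (of (act 0 0 1)) s)) → Kok ε (p4 (prodF [of (act 0 0 1), s, s])) →
    ∃ k j a, prodF [of (act 0 0 k), s, of (act 0 0 (-k))] = zp ε (w0 ε j a) := by
  decide +kernel

theorem key₂ : ∀ ε j a : K, ε ≠ 0 → j ≠ 0 → let s := zp ε (w0 ε j a)
    O9 (ev s [5, 3, 4, 3, 4, 1]) ∨ O9 (ev s [5, 3, 4, 1, 4, 1]) ∨
      O9 (ev s [5, 1, 5, 1, 4, 2]) ∨ O9 (ev s [5, 1, 4, 2, 5, 2]) := by decide +kernel

theorem key₃ : ∀ a : K, (let s := zp 1 (w0 1 0 a)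
    of (x1m (a + 1)) = ev s [0, 5, 1, 5, 1, 5, 0, 4, 1, 4, 1, 4] ∧
      of (x2m a) = ev s [4, 3, 4, 0, 4, 1, 5, 3, 5, 0, 5]) ∧
    (let s := zp (-1) (w0 (-1) 0 a)
    of (x1m (-a + 1)) = ev s [0, 4, 1, 4, 1, 4, 0, 5, 1, 5, 1, 5] ∧
      of (x2m (-a)) = ev s [5, 1, 5, 3, 5, 0, 4, 1, 4, 3, 4]) := by decide +kernel

end L4

end Cfsg.Agent.C1
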