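import Cfsg.Agent.Lib.C1.Basic

/-!
Rows L1, L2, L12: the normalisers of `A₁`, `A₂`; the duality.
-/

set_option autoImplicit false
set_option linter.style.haveILetI false
set_option linter.unusedSimpArgs false

namespace Cfsg.Agent.C1

open Cfsg.Agent.Fus Subgroup M6

attribute [local irreducible] M6.of M6.mul

instance : DecidablePred (· ∈ vY5) := fun _ => decidable_of_iff _ mem_vY5.symm
instance : DecidablePred (· ∈ vY4) := fun _ => decidable_of_iff _ mem_vY4.symm
instance : DecidablePred (· ∈ vW) := fun _ => decidable_of_iff _ mem_vW.symm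
instance : DecidablePred (· ∈ vU) := fun _ => decidable_of_iff _ mem_vU.symm
instance : DecidablePred (· ∈ vY2) := fun _ => decidable_of_iff _ mem_vY2.symm
instance : DecidablePred (· ∈ vZ) := fun _ => decidable_of_iff _ mem_vZ.symm
instance (ε : K) : DecidablePred (· ∈ vT ε) := fun _ => decidable_of_iff _ mem_vT.symm

/-- `m` is the matrix of an element of `Γ`. -/
def InM (Γ : Subgroup GV) (m : M6) : Prop := ∃ g ∈ Γ, of g = m

/-- Unitriangular matrices lie in `R`, and there are no elements of order nine. -/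
def Ok (m : M6) : Prop :=
  (m.a = ea ∧ m.b - eb ∈ vZ ∧ m.c - ec ∈ vY2 ∧ m.d - ed ∈ vY2 ∧ m.e - ee ∈ vY4 ∧ m.f - ef ∈ vY5 →
    m = of (act m.e.c m.f.e m.f.c)) ∧
  (M6.prod [M6.prod [m, m, m], M6.prod [m, m, m], M6.prod [m, m, m]] = of id →
    M6.prod [m, m, m] = of id)

instance : DecidablePred Ok := fun _ => by unfold Ok; infer_instance

variable {Γ : Subgroup GV} {γ : GV}

theorem InM.of_mem {g : GV} (h : g ∈ Γ) : InM Γ (of g) := ⟨g, h, rfl⟩

theorem InM.mem {g : GV} (h : InM Γ (of g)) : g ∈ Γ := by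
  obtain ⟨g', h, e⟩ := h
  exact of_inj e ▸ h

theorem InM.prod {l : List M6} (h : ∀ m ∈ l, InM Γ m) : InM Γ (M6.prod l) := by
  induction l with
  | nil => exact ⟨1, one_mem _, rfl⟩
  | cons m l ih =>
    obtain ⟨g, hg, rfl⟩ := h m (by simp)
    obtain ⟨g', hg', e⟩ := ih fun m hm => h m (by simp [hm])
    exact ⟨_, mul_mem hg hg', by rw [of_mul, e]; rfl⟩

theorem inM_u (h : IsSylowIn 3 R Γ) (x y z : K) : InM Γ (of (act x y z)) :=
  InM.of_mem (h.le (u_mem x y z))

theorem InM.ok (hS : IsSylowIn 3 R Γ) {m : M6} (h : InM Γ m) : Ok m := by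
  obtain ⟨g, hg, rfl⟩ := h
  constructor
  · rw [of_eq]
    rintro ⟨h₁, h₂, h₃, h₄, h₅, h₆⟩
    have e : ∀ v, g v - v = v.a • (g ea - ea) + v.b • (g eb - eb) + v.c • (g ec - ec) +
        v.d • (g ed - ed) + v.e • (g ee - ee) + v.f • (g ef - ef) := fun v => by
      conv_lhs => rw [v.decomp]
      simp only [map_add, map_smul, smul_sub]
      abel
    dsimp only at h₁ h₂ h₃ h₄ h₅ h₆
    have hU : g ∈ UT := by
      refine mem_UT.2 ⟨fun v => ?_, fun v hv => ?_, fun v hv => ?_, fun v hv => ?_,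
        fun v hv => sub_eq_zero.1 ?_⟩
      all_goals
        rw [e]
        clear e
        generalize g eb - eb = b, g ec - ec = c, g ed - ed = d, g ee - ee = e, g ef - ef = f at *
        simp_all only [mem_vZ, mem_vY2, mem_vY4, mem_vY5, V.add_f, V.add_e, V.add_d, V.add_c,
          V.add_b, V.smul_f, V.smul_e, V.smul_d, V.smul_c, V.smul_b, sub_self, smul_zero, zero_smul]
        simp
    obtain ⟨x, y, z, rfl⟩ := mem_R.1 (mem_R_of_UT hS hg hU)
    dsimp only
    rw [show (u x y z ee).c = x by simp [u_apply, act, ee],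
      show (u x y z ef).e = y by simp [u_apply, act, ef],
      show (u x y z ef).c = z by simp [u_apply, act, ef]]
    exact (M6.of_eq _).symm
  · have e : M6.prod [of g, of g, of g] = of (g ^ 3 : GV) := by
      rw [show g ^ 3 = [g, g, g].prod by simp [pow_succ, mul_assoc], of_prod]; rfl
    rw [e]
    intro h
    have h9 : g ^ 9 = 1 := of_inj (by
      rw [show g ^ 9 = [g ^ 3, g ^ 3, g ^ 3].prod by simp [← pow_add], of_prod]; exact h)
    rw [cube_of_syl hS hg h9]; rfl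

theorem st_vZ (h : γ ea ∈ vZ) : St γ vZ := fun v hv => by
  have : v = v.a • ea := by
    ext <;> simp [ea, hv.1, hv.2.1, hv.2.2.1, hv.2.2.2.1, hv.2.2.2.2]
  rw [this, map_smul]
  exact vZ.smul_mem _ h

theorem map_act_sub {x y z x' y' z' : K} (h : γ * u x y z = u x' y' z' * γ) (v : V) :
    γ (act x y z v - v) = act x' y' z' (γ v) - γ v := by
  rw [map_sub]; exact congrArg (· - γ v) (LinearEquiv.congr_fun h v)

theorem map_ea {y z : K} (h : γ * u 0 0 1 = u 0 y z * γ) :
    γ ea = (γ ef).f • (⟨z * z, y * z, 0, y * y, 0, 0⟩ : V) := by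
  rw [show ea = -(act 0 0 1 (act 0 0 1 ef - ef) - (act 0 0 1 ef - ef)) by decide, map_neg,
    map_act_sub h, map_act_sub h]
  ext <;> simp [act]
  · linear_combination (-(γ ef).f * z * z) * three
  · linear_combination (-(γ ef).f * y * z) * three
  · linear_combination (-(γ ef).f * y * y) * three

/-- `e₃² ↦ e₃² + q`. -/
def nq (a b d : K) : GV := mkA (fun v => v + v.f • ⟨a, b, 0, d, 0, 0⟩)
  (fun v => v - v.f • ⟨a, b, 0, d, 0, 0⟩) (fun v w => by ext <;> simp <;> ring)
  (fun v => by ext <;> simp) fun v => by ext <;> simp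

theorem nq_comm (a b d y z : K) : nq a b d * u 0 y z = u 0 y z * nq a b d :=
  LinearEquiv.ext fun v => by ext <;> simp [GV.mul_apply, nq, u_apply, act] <;> ring

theorem x1m_mul (y z : K) : x1m 0 * u 0 y z = u 0 (y + z) z * x1m 0 :=
  LinearEquiv.ext fun v => by ext <;> simp [GV.mul_apply, x1m, x1F, u_apply, act] <;> ring

theorem u_pow (y z : K) (n : ℕ) : u 0 y z ^ n = u 0 (n * y) (n * z) := by
  induction n with
  | zero => simp [u_zero]
  | succ n ih => simp [pow_succ, ih, u_mul, add_mul]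

theorem x1m_of (hS : IsSylowIn 3 R Γ) {p : GV} (hp : p ∈ Γ) (h3 : p ^ 3 = 1)
    (hy : p * u 0 1 0 = u 0 1 0 * p) (hz : p * u 0 0 1 = u 0 1 1 * p) : ∃ l, x1m l ∈ Γ := by
  obtain ⟨g, rfl⟩ : ∃ g, p = x1m 0 * g := ⟨(x1m 0)⁻¹ * p, by group⟩
  have gy : g * u 0 1 0 = u 0 1 0 * g := by
    have := x1m_mul 1 0
    rw [add_zero] at this
    rwa [← mul_assoc, ← this, mul_assoc, mul_assoc, mul_right_inj] at hy
  have gz : g * u 0 0 1 = u 0 0 1 * g := by
    have := x1m_mul 0 1
    rw [zero_add] at this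
    rwa [← mul_assoc, ← this, mul_assoc, mul_assoc, mul_right_inj] at hz
  have hf : ∀ v, ((x1m 0 * g) v).f = (g ef).f * v.f := fun v => by
    have := (st_of_z gz).2.2.2.2.2 (v - v.f • ef) (by simp [mem_vY5, ef])
    rw [map_sub, map_smul, mem_vY5] at this
    exact (sub_eq_zero.1 this).trans (mul_comm _ _)
  have h1 : (g ef).f = 1 := by
    have := congrArg V.f (LinearEquiv.congr_fun h3 ef)
    rw [pow_succ, sq, GV.mul_apply, GV.mul_apply, hf, hf, hf] at this
    revert this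
    generalize (g ef).f = k
    revert k; decide
  have cm : ∀ y z y' z' : K, u 0 y z * u 0 y' z' = u 0 y' z' * u 0 y z := fun y z y' z' => by
    simp [u_mul, add_comm]
  obtain ⟨a, b, d, e⟩ : ∃ a b d, u 0 (-(g ef).e) (-(g ef).c) * g = nq a b d :=
    ⟨(u 0 (-(g ef).e) (-(g ef).c) (g ef)).a, (u 0 (-(g ef).e) (-(g ef).c) (g ef)).b,
      (u 0 (-(g ef).e) (-(g ef).c) (g ef)).d,
      eq_of_comm (by rw [mul_assoc, gy, ← mul_assoc, cm, mul_assoc])
      (by rw [mul_assoc, gz, ← mul_assoc, cm, mul_assoc]) (nq_comm ..) (nq_comm ..) (by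
        rw [GV.mul_apply]
        generalize g ef = c at h1
        ext <;> simp [nq, u_apply, act, ef, h1])⟩
  have hq : InM Γ (prod [of (x1m 0), of (nq a b d)]) := ⟨[x1m 0, nq a b d].prod, by
    have := mul_mem (hS.le (u_mem 0 (-(g ef).e + -(g ef).c) (-(g ef).c))) hp
    rw [← mul_assoc, ← x1m_mul, mul_assoc, e] at this
    simpa using this, of_prod _⟩
  have key : ∀ a b d : K, let m := prod [of (x1m 0), of (nq a b d)]
      let n := prod [of (act 1 0 0), m]
      Ok (prod [m, m, m]) → Ok (prod [n, n, n, n]) → ∃ l, of (x1m l) = m := by decide +kernel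
  have hn : InM Γ (prod [of (act 1 0 0), _]) := InM.prod (by simpa using ⟨inM_u hS 1 0 0, hq⟩)
  obtain ⟨l, hl⟩ := key a b d ((InM.prod (by simpa using hq)).ok hS)
    ((InM.prod (by simpa using hn)).ok hS)
  exact ⟨l, InM.mem (hl ▸ hq)⟩

theorem l1 : L1Stmt := by
  intro Γ hS γ hγ hN
  obtain ⟨y, z, h⟩ := hN 0 1
  have hf : (γ ef).f ≠ 0 := fun e => by
    have := map_ea h
    rw [e, zero_smul, map_eq_zero_iff _ γ.injective] at this
    exact absurd this (by decide)
  have hy : St γ vZ ↔ y = 0 := ⟨fun H => by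
    have := (H ea (by decide)).2.2.2.1
    rw [map_ea h] at this
    simpa [hf] using this, by rintro rfl; exact (st_of_z h).1⟩
  refine ⟨fun H => nr_of_z hS hγ (hy.1 H ▸ h), fun H => ?_, or_iff_not_imp_left.2 fun H l => ?_⟩
  · replace hy := mt hy.2 H
    obtain ⟨δ, hδ, h₁, p, q, h₂⟩ : ∃ δ ∈ Γ, δ * u 0 0 1 = u 0 y 0 * δ ∧
        ∃ p q, δ * u 0 1 0 = u 0 p q * δ := by
      obtain ⟨p, q, h₂⟩ := hN 1 0
      refine ⟨_, mul_mem (hS.le (u_mem (-(z * y)) 0 0)) hγ, ?_, p, q - z * y * p, ?_⟩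
      · rw [mul_assoc, h, ← mul_assoc, ← mul_assoc, u_mul, u_mul]
        congr 2 <;> simp
        linear_combination (-z) * K_sq hy
      · rw [mul_assoc, h₂, ← mul_assoc, ← mul_assoc, u_mul, u_mul]
        congr 2 <;> simp
        ring
    replace h₁ : δ * u 0 0 1 * δ⁻¹ = u 0 y 0 := by rw [h₁, mul_inv_cancel_right]
    replace h₂ : δ * u 0 1 0 * δ⁻¹ = u 0 p q := by rw [h₂, mul_inv_cancel_right]
    have h₃ : ∀ i j : K, δ * u 0 i j * δ⁻¹ = u 0 (i * p + j * y) (i * q) := fun i j => by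
      have : u 0 i j = u 0 1 0 ^ i.val * u 0 0 1 ^ j.val := by simp [u_pow, u_mul]
      rw [this, ← conj_mul, ← conj_pow, ← conj_pow, h₁, h₂]
      simp [u_pow, u_mul]
    have hq : q ≠ 0 := by
      rintro rfl
      have := h₃ 1 (-(p * y))
      rw [show 1 * p + -(p * y) * y = 0 by linear_combination (-p) * K_sq hy, mul_zero, u_zero,
        conj_eq_one_iff, u_eq_one] at this
      exact one_ne_zero this.2.1
    have h₄ : ∀ k i j : K, δ * u k 0 0 * δ⁻¹ * u 0 (i * p + j * y) (i * q) =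
        u 0 (i * p + (j + k * i) * y) (i * q) * (δ * u k 0 0 * δ⁻¹) := fun k i j => by
      rw [← h₃, ← h₃, conj_mul, conj_mul, u_mul, u_mul]; simp
    refine x1m_of hS (mul_mem (mul_mem hδ (hS.le (u_mem (y * q) 0 0))) (inv_mem hδ))
      (by rw [conj_pow, u_cube, conj_eq_one_iff]) ?_ ?_
    · simpa [K_sq hy] using h₄ (y * q) 0 y
    · convert h₄ (y * q) q (-(q * p * y)) using 3
      · linear_combination (q * p) * K_sq hy
      · exact (K_sq hq).symm
      · linear_combination (q * p - q * q) * K_sq hy - K_sq hq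
      · exact (K_sq hq).symm
  · have key : ∀ f y z l : K, y ≠ 0 →
        ∃ k, x1F l (act k 0 0 (f • (⟨z * z, y * z, 0, y * y, 0, 0⟩ : V))) ∈ vZ := by decide +kernel
    obtain ⟨k, hk⟩ := key (γ ef).f y z l (mt hy.2 H)
    exact ⟨k, st_vZ (by rwa [← map_ea h] at hk)⟩

/-! ### Duality -/

/-- The trace form. -/
def bf (v w : V) : K :=
  v.a * w.f + v.f * w.a - (v.b * w.e + v.e * w.b) - v.c * w.c + v.d * w.d

theorem bf_comm (v w : V) : bf v w = bf w v := by simp [bf]; ring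

theorem bf_ext {v v' : V} (h : ∀ w, bf v w = bf v' w) : v = v' := by
  have h₁ := h ea; have h₂ := h eb; have h₃ := h ec; have h₄ := h ed; have h₅ := h ee
  have h₆ := h ef
  simp [bf, ea, eb, ec, ed, ee, ef] at h₁ h₂ h₃ h₄ h₅ h₆
  ext <;> assumption

/-- The adjoint. -/
def adj (g : V → V) (v : V) : V :=
  ⟨bf v (g ef), -bf v (g ee), -bf v (g ec), bf v (g ed), -bf v (g eb), bf v (g ea)⟩

theorem bf_adj (g : GV) (v w : V) : bf (adj g v) w = bf v (g w) := by
  conv_rhs => rw [w.decomp]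
  simp only [map_add, map_smul]
  simp [bf, adj]; ring

def dualF (g : GV) : GV := mkA (adj (g⁻¹ : GV)) (adj g)
  (fun v w => by ext <;> simp [adj, bf] <;> ring)
  (fun v => bf_ext fun w => by simp [bf_adj]) fun v => bf_ext fun w => by simp [bf_adj]

theorem bf_dualF (g : GV) (v w : V) : bf (dualF g v) w = bf v (g⁻¹ w) := bf_adj _ v w

theorem dualF_dualF (g : GV) : dualF (dualF g) = g := LinearEquiv.ext fun v => bf_ext fun w => by
  rw [bf_dualF, bf_comm, bf_comm (g v)]; exact bf_adj g w v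

/-- The inverse-adjoint automorphism. -/
def dual : GV ≃* GV where
  toFun := dualF
  invFun := dualF
  left_inv := dualF_dualF
  right_inv := dualF_dualF
  map_mul' g h := LinearEquiv.ext fun v => bf_ext fun w => by
    rw [GV.mul_apply, bf_dualF, bf_dualF, bf_dualF, mul_inv_rev, GV.mul_apply]

theorem bf_dual (g : GV) (v w : V) : bf (dual g v) w = bf v (g⁻¹ w) := bf_adj _ v w

@[simp] theorem dual_dual (g : GV) : dual (dual g) = g := dualF_dualF g

theorem dual_u (x y z : K) : dual (u x y z) = u (-y) (-x) (x * y - z) :=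
  of_inj (by revert x y z; decide +kernel)

theorem dual_x1m : ∀ l, dual (x1m l) = (x2m (-l))⁻¹ := fun l => of_inj (by revert l; decide +kernel)

theorem dual_mem_R {g : GV} (h : g ∈ R) : dual g ∈ R := by
  obtain ⟨x, y, z, rfl⟩ := mem_R.1 h
  exact dual_u x y z ▸ u_mem _ _ _

/-- The dual group. -/
def dl (Γ : Subgroup GV) : Subgroup GV := Γ.map dual.toMonoidHom

theorem mem_dl {g : GV} : g ∈ dl Γ ↔ dual g ∈ Γ := mem_map_equiv

theorem dl_R : dl R = R :=
  Subgroup.ext fun g => mem_dl.trans ⟨fun h => dual_dual g ▸ dual_mem_R h, dual_mem_R⟩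

theorem syl_dl (h : IsSylowIn 3 R Γ) : IsSylowIn 3 R (dl Γ) := dl_R ▸ h.map_equiv dual

theorem St.dual {A B : Submodule K V} (h : ∀ v, v ∈ B ↔ ∀ w ∈ A, bf v w = 0) (hγ : St γ A) :
    St (dual γ) B := fun v hv => (h _).2 fun w hw => by
  rw [bf_dual]; exact (h v).1 hv _ (hγ.inv w hw)

theorem perp_Y5 (v : V) : v ∈ vZ ↔ ∀ w ∈ vY5, bf v w = 0 :=
  ⟨fun h w hw => by simp_all [bf, mem_vZ, mem_vY5], fun h => by
    have h₁ := h ea rfl; have h₂ := h eb rfl; have h₃ := h ec rfl; have h₄ := h ed rfl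
    have h₅ := h ee rfl
    simp_all [bf, ea, eb, ec, ed, ee, mem_vZ]⟩

theorem perp_Z (v : V) : v ∈ vY5 ↔ ∀ w ∈ vZ, bf v w = 0 :=
  ⟨fun h w hw => by simp_all [bf, mem_vZ, mem_vY5], fun h => by
    simpa [bf, ea, mem_vY5] using h ea (by decide)⟩

theorem perp_U (v : V) : v ∈ vW ↔ ∀ w ∈ vU, bf v w = 0 :=
  ⟨fun h w hw => by simp_all [bf, mem_vU, mem_vW], fun h => by
    have h₁ := h ea (by decide); have h₂ := h eb (by decide); have h₃ := h ec (by decide)
    simp_all [bf, ea, eb, ec, mem_vW]⟩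

theorem perp_W (v : V) : v ∈ vU ↔ ∀ w ∈ vW, bf v w = 0 :=
  ⟨fun h w hw => by simp_all [bf, mem_vU, mem_vW], fun h => by
    have h₁ := h ea (by decide); have h₂ := h eb (by decide); have h₃ := h ed (by decide)
    simp_all [bf, ea, eb, ed, mem_vU]⟩

theorem l2 : L2Stmt := by
  intro Γ hS γ hγ hN
  obtain ⟨h₁, h₂, -⟩ := l1 (dl Γ) (syl_dl hS) (dual γ) (mem_dl.2 (by simpa)) fun y z => by
    obtain ⟨x', z', e⟩ := hN (-y) (-z)
    exact ⟨-x', -z', by simpa [dual_u] using congrArg dual e⟩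
  refine ⟨fun H s => ?_, fun H => ?_, ?_⟩
  · obtain ⟨t, ht⟩ := dual_mem_R ⟨s, rfl⟩
    obtain ⟨t', e⟩ := h₁ (H.dual perp_Y5) t
    obtain ⟨s', hs'⟩ := dual_mem_R ⟨t', rfl⟩
    exact ⟨s', by simpa [ht, hs'] using congrArg dual e⟩
  · obtain ⟨l, hl⟩ := h₂ fun h => H (by simpa using h.dual perp_Z)
    rw [mem_dl, dual_x1m] at hl
    exact ⟨_, by simpa using hl⟩
  · obtain ⟨x, z, h⟩ := hN 0 1
    by_cases hx : x = 0
    · exact .inl (st_of_z (hx ▸ h)).2.2.2.2.2
    have key : ∀ x z m : K, x ≠ 0 → ∃ k, ∀ d e f : K, x * x * d + 2 * x * z * e + z * z * f = 0 →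
        d + 2 * k * e + k * k * f + 2 * (e + k * f) + f = 0 := by decide
    refine .inr fun m => (key x z m hx).imp fun k hk v hv => hk _ _ _ ?_
    have := map_act_sub h (act 0 0 1 v - v)
    rw [show act 0 0 1 (act 0 0 1 v - v) - (act 0 0 1 v - v) = 0 by
      ext <;> simp [act, mem_vY5.1 hv], map_zero, map_act_sub h] at this
    have := congrArg V.a this
    simp [act] at this
    linear_combination this + (x * x * (γ v).d + 2 * x * z * (γ v).e + z * z * (γ v).f) * three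

theorem l12 : L12Stmt := by
  intro Γ hS
  have hx := inM_u hS 1 0 0
  have hy := inM_u hS 0 1 0
  refine ⟨fun l hl => ⟨?_, fun l' hl' => ?_⟩, fun m hm => ⟨?_, fun m' hm' => ?_⟩, fun l hl hm => ?_⟩
  · have key : ∀ l, of (dV 1 (-1) 1) = prod [of (act 1 0 0), of (x1m l), of (act 1 0 0), of (x1m l)] := by
      decide +kernel
    exact InM.mem (key l ▸ InM.prod (by simp [hx, InM.of_mem hl]))
  · have key : ∀ l l', Ok (of ((x1m l)⁻¹ * x1m l' : GV)) → l' = l := by decide +kernel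
    exact key l l' ((InM.of_mem (mul_mem (inv_mem hl) hl')).ok hS)
  · have key : ∀ m, of (dV (-1) 1 1) = prod [of (act 0 1 0), of (x2m m), of (act 0 1 0), of (x2m m)] := by
      decide +kernel
    exact InM.mem (key m ▸ InM.prod (by simp [hy, InM.of_mem hm]))
  · have key : ∀ l l', Ok (of ((x2m l)⁻¹ * x2m l' : GV)) → l' = l := by decide +kernel
    exact key m m' ((InM.of_mem (mul_mem (inv_mem hm) hm')).ok hS)
  · rcases K_cases l with rfl | rfl | rfl
    · exact .inl rfl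
    · refine .inr ⟨rfl, ?_⟩
      have key : dV 1 1 (-1) = [u 1 0 0, x2m 0, (x1m 1)⁻¹, x2m 0, (u 0 1 0)⁻¹, (x1m 1)⁻¹, x2m 0,
          x1m 1, x2m 0, x1m 1, (u 0 0 1)⁻¹, (x2m 0)⁻¹, (x1m 1)⁻¹, (x2m 0)⁻¹, (x1m 1)⁻¹].prod :=
        of_inj (by rw [of_prod]; decide +kernel)
      exact key ▸ list_prod_mem (by simp [hl, hm, hS.le (u_mem _ _ _)])
    · exact absurd ((InM.prod (l := [of (act 1 0 0), of (x1m (-1)), of (x2m 0), of (act 1 0 0),
        of (x1m (-1)), of (x2m 0)]) (by simp [hx, InM.of_mem hl, InM.of_mem hm])).ok hS)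
        (by decide +kernel)

end Cfsg.Agent.C1
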