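import Cfsg.Agent.Lib.C1.Gam

/-!
Rows NRM and SYL.
-/

set_option autoImplicit false
set_option linter.unusedSimpArgs false

namespace Cfsg.Agent.C1

open Cfsg.Agent.Fus Cfsg.Agent.Fus2 Cfsg.Agent.Ess Subgroup
open scoped commutatorElement

namespace Nr

theorem exists_res (α : MulAut P) :
    ∃ γ : GV, (∀ v, α (jv v) = jv (γ v)) ∧ ∀ s, γ * rho s = rho (α s) * γ := by
  have h : HomOn ⊤ α := fun x _ y _ => map_mul α x y
  obtain ⟨γ, e⟩ := exists_lin (f := α) (fun x _ y _ => map_mul α x y) fun _ _ _ _ h => α.injective h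
  exact ⟨γ, e, fun s => res_mul h le_top e trivial⟩

theorem exists_dg (α : MulAut P) : ∃ i j k : Kˣ, (∀ s, (α s).x = i * s.x ∧ (α s).y = j * s.y) ∧
    (∀ v, (α (jv v)).v.f = k * v.f) ∧ α (jv ea) = jv ((k : K) • ea) := by
  obtain ⟨γ, e, h⟩ := exists_res α
  have hz : ∀ t : P, (α ⟨0, 0, 1, 0⟩).x * t.y = t.x * (α ⟨0, 0, 1, 0⟩).y := fun t => by
    obtain ⟨t, rfl⟩ := α.surjective t
    have := (mem_J.1 (aut_mem_J α (s := ⟨0, 0, 1, 0⟩ * t * (t * ⟨0, 0, 1, 0⟩)⁻¹)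
      (mem_J.2 (by simp; ring)))).2.2
    simp only [map_mul, map_inv, P.mul_x, P.mul_y, P.mul_z, P.inv_x, P.inv_y, P.inv_z] at this
    linear_combination this
  have hz' := h ⟨0, 0, 1, 0⟩
  rw [rho_eq, rho_eq, show (α ⟨0, 0, 1, 0⟩).x = 0 by simpa using hz ⟨0, 1, 0, 0⟩,
    show (α ⟨0, 0, 1, 0⟩).y = 0 by simpa using (hz ⟨1, 0, 0, 0⟩).symm] at hz'
  obtain ⟨s₁, s₂, -, -, s₄, s₅⟩ := st_of_z hz'
  obtain ⟨a6, a5, a3, a4, a2⟩ := s₁ ea (by simp [mem_vZ, ea])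
  obtain ⟨b6, b5, b3, b4⟩ := s₂ eb (by simp [mem_vY2, eb])
  obtain ⟨c6, c5⟩ := s₄ ec (by simp [mem_vY4, ec])
  obtain ⟨d6, d5⟩ := s₄ ed (by simp [mem_vY4, ed])
  have e6 : (γ ee).f = 0 := s₅ ee rfl
  have hb : (γ eb).b ≠ 0 := fun h₀ => by
    simpa [mem_vZ, eb] using s₁.iff.1 (show γ eb ∈ vZ from ⟨b6, b5, b3, b4, h₀⟩)
  have he : (γ ee).e ≠ 0 := fun h₀ => by
    simpa [mem_vY4, ee] using s₄.iff.1 (show γ ee ∈ vY4 from ⟨e6, h₀⟩)
  have hf : (γ ef).f ≠ 0 := fun h₀ => by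
    simpa [mem_vY5, ef] using s₅.iff.1 (show γ ef ∈ vY5 from h₀)
  have lin : ∀ v, γ v = v.a • γ ea + v.b • γ eb + v.c • γ ec + v.d • γ ed + v.e • γ ee +
      v.f • γ ef := fun v => by
    conv_lhs => rw [V.decomp v]
    simp only [map_add, map_smul]
  have key : ∀ (s : P) v, γ (act s.x s.y s.z v) = act (α s).x (α s).y (α s).z (γ v) :=
    fun s v => DFunLike.congr_fun (h s) v
  have ha : (γ ea).a = (γ ef).f := by
    have h₁ : ∀ v, γ (act 0 0 1 v) = act 0 0 (α ⟨0, 0, 1, 0⟩).z (γ v) :=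
      fun v => DFunLike.congr_fun hz' v
    have h₂ := congrArg V.a (h₁ ec)
    have h₃ := congrArg V.c (h₁ ef)
    have h₄ : (α ⟨0, 0, 1, 0⟩).z ≠ 0 := fun h₀ => by
      rw [h₀, u_zero, one_mul, mul_eq_left, u_eq_one] at hz'
      exact absurd hz'.2.2 one_ne_zero
    rw [show act 0 0 1 ec = ec - ea by decide, map_sub] at h₂
    rw [show act 0 0 1 ef = ef + ec + ea by decide, map_add, map_add] at h₃
    simp [act, c5, c6, a3] at h₂ h₃
    grind [three, K_sq h₄]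
  refine ⟨Units.mk0 _ (div_ne_zero hf hb), Units.mk0 _ (div_ne_zero he hf), Units.mk0 _ hf,
    fun s => ⟨?_, ?_⟩, fun v => ?_, ?_⟩
  · have := congrArg V.a (key s eb)
    rw [show act s.x s.y s.z eb = eb - s.x • ea by ext <;> simp [act, ea, eb]; grind [three],
      map_sub, map_smul] at this
    simp [act, b6, b5, b3, b4, ha] at this
    rw [Units.val_mk0, div_mul_eq_mul_div, eq_div_iff hb]
    grind [three]
  · have := congrArg V.e (key s ef)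
    rw [lin] at this
    simp only [V.add_e, V.smul_e, a5, b5, c5, d5, act] at this
    rw [Units.val_mk0, div_mul_eq_mul_div, eq_div_iff hf]
    generalize γ ef = w at *
    simp [ef] at this
    grind
  · rw [e, lin]
    simp [jv, a6, b6, c6, d6, e6, mul_comm]
  · rw [e, Units.val_mk0, ← ha]
    congr 1
    generalize γ ea = w at *
    ext <;> simp [a2, a3, a4, a5, a6, ea]

/-- The automorphisms which are unipotent on `P / Φ(P)`. -/
def P0 : Subgroup (MulAut P) where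
  carrier := {α | (∀ s, (α s).x = s.x ∧ (α s).y = s.y) ∧ ∀ s ∈ J, (α s).v.f = s.v.f}
  one_mem' := ⟨fun _ => ⟨rfl, rfl⟩, fun _ _ => rfl⟩
  mul_mem' := fun {α β} h h' => ⟨fun s => ⟨(h.1 _).1.trans (h'.1 s).1, (h.1 _).2.trans (h'.1 s).2⟩,
    fun s hs => (h.2 _ (aut_mem_J β hs)).trans (h'.2 s hs)⟩
  inv_mem' := fun {α} h => ⟨fun s => by simpa [eq_comm] using h.1 (α⁻¹ s),
    fun s hs => by simpa [eq_comm] using h.2 _ (aut_mem_J α⁻¹ hs)⟩

theorem pg_P0 : IsPGroup 3 P0 := by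
  let E : Subgroup P := E1 ⊓ E2
  have dz : ∀ z : K, (⟨0, 0, z, 0⟩ : P) = ⁅(⟨z, 0, 0, 0⟩ : P), (⟨0, 1, 0, 0⟩ : P)⁆ := fun z => by
    rw [commutatorElement_def]
    ext <;> simp [act]
  refine (Ctl.frattini pg (Ctl.trans_char pg (B := E) (ctl_of_trivOn fun β hβ s _ => ?_)
    (ctl_of_trivOn fun β hβ s hs => Fit.commutator_le_frattini pg ?_))).isPGroup
  · exact ⟨by simp [mem_E1, (hβ.1 s).1], by simp [mem_E2, (hβ.1 s).2]⟩
  have h₁ : ∀ s ∈ E, s = jv s.v * ⟨0, 0, s.z, 0⟩ := fun s hs => by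
    ext <;> simp [jv, act, mem_E1.1 hs.1, mem_E2.1 hs.2]
  have h₂ : (s⁻¹ * β s).v.f = 0 := by
    have := congrArg (fun t => (β t).v.f) (h₁ s hs)
    simp only [dz, map_mul, map_commutatorElement, commutatorElement_def, map_inv] at this
    simp [act, hβ.2 _ (jv_mem _)] at this
    simp [act, this, jv]
  have h₃ : s⁻¹ * β s ∈ E := ⟨by simp [mem_E1, (hβ.1 s).1], by simp [mem_E2, (hβ.1 s).2]⟩
  generalize s⁻¹ * β s = t at h₂ h₃
  rw [h₁ t h₃, dz, show jv t.v = ⁅(⟨0, 1, 0, 0⟩ : P), jv ⟨0, 0, t.v.b, 0, t.v.e - t.v.d, t.v.e⟩⁆ *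
    ⁅(⟨1, 0, 0, 0⟩ : P), jv ⟨0, -t.v.a, 0, 0, t.v.c, 0⟩⁆ by
      simp only [commutatorElement_def, conj_jv, ← jv_neg, ← jv_add]
      congr 1
      ext <;> simp [rho_apply, act, h₂] <;> grind [three]]
  exact mul_mem (mul_mem (commutator_mem_commutator trivial trivial)
    (commutator_mem_commutator trivial trivial)) (commutator_mem_commutator trivial trivial)

instance normal_P0 : P0.Normal := ⟨fun β hβ γ => by
  obtain ⟨i, j, k, h₁, h₂, -⟩ := exists_dg γ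
  have h₃ : ∀ s ∈ J, (γ s).v.f = k * s.v.f := fun s hs => by rw [← h₂, jv_of_mem hs]
  refine ⟨fun s => ?_, fun s hs => ?_⟩
  · obtain ⟨s, rfl⟩ := γ.surjective s
    simp [h₁, hβ.1]
  · have h := aut_mem_J γ⁻¹ hs
    rw [MulAut.mul_apply, MulAut.mul_apply, h₃ _ (aut_mem_J β h), hβ.2 _ h, ← h₃ _ h]
    simp⟩

theorem dg_mul (i j k i' j' k' : Kˣ) : dg i j k * dg i' j' k' = dg (i * i') (j * j') (k * k') := by
  ext s <;> simp [dg, dF] <;> ring

/-- The diagonal automorphisms. -/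
def Dg : Subgroup (MulAut P) where
  carrier := {h | ∃ i j k, h = dg i j k}
  one_mem' := ⟨1, 1, 1, by ext s <;> simp [dg, dF]⟩
  mul_mem' := by
    rintro _ _ ⟨i, j, k, rfl⟩ ⟨i', j', k', rfl⟩
    exact ⟨_, _, _, dg_mul ..⟩
  inv_mem' := by
    rintro _ ⟨i, j, k, rfl⟩
    exact ⟨i, j, k, rfl⟩

theorem exists_conj {A : Subgroup (MulAut P)} (hA : ¬ 3 ∣ Nat.card A) :
    ∃ θ : MulAut P, ∀ a ∈ A, θ⁻¹ * a * θ ∈ Dg := by
  obtain ⟨θ, -, h⟩ := Solv.sz_star (A := A) (K := P0) (S := Dg) le_normalizer_of_normal (by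
      obtain ⟨k, hk⟩ := pg_P0.exists_card_eq
      rw [hk]
      exact ((Nat.prime_three.coprime_iff_not_dvd.2 hA).symm).pow_right k)
    (.inr (by have := pg_P0.isNilpotent; infer_instance)) fun a _ => by
      obtain ⟨i, j, k, h₁, h₂, -⟩ := exists_dg a
      refine ⟨a * (dg i j k)⁻¹, ⟨fun s => ?_, fun s hs => ?_⟩, i, j, k, by group⟩
      · obtain ⟨s, rfl⟩ := (dg i j k).surjective s
        rw [MulAut.mul_apply, MulAut.inv_apply_self, (h₁ s).1, (h₁ s).2]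
        exact ⟨rfl, rfl⟩
      · have h := aut_mem_J (dg i j k)⁻¹ hs
        obtain ⟨s, rfl⟩ := (dg i j k).surjective s
        rw [MulAut.inv_apply_self] at h
        rw [MulAut.mul_apply, MulAut.inv_apply_self, ← jv_of_mem h, h₂]
        rfl
  exact ⟨θ, h⟩

end Nr

theorem nrm : NrmStmt := by
  refine ⟨Nr.exists_dg, fun {F} hF f hf h₁ h₂ => ?_, fun {F} hF => ?_⟩
  · obtain ⟨β, hβ, eβ⟩ := hf.exists_aut' fun _ _ => trivial
    have e : ∀ s, MulAut.congr topEquiv β s = f s := fun s =>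
      (afn_apply β (mem_top s)).symm.trans (eβ s trivial)
    obtain ⟨k, hk⟩ := exists_pow_eq_one_of_mem Nr.pg_P0 (β := MulAut.congr topEquiv β)
      ⟨fun s => e s ▸ h₁ s, fun s hs => by rw [e, ← jv_of_mem hs, h₂]; rfl⟩
    rw [← map_pow, map_eq_one_iff _ (MulEquiv.injective _)] at hk
    have := innNormal (⊤ : Subgroup P)
    obtain ⟨g, -, hg⟩ := Fus2.mem_Inn_iff.1 ((sat_sylow_top pg_top hF).le_of_le_normalizer
      (zpowers_le.2 hβ) (isPGroup_zpowers_of_pow hk) le_normalizer_of_normal (mem_zpowers β))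
    exact ⟨g, fun t => by rw [← eβ t trivial, hg t trivial]⟩
  have hs := sat_sylow_top pg_top hF
  have := Inn_subgroupOf_normal (F.autGroup ⊤)
  obtain ⟨H, hH⟩ := exists_right_complement'_of_coprime
    (N := (Inn (⊤ : Subgroup P)).subgroupOf (F.autGroup ⊤)) (by
      obtain ⟨k, hk⟩ := (hs.isPGroup.comap_subtype (K := F.autGroup ⊤)).exists_card_eq
      rw [show Nat.card ((Inn (⊤ : Subgroup P)).subgroupOf (F.autGroup ⊤)) = _ from hk]
      exact (Nat.prime_three.coprime_iff_not_dvd.2 hs.not_dvd_relIndex).pow_left k)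
  let e : F.autGroup ⊤ →* MulAut P :=
    (MulAut.congr topEquiv).toMonoidHom.comp (F.autGroup ⊤).subtype
  obtain ⟨θ, hθ⟩ := Nr.exists_conj (A := H.map e) fun h => hs.not_dvd_relIndex (by
    rw [relIndex, hH.symm.index_eq_card]
    exact h.trans (card_map_dvd H e))
  refine ⟨θ⁻¹, fun f hf => ?_⟩
  obtain ⟨β, hβ, eβ⟩ := hf.exists_aut' fun _ _ => trivial
  obtain ⟨⟨⟨n, hn⟩, h⟩, e₁⟩ := hH.2 ⟨β, hβ⟩
  obtain ⟨g, -, hg⟩ := (Fus2.mem_Inn_iff (α := n.1)).1 hn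
  obtain ⟨l, m, φ, e₂⟩ := hθ _ ⟨h, h.2, rfl⟩
  refine ⟨θ⁻¹ g, l, m, φ, fun y => ?_⟩
  have e₃ : β = n.1 * h.1.1 := (congrArg Subtype.val e₁).symm
  rw [← eβ _ trivial, e₃, afn_mul, hg _ trivial, ← e₂, afn_apply _ (mem_top _), map_mul, map_mul,
    map_inv]
  rfl

theorem syl : SylStmt := by
  intro G _ _ ι l h
  have hp : IsPGroup 3 ι.range := pg.of_surjective _ ι.rangeRestrict_surjective
  refine isSylowIn_top_of_normalizer hp fun g hg ⟨k, hk⟩ => ?_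
  have hX : IsPGroup 3 (zpowers g ⊔ ι.range : Subgroup G) :=
    (isPGroup_zpowers_of_pow hk).to_sup_of_normal_right' hp (zpowers_le.2 hg)
  let e := MonoidHom.ofInjective h.inj
  let c : normalizer (ι.range : Set G) →* MulAut P :=
    (MulAut.congr e.symm).toMonoidHom.comp (normalizerMonoidHom _)
  have hc : ∀ g s, ι (c g s) = g * ι s * g.1⁻¹ := fun g s =>
    MonoidHom.apply_ofInjective_symm h.inj _
  obtain ⟨i, j, m, h₁, h₂, -⟩ := Nr.exists_dg (c ⟨g, hg⟩)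
  obtain ⟨γ, h₃, h₄⟩ := Nr.exists_res (c ⟨g, hg⟩)
  have h₀ : c ⟨g, hg⟩ ^ 3 ^ k = 1 := by
    rw [← map_pow, show (⟨g, hg⟩ : normalizer (ι.range : Set G)) ^ 3 ^ k = 1 from Subtype.ext hk,
      map_one]
  have hα := hc ⟨g, hg⟩
  generalize c ⟨g, hg⟩ = α at *
  have one : ∀ (φ : P → K) (i : K) (A : Subgroup P), (∀ s ∈ A, α s ∈ A) →
      (∀ s ∈ A, φ (α s) = i * φ s) → ∀ s ∈ A, φ s = 1 → i = 1 := fun φ i A h₁ h₂ s hs h₃ => by
    have : ∀ n : ℕ, (α ^ n) s ∈ A ∧ φ ((α ^ n) s) = i ^ n := fun n => by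
      induction n with
      | zero => exact ⟨hs, h₃⟩
      | succ n ih =>
        rw [pow_succ', pow_succ', ← ih.2]
        exact ⟨h₁ _ ih.1, h₂ _ ih.1⟩
    have := (this (3 ^ k)).2
    rwa [h₀, ZMod.pow_card_pow, eq_comm, MulAut.one_apply, h₃] at this
  have hi := one P.x i ⊤ (fun _ _ => trivial) (fun s _ => (h₁ s).1) ⟨1, 0, 0, 0⟩ trivial rfl
  have hj := one P.y j ⊤ (fun _ _ => trivial) (fun s _ => (h₁ s).2) ⟨0, 1, 0, 0⟩ trivial rfl
  have hm := one (·.v.f) m J (fun _ => aut_mem_J α) (fun s hs => by rw [← h₂, jv_of_mem hs])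
    (jv ef) (jv_mem _) rfl
  simp only [hi, hj, hm, one_mul] at h₁ h₂
  let r : P := ⟨-(α ⟨0, 1, 0, 0⟩).z, (α ⟨1, 0, 0, 0⟩).z, 0, 0⟩
  have c₁ : rho r * γ * u 1 0 0 = u 1 0 0 * (rho r * γ) := by
    rw [mul_assoc, show u 1 0 0 = rho ⟨1, 0, 0, 0⟩ from rfl, h₄, ← mul_assoc, ← mul_assoc]
    simp [rho_eq, u_mul, h₁, r, add_comm]
  have c₂ : rho r * γ * u 0 1 0 = u 0 1 0 * (rho r * γ) := by
    rw [mul_assoc, show u 0 1 0 = rho ⟨0, 1, 0, 0⟩ from rfl, h₄, ← mul_assoc, ← mul_assoc]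
    simp [rho_eq, u_mul, h₁, r, add_comm]
  have c₃ : rho r * γ * u 0 0 1 = u 0 0 1 * (rho r * γ) := by
    have : u 0 0 1 = u 1 0 0 * u 0 1 0 * (u 1 0 0)⁻¹ * (u 0 1 0)⁻¹ := by simp [u_mul, u_inv]
    rw [this]
    exact ((Commute.mul_right c₁ c₂).mul_right (Commute.inv_right c₁)).mul_right
      (Commute.inv_right c₂)
  have hw : ((rho r * γ) ef).f = 1 := congrArg (·.v.f) (h₃ ef).symm |>.trans (h₂ ef)
  have hx : (rho r * γ) ef = act 1 0 0 ((rho r * γ) ef) := DFunLike.congr_fun c₁ ef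
  have hγ : rho r * γ = u 0 0 ((rho r * γ) ef).c *
      nV (((rho r * γ) ef).a - ((rho r * γ) ef).c ^ 2) := by
    refine eq_of_comm c₂ c₃ ?_ ?_ ?_
    · ext v <;> simp [GV.mul_apply, u_apply, act, nV, nF] <;> ring
    · ext v <;> simp [GV.mul_apply, u_apply, act, nV, nF] <;> ring
    · generalize (rho r * γ) ef = w at hw hx
      have e₁ := congrArg V.a hx
      have e₂ := congrArg V.b hx
      have e₃ := congrArg V.c hx
      simp [act] at e₁ e₂ e₃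
      ext <;> simp [GV.mul_apply, u_apply, act, nV, nF, ef, hw, e₂, e₃] <;> grind [three]
  generalize ((rho r * γ) ef).a - ((rho r * γ) ef).c ^ 2 = n at hγ
  generalize ((rho r * γ) ef).c = z at hγ
  replace hγ : rho ((⟨0, 0, z, 0⟩ : P)⁻¹ * r) * γ = nV n := by
    rw [map_mul, map_inv, mul_assoc, hγ]
    exact inv_mul_cancel_left _ _
  generalize (⟨0, 0, z, 0⟩ : P)⁻¹ * r = t at hγ
  have key : ∀ v, ι t * g * ι (jv v) = ι (jv (nF n v)) * (ι t * g) := fun v => by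
    rw [mul_assoc, mul_inv_eq_iff_eq_mul.1 (hα _).symm, h₃, ← mul_assoc, ← map_mul, mul_jv,
      map_mul, mul_assoc, ← GV.mul_apply, hγ]
    rfl
  obtain rfl := h.nw _ _ key
  obtain ⟨k', hk'⟩ := exists_pow_eq_one_of_mem hX
    (mul_mem (mem_sup_right ⟨t, rfl⟩) (mem_sup_left (mem_zpowers g)))
  exact (ι.range.mul_mem_cancel_left ⟨t, rfl⟩).1
    (h.cent _ _ hk' fun v => by rw [key]; congr 3; ext <;> simp [nF])

end Cfsg.Agent.C1
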