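import Cfsg.Agent.Lib.C1.Defs

/-!
Row MODEL: the groups `Sp₆(3)` and `GSp₆(3)`.
-/

set_option autoImplicit false
set_option linter.unusedSimpArgs false
set_option linter.unnecessarySeqFocus false

namespace Cfsg.Agent.C1

open Matrix

namespace Sp

abbrev N := Fin 3 ⊕ Fin 3
abbrev M3 := Matrix (Fin 3) (Fin 3) K

def um (s : P) : M3 := !![1, s.x, s.z; 0, 1, s.y; 0, 0, 1]
def ui (s : P) : M3 := !![1, 0, 0; -s.x, 1, 0; s.x * s.y - s.z, -s.y, 1]
def sm (v : V) : M3 := !![v.a, v.b, v.c; v.b, v.d, v.e; v.c, v.e, v.f]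
def im (s : P) : Matrix N N K := fromBlocks (um s) (sm s.v * ui s) 0 (ui s)

theorem im_mul (s t : P) : im (s * t) = im s * im t := by
  simp only [im, fromBlocks_multiply, Matrix.mul_zero, Matrix.zero_mul, add_zero, zero_add]
  congr 1 <;> ext i j <;> fin_cases i <;> fin_cases j <;>
    simp [um, ui, sm, act, Matrix.mul_apply, Fin.sum_univ_three] <;> ring

theorem sm_one : sm ⟨1, 0, 0, 1, 0, 1⟩ = 1 := by decide

theorem um_jv (v : V) : um (jv v) = 1 := by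
  ext i j; fin_cases i <;> fin_cases j <;> rfl

theorem ui_jv (v : V) : ui (jv v) = 1 := by
  ext i j; fin_cases i <;> fin_cases j <;> simp [ui, jv]

theorem im_jv (v : V) : im (jv v) = fromBlocks 1 (sm v) 0 1 := by
  rw [im, um_jv, ui_jv, Matrix.mul_one]; rfl

theorem im_one : im 1 = 1 := by
  rw [show (1 : P) = jv 0 from rfl, im_jv, ← fromBlocks_one]
  congr 1
  ext i j; fin_cases i <;> fin_cases j <;> rfl

def Jm : Matrix N N K := fromBlocks 0 (-1) 1 0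

theorem Jm_sq : Jm * Jm = -1 := by decide

/-- The similitudes with multiplier in `A`. -/
def Gm (A : Subgroup Kˣ) : Subgroup (GL N K) where
  carrier := {g | ∃ l ∈ A, g.1ᵀ * Jm * g.1 = (l : K) • Jm}
  one_mem' := ⟨1, one_mem _, by simp⟩
  mul_mem' := by
    rintro g h ⟨l, hl, e⟩ ⟨m, hm, e'⟩
    refine ⟨l * m, mul_mem hl hm, ?_⟩
    rw [Units.val_mul, transpose_mul, Units.val_mul, mul_smul, ← e', ← Matrix.smul_mul,
      ← Matrix.mul_smul, ← e]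
    simp only [mul_assoc]
  inv_mem' := by
    rintro g ⟨l, hl, e⟩
    refine ⟨l⁻¹, inv_mem hl, ?_⟩
    have : (g⁻¹).1ᵀ * (g.1ᵀ * Jm * g.1) * (g⁻¹).1 = Jm := by
      rw [← mul_assoc, ← mul_assoc, ← transpose_mul, mul_assoc, ← Units.val_mul]
      simp
    rw [e, Matrix.mul_smul, Matrix.smul_mul] at this
    rw [← congrArg ((l⁻¹ : Kˣ).1 • ·) this, smul_smul, Units.inv_mul, one_smul]

variable {A : Subgroup Kˣ}

theorem exists_G {l : Kˣ} (hl : l ∈ A) {M : Matrix N N K}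
    (h : Mᵀ * Jm * M = (l : K) • Jm) : ∃ g : Gm A, g.1.1 = M := by
  have : (-(l⁻¹ : Kˣ).1 • (Jm * (Mᵀ * Jm))) * M = 1 := by
    rw [Matrix.smul_mul, mul_assoc, h, Matrix.mul_smul, Jm_sq, smul_smul, neg_mul,
      Units.inv_mul, neg_smul, one_smul, neg_neg]
  obtain ⟨g, rfl⟩ := (isUnit_iff_isUnit_det M).2 (isUnit_det_of_left_inverse this)
  exact ⟨⟨g, l, hl, h⟩, rfl⟩

variable (A) in
/-- The embedding of `P`. -/
def io : P →* Gm A :=
  (MonoidHom.toHomUnits ⟨⟨im, im_one⟩, im_mul⟩).codRestrict _ fun s => ⟨1, one_mem _, by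
    show (im s)ᵀ * Jm * im s = (1 : Kˣ).1 • Jm
    simp only [im, Jm, fromBlocks_transpose, fromBlocks_multiply, Matrix.mul_zero, Matrix.zero_mul,
      add_zero, zero_add, transpose_zero, Units.val_one, one_smul]
    congr 1 <;> ext i j <;> fin_cases i <;> fin_cases j <;>
      simp [um, ui, sm, Matrix.mul_apply, Fin.sum_univ_three] <;> ring⟩

theorem eq_iff {g h : Gm A} {s t : P} :
    g * io A s = io A t * h ↔ g.1.1 * im s = im t * h.1.1 := by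
  rw [Subtype.ext_iff, Units.ext_iff]; rfl

theorem levi {l : Kˣ} (hl : l ∈ A) (a d : M3) (h : aᵀ * d = (l : K) • (1 : M3)) :
    ∃ g : Gm A, ∀ s t : P, a * um s = um t * a → a * sm s.v = sm t.v * d →
      d * ui s = ui t * d → g * io A s = io A t * g := by
  have h' : dᵀ * a = (l : K) • (1 : M3) := by simpa using congrArg transpose h
  obtain ⟨g, hg⟩ := exists_G hl (M := fromBlocks a 0 0 d) (by
    simp [Jm, fromBlocks_transpose, fromBlocks_multiply, fromBlocks_smul, h, h'])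
  refine ⟨g, fun s t h₁ h₂ h₃ => ?_⟩
  simp [eq_iff, hg, im, fromBlocks_multiply, h₁, h₃, ← mul_assoc, h₂, mul_assoc _ d]

theorem blocks {g : Gm A} {f : V → V} (hf : ∀ v, g * io A (jv v) = io A (jv (f v)) * g) :
    g.1.1.toBlocks₂₁ = 0 ∧ ∀ v, g.1.1.toBlocks₁₁ * sm v = sm (f v) * g.1.1.toBlocks₂₂ := by
  simp only [eq_iff, im_jv] at hf
  rw [← fromBlocks_toBlocks g.1.1] at hf
  simp only [fromBlocks_multiply, fromBlocks_inj, Matrix.mul_zero, Matrix.zero_mul, add_zero,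
    zero_add, Matrix.mul_one, Matrix.one_mul] at hf
  refine ⟨?_, fun v => by simpa [add_comm] using (hf v).2.1⟩
  simpa [sm_one] using (hf ⟨1, 0, 0, 1, 0, 1⟩).2.2.2

theorem md : Mod (io A) 0 where
  inj := (injective_iff_map_eq_one _).2 fun s h => by
    have h : im s = 1 := congrArg (·.1.1) h
    rw [im, ← fromBlocks_one, fromBlocks_inj] at h
    obtain ⟨h₁, h₂, -, h₃⟩ := h
    rw [h₃, Matrix.mul_one] at h₂
    ext
    exacts [congrFun₂ h₁ 0 1, congrFun₂ h₁ 1 2, congrFun₂ h₁ 0 2, congrFun₂ h₂ 0 0,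
      congrFun₂ h₂ 0 1, congrFun₂ h₂ 0 2, congrFun₂ h₂ 1 1, congrFun₂ h₂ 1 2, congrFun₂ h₂ 2 2]
  cent g k hk h := by
    obtain ⟨h₀, h₁⟩ := blocks (f := id) h
    have h₂ := h₁ ⟨1, 0, 0, 1, 0, 1⟩
    rw [id, sm_one, Matrix.mul_one, Matrix.one_mul] at h₂
    obtain ⟨c, h₃⟩ : ∃ c : K, g.1.1.toBlocks₂₂ = c • 1 := by
      rw [h₂] at h₁
      generalize g.1.1.toBlocks₂₂ = a at h₁
      have e₁ := congrFun₂ (h₁ ea)
      have e₂ := congrFun₂ (h₁ eb)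
      have e₃ := congrFun₂ (h₁ ec)
      have e₄ := congrFun₂ (h₁ ed)
      simp only [Fin.forall_fin_succ, Matrix.mul_apply, Fin.sum_univ_three] at e₁ e₂ e₃ e₄
      simp [sm, ea, eb, ec, ed] at e₁ e₂ e₃ e₄
      refine ⟨a 0 0, ?_⟩
      ext i j
      fin_cases i <;> fin_cases j <;>
        simp [e₄.1, ← e₁.1.2, e₁.2.1, e₁.2.2, ← e₂.1.2.2, e₄.2.2, e₂.2.1.1, e₃.2.2.1]
    have h₄ : ∀ n : ℕ, (g ^ n).1.1.toBlocks₂₁ = 0 ∧ (g ^ n).1.1.toBlocks₂₂ = c ^ n • 1 := fun n => by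
      induction n with
      | zero => simp [← fromBlocks_one]
      | succ n ih =>
        rw [pow_succ, Subgroup.coe_mul, Units.val_mul, ← fromBlocks_toBlocks (g ^ n).1.1,
          ← fromBlocks_toBlocks g.1.1, ih.1, ih.2, h₀, h₃]
        simp [fromBlocks_multiply, smul_smul, pow_succ']
    have h₅ := congrFun₂ (h₄ (3 ^ k)).2 0 0
    rw [hk, ZMod.pow_card_pow] at h₅
    obtain rfl : c = 1 := by simpa [toBlocks₂₂] using h₅.symm
    obtain ⟨l, -, e⟩ := g.2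
    rw [← fromBlocks_toBlocks g.1.1, h₂, h₀, h₃] at e
    simp only [Jm, fromBlocks_transpose, fromBlocks_multiply, fromBlocks_smul, fromBlocks_inj] at e
    have e := congrFun₂ e.2.2.2
    refine ⟨jv ⟨g.1.1.toBlocks₁₂ 0 0, g.1.1.toBlocks₁₂ 0 1, g.1.1.toBlocks₁₂ 0 2,
      g.1.1.toBlocks₁₂ 1 1, g.1.1.toBlocks₁₂ 1 2, g.1.1.toBlocks₁₂ 2 2⟩,
      Subtype.ext (Units.ext ((im_jv _).trans ?_))⟩
    rw [← fromBlocks_toBlocks g.1.1, h₂, h₀, h₃, one_smul, toBlocks_fromBlocks₁₂]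
    congr 1
    have e₁ := e 0 1
    have e₂ := e 0 2
    have e₃ := e 1 2
    simp [add_neg_eq_zero] at e₁ e₂ e₃
    ext i j; fin_cases i <;> fin_cases j <;> simp [sm, *]
  nw g j h := by
    obtain ⟨h₀, h₁⟩ := blocks h
    by_contra hj
    have e₁ := congrFun₂ (h₁ ea) 0
    have e₂ := congrFun₂ (h₁ ef) 0 0
    have e₃ := congrFun₂ g.1.mul_inv (.inr 0) (.inr 0)
    rw [← fromBlocks_toBlocks g.1.1, ← fromBlocks_toBlocks g.1⁻¹.1, h₀, fromBlocks_multiply] at e₃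
    simp only [Fin.forall_fin_succ, Matrix.mul_apply, Fin.sum_univ_three] at e₁ e₂
    simp [sm, ea, ef, nF, hj] at e₁ e₂
    simp [Matrix.mul_apply, Fin.sum_univ_three, ← e₁.2.1, ← e₁.2.2, e₂] at e₃
  w1 := by
    obtain ⟨g, hg⟩ := levi (one_mem A) !![1, 0, 0; 1, 1, 0; 0, 0, 1] !![1, -1, 0; 0, 1, 0; 0, 0, 1]
      (by decide)
    refine ⟨g, fun v => hg _ _ ?_ ?_ ?_⟩ <;> ext i j <;> fin_cases i <;> fin_cases j <;>
      simp [um, ui, sm, jv, x1F, Matrix.mul_apply, Fin.sum_univ_three] <;> ring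
  w2 := by
    obtain ⟨g, hg⟩ := levi (one_mem A) !![1, 0, 0; 0, 1, 0; 0, 1, 1] !![1, 0, 0; 0, 1, -1; 0, 0, 1]
      (by decide)
    refine ⟨g, fun v => hg _ _ ?_ ?_ ?_⟩ <;> ext i j <;> fin_cases i <;> fin_cases j <;>
      simp [um, ui, sm, jv, x2F, Matrix.mul_apply, Fin.sum_univ_three] <;> ring
  w3 := by
    obtain ⟨g, hg⟩ := exists_G (one_mem A) (M := fromBlocks !![1, 0, 0; 0, 1, 0; 0, 0, 0]
      !![0, 0, 0; 0, 0, 0; 0, 0, -1] !![0, 0, 0; 0, 0, 0; 0, 0, 1] !![1, 0, 0; 0, 1, 0; 0, 0, 0])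
      (by decide)
    exact ⟨g, ec, ⟨0, 0, -1, 0⟩, by simp [mem_J], by rw [eq_iff, hg]; decide⟩
  t1 := by
    obtain ⟨g, hg⟩ := levi (one_mem A) !![1, 0, 0; 0, 1, 0; 0, 0, -1] !![1, 0, 0; 0, 1, 0; 0, 0, -1]
      (by decide)
    refine ⟨g, fun v => hg _ _ ?_ ?_ ?_⟩ <;> ext i j <;> fin_cases i <;> fin_cases j <;>
      simp [um, ui, sm, dg, dF, Matrix.mul_apply, Fin.sum_univ_three] <;> ring
  t2 := by
    obtain ⟨g, hg⟩ := levi (one_mem A) !![-1, 0, 0; 0, 1, 0; 0, 0, 1] !![-1, 0, 0; 0, 1, 0; 0, 0, 1]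
      (by decide)
    refine ⟨g, fun v => hg _ _ ?_ ?_ ?_⟩ <;> ext i j <;> fin_cases i <;> fin_cases j <;>
      simp [um, ui, sm, dg, dF, Matrix.mul_apply, Fin.sum_univ_three] <;> ring

end Sp

open Sp in
theorem sp : SpStmt := by
  refine ⟨⟨Gm ⊥, inferInstance, inferInstance, io ⊥, md, fun g h => ?_⟩,
    Gm ⊤, inferInstance, inferInstance, io ⊤, md, ?_⟩
  · obtain ⟨l, hl, e⟩ := g.2
    rw [Subgroup.mem_bot.1 hl] at e
    rw [eq_iff, im_jv, im_jv] at h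
    have e := congrFun₂ e (.inl 0) (.inr 0)
    have h₁ := fun i => congrFun₂ h i (.inr 0)
    simp only [Sum.forall, Fin.forall_fin_succ] at h₁
    simp [Matrix.mul_apply, Fin.sum_univ_three, sm, ea, Jm] at h₁ e
    simp [h₁] at e
    rw [add_right_cancel (h₁.1.1.trans (add_comm _ _))] at e
    exact (by decide : ∀ c : K, -c * c ≠ 1) _ e
  · obtain ⟨g, hg⟩ := levi (Subgroup.mem_top (-1)) 1 (-1) (by decide)
    refine ⟨g, fun v => hg _ _ ?_ ?_ ?_⟩ <;> ext i j <;> fin_cases i <;> fin_cases j <;>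
      simp [um, ui, sm, dg, dF, Matrix.mul_apply, Fin.sum_univ_three]

end Cfsg.Agent.C1
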